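import Cfsg.Agent.Lib.H89.ModelD
import Cfsg.Agent.Lib.H89.Normal3
import Cfsg.Agent.Lib.H90.FusAb

/-!
`Z(F)` is a direct factor of `Z(S)` when `Z(S)` lies in a subgroup normal in `F`.
-/

set_option autoImplicit false
set_option linter.unusedSectionVars false
open Cfsg Cfsg.FusionSystem H86.FusBasic H86.FusSat H89.ModelA
open scoped IsMulCommutative

namespace H89.CenterFactor

variable {Ω : Type*} [Group Ω] {S : Subgroup Ω} {F : FusionSystem S} {p : ℕ} [Fact p.Prime]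
  {Q : Subgroup Ω}

/-- `Z(S)` as a subgroup of the ambient group. -/
abbrev ZS (S : Subgroup Ω) : Subgroup Ω := S ⊓ Subgroup.centralizer (S : Set Ω)

theorem mem_ZS {z : Ω} : z ∈ ZS S ↔ z ∈ S ∧ ∀ s ∈ S, s * z = z * s := by
  rw [Subgroup.mem_inf, Subgroup.mem_centralizer_iff]
  rfl

/-- The elements of `Z(S)` as elements of `Z(Q)`. -/
def zc (hZ : ZS S ≤ Q) (hQS : Q ≤ S) : ZS S →* Subgroup.center Q where
  toFun z := ⟨⟨z, hZ z.2⟩, by
    rw [Subgroup.mem_center_iff]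
    intro q
    apply Subtype.ext
    exact (mem_ZS.1 z.2).2 q (hQS q.2)⟩
  map_one' := rfl
  map_mul' _ _ := rfl

theorem cact_zc (hZ : ZS S ≤ Q) (hQS : Q ≤ S) (z : ZS S) {a b : F.autGroup Q}
    (h : a⁻¹ * b ∈ (autInducedBy S Q).subgroupOf (F.autGroup Q)) :
    cact a (zc hZ hQS z) = cact b (zc hZ hQS z) := by
  have h1 : cact (a⁻¹ * b) (zc hZ hQS z) = zc hZ hQS z := by
    obtain ⟨g, hg, hx⟩ := H86.FusBasic.mem_autInducedBy.1 (Subgroup.mem_subgroupOf.1 h)
    apply Subtype.ext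
    apply Subtype.ext
    refine (hx ⟨z, hZ z.2⟩).trans ?_
    show g * (z : Ω) * g⁻¹ = z
    rw [(mem_ZS.1 z.2).2 g hg, mul_inv_cancel_right]
  have h2 : b = a * (a⁻¹ * b) := by group
  rw [h2, cact_mul, h1]

variable [Fintype (Xt F Q)]

/-- The trace map. -/
def V (F : FusionSystem S) {Q : Subgroup Ω} [Fintype (Xt F Q)] (hZ : ZS S ≤ Q) (hQS : Q ≤ S) :
    ZS S →* Subgroup.center Q where
  toFun z := ∏ x : Xt F Q, Quotient.liftOn' x (fun a : F.autGroup Q => cact a (zc hZ hQS z))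
    (fun _ _ h => cact_zc hZ hQS z (QuotientGroup.leftRel_apply.1 h))
  map_one' := by
    apply Finset.prod_eq_one
    intro x _
    induction x using QuotientGroup.induction_on with
    | _ a => exact map_one _
  map_mul' z w := by
    rw [← Finset.prod_mul_distrib]
    apply Finset.prod_congr rfl
    intro x _
    induction x using QuotientGroup.induction_on with
    | _ a =>
      show cact a (zc hZ hQS (z * w)) = cact a (zc hZ hQS z) * cact a (zc hZ hQS w)
      rw [map_mul, map_mul]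

theorem V_apply (hZ : ZS S ≤ Q) (hQS : Q ≤ S) (z : ZS S) : V F hZ hQS z =
    ∏ x : Xt F Q, Quotient.liftOn' x (fun a : F.autGroup Q => cact a (zc hZ hQS z))
      (fun _ _ h => cact_zc hZ hQS z (QuotientGroup.leftRel_apply.1 h)) := rfl

theorem cact_V (hZ : ZS S ≤ Q) (hQS : Q ≤ S) (z : ZS S) (a : F.autGroup Q) :
    cact a (V F hZ hQS z) = V F hZ hQS z := by
  rw [V_apply, map_prod]
  conv_rhs => rw [← Equiv.prod_comp (MulAction.toPerm a)]
  apply Finset.prod_congr rfl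
  intro x _
  induction x using QuotientGroup.induction_on with
  | _ b =>
    show cact a (cact b (zc hZ hQS z)) = cact (a * b) (zc hZ hQS z)
    rw [cact_mul]

theorem V_mem (hZ : ZS S ≤ Q) (hQS : Q ≤ S) (hN : S ≤ Subgroup.normalizer (Q : Set Ω)) (z : ZS S) :
    (((V F hZ hQS z : Subgroup.center Q) : Q) : Ω) ∈ ZS S := by
  rw [mem_ZS]
  refine ⟨hQS (Subtype.prop _), fun s hs => ?_⟩
  have h1 := cact_V (F := F) hZ hQS z (act F hQS hN ⟨s, hs⟩)
  have h2 := congrArg (fun c : Subgroup.center Q => ((c : Q) : Ω)) h1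
  have h3 : s * (((V F hZ hQS z : Subgroup.center Q) : Q) : Ω) * s⁻¹ =
    (((V F hZ hQS z : Subgroup.center Q) : Q) : Ω) := h2
  rwa [mul_inv_eq_iff_eq_mul] at h3

theorem V_fixed (hZ : ZS S ≤ Q) (hQS : Q ≤ S) (z : ZS S)
    (h : ∀ α ∈ F.autGroup Q, ((α ⟨z, hZ z.2⟩ : Q) : Ω) = z) :
    V F hZ hQS z = zc hZ hQS z ^ Nat.card (Xt F Q) := by
  rw [V_apply, Nat.card_eq_fintype_card, ← Finset.card_univ, ← Finset.prod_const]
  apply Finset.prod_congr rfl
  intro x _
  induction x using QuotientGroup.induction_on with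
  | _ a =>
    show cact a (zc hZ hQS z) = zc hZ hQS z
    apply Subtype.ext
    apply Subtype.ext
    exact h a a.2

omit [Fintype (Xt F Q)] in
/-- Elements of `Z(S)` fixed by `Aut_F(Q)`, `Q` normal, are in the centre of `F`. -/
theorem mem_center_iff [Finite S] (hS : IsPGroup p S) (hF : F.IsSaturated p) (hQ : F.IsNormal Q)
    (hZ : ZS S ≤ Q) {z : Ω} (hz : z ∈ ZS S) :
    z ∈ F.center ↔ ∀ α ∈ F.autGroup Q, ((α ⟨z, hZ hz⟩ : Q) : Ω) = z := by
  constructor
  · intro h α hα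
    exact H90.FusAb.map_fixed_of_mem_center h ((H86.FusBasic.mem_autGroup' F hQ.1).1 hα) (hZ hz)
  · intro h
    have hzS : z ∈ S := (mem_ZS.1 hz).1
    have hcz : F.IsCentral (Subgroup.zpowers z) := by
      rw [H89.Normal3.isCentral_iff hS hF]
      refine ⟨by rwa [Subgroup.zpowers_le], ?_⟩
      rintro x ⟨k, rfl⟩ y ⟨φ, hφ, hxy⟩
      obtain ⟨ψ, hψ, hψP, κ, hκ, hκQ⟩ := H89.Normal.isNormal_extend hQ hφ
      have h1 := hψP ⟨z ^ k, Subgroup.mem_zpowers _⟩
      rw [hxy] at h1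
      have hzQ : z ^ k ∈ Q := Q.zpow_mem (hZ hz) k
      have h2 := hκQ ⟨z ^ k, hzQ⟩
      have h3 : ψ (Subgroup.inclusion le_sup_left ⟨z ^ k, Subgroup.mem_zpowers _⟩) =
        ψ (Subgroup.inclusion le_sup_right ⟨z ^ k, hzQ⟩) := rfl
      have h4 : (⟨z ^ k, hzQ⟩ : Q) = ⟨z, hZ hz⟩ ^ k := rfl
      have h5 : κ ⟨z, hZ hz⟩ = ⟨z, hZ hz⟩ := Subtype.ext (h κ hκ)
      rw [← h1, h3, h2, h4, map_zpow, h5]
      rfl
    exact (le_sSup (show Subgroup.zpowers z ∈ {Q : Subgroup Ω | F.IsCentral Q} from hcz))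
      (Subgroup.mem_zpowers z)

omit [Fintype (Xt F Q)] in
theorem center_le_ZS [Finite S] (hS : IsPGroup p S) (hF : F.IsSaturated p) : F.center ≤ ZS S := by
  intro z hz
  have hzS := H90.FusAb.center_le F hz
  rw [mem_ZS]
  refine ⟨hzS, fun s hs => ?_⟩
  have h := H90.FusAb.map_fixed_of_mem_center hz (F.conj_mem (P := S) le_rfl hs) hzS
  have h2 : s * z * s⁻¹ = z := h
  rwa [mul_inv_eq_iff_eq_mul] at h2

omit [Fintype (Xt F Q)] in
theorem exists_complement [Finite S] (hS : IsPGroup p S) (hF : F.IsSaturated p) (hQ : F.IsNormal Q)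
    (hZ : ZS S ≤ Q) : ∃ K : Subgroup Ω, K ≤ ZS S ∧ F.center ⊓ K = ⊥ ∧ F.center ⊔ K = ZS S := by
  have hQS := hQ.1
  have hN := H89.Normal.le_normalizer_of_isNormal hQ
  have hfn : F.IsFullyNormalized Q :=
    fullyNormalized_of_stronglyClosed (H89.Normal.stronglyClosed_of_isNormal hQ)
  have haut := (fullyNormalized_spec hS hF hfn).2
  have hfinQ : Finite Q := finite_of_le hQS
  have hfinA : Finite (MulAut Q) := finite_mulAut Q
  have hfinX : Finite (Xt F Q) := inferInstance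
  let _ : Fintype (Xt F Q) := Fintype.ofFinite _
  have hfinZ : Finite (ZS S) := finite_of_le inf_le_left
  have hCle := center_le_ZS hS hF
  have hpC : IsPGroup p (F.center.subgroupOf (ZS S)) := by
    have : IsPGroup p (ZS S) := hS.to_le inf_le_left
    exact this.to_subgroup _
  have hcop : Nat.Coprime (Nat.card (F.center.subgroupOf (ZS S))) (Nat.card (Xt F Q)) := by
    obtain ⟨-, R, hR⟩ := haut
    have h1 : ¬ p ∣ Nat.card (Xt F Q) := by
      have := R.not_dvd_index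
      rw [hR] at this
      exact this
    obtain ⟨k, hk⟩ := hpC.exists_card_eq
    rw [hk]
    exact Nat.Coprime.pow_left k (((Fact.out : p.Prime).coprime_iff_not_dvd).2 h1)
  have hVfix : ∀ z : ZS S, (z : Ω) ∈ F.center → V F hZ hQS z = zc hZ hQS z ^ Nat.card (Xt F Q) := by
    intro z hz
    exact V_fixed hZ hQS z ((mem_center_iff hS hF hQ hZ z.2).1 hz)
  refine ⟨((V F hZ hQS).ker).map (ZS S).subtype, ?_, ?_, ?_⟩
  · rintro _ ⟨z, -, rfl⟩
    exact z.2
  · rw [eq_bot_iff]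
    rintro z ⟨hz1, ⟨w, hw, rfl⟩⟩
    have h1 := hVfix w hz1
    rw [show V F hZ hQS w = 1 from hw] at h1
    have h2 : (⟨w, hz1⟩ : F.center.subgroupOf (ZS S)) = 1 := by
      apply (powCoprime hcop).injective
      rw [powCoprime_apply, powCoprime_apply, one_pow]
      apply Subtype.ext
      apply Subtype.ext
      have h3 := congrArg (fun c : Subgroup.center Q => ((c : Q) : Ω)) h1
      show ((w : Ω)) ^ Nat.card (Xt F Q) = 1
      have h4 : (1 : Ω) = ((zc hZ hQS w ^ Nat.card (Xt F Q) : Subgroup.center Q) : Q) := h3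
      rw [h4]
      simp [zc]
    have h3 : w = 1 := congrArg Subtype.val h2
    rw [h3]
    exact Subgroup.one_mem _
  · apply le_antisymm
    · apply sup_le hCle
      rintro _ ⟨z, -, rfl⟩
      exact z.2
    · intro z hz
      -- `V z ∈ Z(F)`
      have hVz := V_mem (F := F) hZ hQS hN ⟨z, hz⟩
      have hVc : (((V F hZ hQS ⟨z, hz⟩ : Subgroup.center Q) : Q) : Ω) ∈ F.center := by
        rw [mem_center_iff hS hF hQ hZ hVz]
        intro α hα
        have h1 := cact_V (F := F) hZ hQS ⟨z, hz⟩ ⟨α, hα⟩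
        exact congrArg (fun c : Subgroup.center Q => ((c : Q) : Ω)) h1
      obtain ⟨⟨w, hw⟩, hwV⟩ := (powCoprime hcop).surjective
        ⟨⟨_, hVz⟩, hVc⟩
      rw [powCoprime_apply] at hwV
      have hwV' : w ^ Nat.card (Xt F Q) = ⟨_, hVz⟩ := congrArg Subtype.val hwV
      have hwc : (w : Ω) ∈ F.center := hw
      have h1 : (⟨z, hz⟩ : ZS S) * w⁻¹ ∈ (V F hZ hQS).ker := by
        rw [MonoidHom.mem_ker, map_mul, map_inv, hVfix w hwc, mul_inv_eq_one, ← map_pow, hwV']
        rfl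
      have h2 : z = (w : Ω) * (((⟨z, hz⟩ : ZS S) * w⁻¹ : ZS S) : Ω) := by
        have h3 : (⟨z, hz⟩ : ZS S) = w * (⟨z, hz⟩ * w⁻¹) := by
          apply Subtype.ext
          have h4 := (mem_ZS.1 hz).2 w (mem_ZS.1 w.2).1
          show z = (w : Ω) * (z * (w : Ω)⁻¹)
          rw [← mul_assoc, h4, mul_inv_cancel_right]
        exact congrArg Subtype.val h3
      rw [h2]
      exact Subgroup.mul_mem _ (Subgroup.mem_sup_left hwc) (Subgroup.mem_sup_right ⟨_, h1, rfl⟩)

end H89.CenterFactor
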