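import Cfsg.Agent.Lib.H89.NonCentric
import Cfsg.Agent.Lib.H89.Meta2Fus
import Cfsg.Agent.Lib.H3.ClassTwo

/-! S5233: strongly closed generalized extraspecial subgroups. -/

set_option autoImplicit false
set_option linter.unusedSectionVars false
open scoped commutatorElement
open Cfsg Cfsg.FusionSystem H86.FusBasic H86.FusSat H86.FusAlperin H89.Normal H89.Normal2

namespace H89.GenExtra

variable {Ω : Type*} [Group Ω] {S : Subgroup Ω} {F : FusionSystem S} {p : ℕ}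

/-- The subgroup `P` with `Z` of order `p`, central in `S`, containing all commutators and `p`-th powers. -/
structure PZ (S P Z : Subgroup Ω) (p : ℕ) : Prop where
  ZP : Z ≤ P
  cZ : Nat.card Z = p
  ZS : ∀ s ∈ S, ∀ z ∈ Z, s * z = z * s
  comm : ∀ x ∈ P, ∀ y ∈ P, x * y * x⁻¹ * y⁻¹ ∈ Z
  pw : ∀ x ∈ P, x ^ p ∈ Z

/-- A maximal abelian subgroup `D` of `P` of exponent `p`, with an automorphism of the system moving `Z`. -/
structure Cfg (F : FusionSystem S) (P Z D : Subgroup Ω) (p : ℕ) : Prop where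
  DP : D ≤ P
  ZD : Z ≤ D
  ab : ∀ x ∈ D, ∀ y ∈ D, x * y = y * x
  ex : ∀ x ∈ D, x ^ p = 1
  cen : ∀ g ∈ P, (∀ x ∈ D, g * x = x * g) → g ∈ D
  mv : ∃ h ∈ F.autGroup D, ∃ z : D, (z : Ω) ∈ Z ∧ ((h z : D) : Ω) ∉ Z

theorem PZ.gen [hp : Fact p.Prime] {P Z : Subgroup Ω} (h : PZ S P Z p) {u v : Ω} (hu : u ∈ Z) (hv : v ∈ Z)
    (hu1 : u ≠ 1) : ∃ n : ℤ, u ^ n = v := by
  have : Finite Z := Nat.finite_of_card_ne_zero (by rw [h.cZ]; exact hp.1.ne_zero)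
  have h1 : (⟨v, hv⟩ : Z) ∈ Subgroup.zpowers (⟨u, hu⟩ : Z) := by
    have h2 : Subgroup.zpowers (⟨u, hu⟩ : Z) = ⊤ := by
      have hpr : (Nat.card Z).Prime := by rw [h.cZ]; exact hp.1
      have := Fact.mk hpr
      rcases Subgroup.eq_bot_or_eq_top_of_prime_card (Subgroup.zpowers (⟨u, hu⟩ : Z)) with h3 | h3
      · rw [Subgroup.zpowers_eq_bot] at h3
        exact absurd (congrArg Subtype.val h3) hu1
      · exact h3
    rw [h2]
    exact Subgroup.mem_top _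
  obtain ⟨n, hn⟩ := h1
  exact ⟨n, congrArg Subtype.val hn⟩

section

variable {P Z D : Subgroup Ω} [Finite S] [hp : Fact p.Prime] (hS : IsPGroup p S) (hF : F.IsSaturated p)
  (hP : F.StronglyClosed P) (hPZ : PZ S P Z p) (hD : Cfg F P Z D p)

include hPZ hD in
theorem norm {g : Ω} (hg : g ∈ P) : g ∈ Subgroup.normalizer (D : Set Ω) := by
  rw [Subgroup.mem_normalizer_iff]
  intro x
  constructor
  · intro hx
    have h1 := hPZ.comm g hg x (hD.DP hx)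
    have h2 := D.mul_mem (hD.ZD h1) hx
    rwa [inv_mul_cancel_right] at h2
  · intro hx
    have h1 := hPZ.comm g⁻¹ (P.inv_mem hg) _ (hD.DP hx)
    have h2 := D.mul_mem (hD.ZD h1) hx
    have h3 : g⁻¹ * (g * x * g⁻¹) * g⁻¹⁻¹ * (g * x * g⁻¹)⁻¹ * (g * x * g⁻¹) = x := by group
    rwa [h3] at h2

include hS hF hP hPZ hD in
/-- If `k c_g k⁻¹ = c_y` on `D` with `g ∈ P`, `y ∈ S` then it is induced by an element of `P`. -/
theorem closed (hDn : F.IsFullyNormalized D) {k : MulAut D} (hk : k ∈ F.autGroup D) {g : Ω} (hg : g ∈ P)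
    (h : k * conjAut D (norm hPZ hD hg) * k⁻¹ ∈ autInducedBy S D) :
    ∃ g' ∈ P, ∀ x : D, g' * (x : Ω) * g'⁻¹ = ((k * conjAut D (norm hPZ hD hg) * k⁻¹) x : D) := by
  have hrec := receptive_of_fullyNormalized hS hF hDn
  have hDS := hDn.1
  have hk' := (mem_autGroup F hDS).1 hk
  have hgx : g ∈ extender S D (D.subtype.comp k.toMonoidHom) :=
    (mem_extender_iff_congr (P := D) (Q := D) k).2 ⟨hP.1 hg, norm hPZ hD hg, h⟩
  have hle : D ≤ extender S D (D.subtype.comp k.toMonoidHom) := le_extender hDS fun x => hDS (k x).2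
  obtain ⟨ψ, hψ, hψx⟩ := receptive_extend hrec hk' hle le_rfl
  refine ⟨ψ ⟨g, hgx⟩, stronglyClosed_apply_mem hP hψ hg, fun x => ?_⟩
  exact (extends_conj hle hψx hgx (norm hPZ hD hg) x).symm

include hS hF hP hPZ hD in
/-- If `k c_g k⁻¹ ∈ Aut_S(D)` with `g ∈ P \ D` then `k` normalizes `Z`. -/
theorem stab (hDn : F.IsFullyNormalized D) {k : MulAut D} (hk : k ∈ F.autGroup D) {g : Ω} (hg : g ∈ P)
    (hgD : g ∉ D) (h : k * conjAut D (norm hPZ hD hg) * k⁻¹ ∈ autInducedBy S D) (z : D) (hz : (z : Ω) ∈ Z) :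
    ((k z : D) : Ω) ∈ Z := by
  obtain ⟨g', hg', hx⟩ := closed hS hF hP hPZ hD hDn hk hg h
  -- some `y ∈ D` is moved by `g`
  obtain ⟨y, hyD, hy⟩ : ∃ y ∈ D, g * y ≠ y * g := by
    by_contra hcon
    push Not at hcon
    exact hgD (hD.cen g hg hcon)
  have hu : g * y * g⁻¹ * y⁻¹ ∈ Z := hPZ.comm g hg y (hD.DP hyD)
  have hu1 : g * y * g⁻¹ * y⁻¹ ≠ 1 := by
    intro h1
    apply hy
    have : g * y = (g * y * g⁻¹ * y⁻¹) * (y * g) := by group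
    rw [this, h1, one_mul]
  obtain ⟨n, hn⟩ := hPZ.gen hu hz hu1
  have hzu : z = (⟨g * y * g⁻¹ * y⁻¹, hD.ZD hu⟩ : D) ^ n := Subtype.ext hn.symm
  rw [hzu, map_zpow]
  refine Z.zpow_mem ?_ n
  have h2 := hPZ.comm g' hg' _ (hD.DP (k ⟨y, hyD⟩).2)
  have h3 := hx (k ⟨y, hyD⟩)
  rw [h3] at h2
  have h4 : (k * conjAut D (norm hPZ hD hg) * k⁻¹) (k ⟨y, hyD⟩) = k (conjAut D (norm hPZ hD hg) ⟨y, hyD⟩) := by
    rw [MulAut.mul_apply, MulAut.mul_apply, MulAut.inv_apply_self]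
  rw [h4] at h2
  have h5 : (⟨g * y * g⁻¹ * y⁻¹, hD.ZD hu⟩ : D) = conjAut D (norm hPZ hD hg) ⟨y, hyD⟩ * (⟨y, hyD⟩ : D)⁻¹ := rfl
  rw [h5, map_mul, map_inv]
  exact h2

include hS hF hP hPZ hD in
/-- Two commuting conjugates of elements of `P \ D` have the same centre. -/
theorem commuting (hDn : F.IsFullyNormalized D) {h : MulAut D} (hh : h ∈ F.autGroup D) {g g' : Ω}
    (hg : g ∈ P) (hgD : g ∉ D) (hg' : g' ∈ P) (hg'D : g' ∉ D)
    (h1 : ∀ z : D, (z : Ω) ∈ Z → conjAut D (norm hPZ hD hg) (h z) = h z)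
    (h2 : ∀ z : D, (z : Ω) ∈ Z → conjAut D (norm hPZ hD hg') (h⁻¹ z) = h⁻¹ z) (z : D) (hz : (z : Ω) ∈ Z) :
    ((h z : D) : Ω) ∈ Z := by
  have hDS := hDn.1
  have hfD : Finite D := finite_of_le hDS
  set a := conjAut D (norm hPZ hD hg) with ha
  set a' := conjAut D (norm hPZ hD hg') with ha'
  set b := h * a' * h⁻¹ with hb
  have haS : a ∈ autInducedBy S D := conjAut_mem_autInducedBy _ (hP.1 hg)
  have ha'S : a' ∈ autInducedBy S D := conjAut_mem_autInducedBy _ (hP.1 hg')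
  have haF : a ∈ F.autGroup D := autInducedBy_le_autGroup F hDS haS
  have ha'F : a' ∈ F.autGroup D := autInducedBy_le_autGroup F hDS ha'S
  have hbF : b ∈ F.autGroup D := Subgroup.mul_mem _ (Subgroup.mul_mem _ hh ha'F) (Subgroup.inv_mem _ hh)
  -- the effect of `a`, `b`
  have hax : ∀ x : D, ∃ u : D, (u : Ω) ∈ Z ∧ a x = u * x := by
    intro x
    refine ⟨⟨g * x * g⁻¹ * (x : Ω)⁻¹, hD.ZD (hPZ.comm g hg x (hD.DP x.2))⟩, hPZ.comm g hg x (hD.DP x.2), ?_⟩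
    apply Subtype.ext
    show g * x * g⁻¹ = g * x * g⁻¹ * (x : Ω)⁻¹ * x
    group
  have ha'x : ∀ x : D, ∃ u : D, (u : Ω) ∈ Z ∧ a' x = u * x := by
    intro x
    refine ⟨⟨g' * x * g'⁻¹ * (x : Ω)⁻¹, hD.ZD (hPZ.comm g' hg' x (hD.DP x.2))⟩, hPZ.comm g' hg' x (hD.DP x.2), ?_⟩
    apply Subtype.ext
    show g' * x * g'⁻¹ = g' * x * g'⁻¹ * (x : Ω)⁻¹ * x
    group
  have hab : a * b = b * a := by
    ext x
    obtain ⟨u, hu, hux⟩ := hax x
    obtain ⟨v, hv, hvx⟩ := ha'x (h⁻¹ x)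
    have hbx : b x = h v * x := by
      rw [hb, MulAut.mul_apply, MulAut.mul_apply, hvx, map_mul, MulAut.apply_inv_self]
    have hbu : b u = u := by
      rw [hb, MulAut.mul_apply, MulAut.mul_apply, h2 u hu, MulAut.apply_inv_self]
    have hcm : ∀ x y : D, x * y = y * x := fun x y => Subtype.ext (hD.ab x x.2 y y.2)
    congr 1
    change a (b x) = b (a x)
    rw [hbx, hux, map_mul, map_mul, hbx, hbu, h1 v hv, hux, ← mul_assoc, hcm (h v) u, mul_assoc]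
  -- a `p`-subgroup containing both
  obtain ⟨i, hi⟩ := isPGroup_autInducedBy hS D ⟨a, haS⟩
  obtain ⟨j, hj⟩ := isPGroup_autInducedBy hS D ⟨a', ha'S⟩
  have hi' : a ^ p ^ i = 1 := congrArg Subtype.val hi
  have hj' : b ^ p ^ j = 1 := by
    have h3 : a' ^ p ^ j = 1 := congrArg Subtype.val hj
    rw [hb, conj_pow, h3]
    group
  let A : Subgroup (MulAut D) := Subgroup.closure {a, b}
  have hA : ∀ x ∈ A, ∃ m n : ℤ, x = a ^ m * b ^ n := by
    intro x hx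
    have hcomm : Commute a b := hab
    induction hx using Subgroup.closure_induction with
    | mem x hx =>
      rcases hx with rfl | rfl
      · exact ⟨1, 0, by simp⟩
      · exact ⟨0, 1, by simp⟩
    | one => exact ⟨0, 0, by simp⟩
    | mul x y _ _ hx hy =>
      obtain ⟨m, n, rfl⟩ := hx
      obtain ⟨m', n', rfl⟩ := hy
      refine ⟨m + m', n + n', ?_⟩
      have h5 := (hcomm.zpow_zpow m' n).eq
      rw [zpow_add, zpow_add]
      calc a ^ m * b ^ n * (a ^ m' * b ^ n') = a ^ m * (b ^ n * a ^ m') * b ^ n' := by group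
        _ = a ^ m * (a ^ m' * b ^ n) * b ^ n' := by rw [h5]
        _ = _ := by group
    | inv x _ hx =>
      obtain ⟨m, n, rfl⟩ := hx
      refine ⟨-m, -n, ?_⟩
      have h5 := (hcomm.zpow_zpow (-m) (-n)).eq
      rw [h5, mul_inv_rev, zpow_neg, zpow_neg]
  have hAp : IsPGroup p A := by
    rintro ⟨x, hx⟩
    obtain ⟨m, n, rfl⟩ := hA x hx
    refine ⟨i + j, Subtype.ext ?_⟩
    show (a ^ m * b ^ n) ^ p ^ (i + j) = 1
    have hcomm : Commute (a ^ m) (b ^ n) := (show Commute a b from hab).zpow_zpow m n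
    rw [hcomm.mul_pow]
    have e1 : (a ^ m) ^ p ^ (i + j) = 1 := by
      rw [pow_add, pow_mul, ← zpow_natCast (a ^ m), ← zpow_mul, mul_comm, zpow_mul, zpow_natCast, hi',
        one_zpow, one_pow]
    have e2 : (b ^ n) ^ p ^ (i + j) = 1 := by
      rw [add_comm, pow_add, pow_mul, ← zpow_natCast (b ^ n), ← zpow_mul, mul_comm, zpow_mul, zpow_natCast, hj',
        one_zpow, one_pow]
    rw [e1, e2, one_mul]
  have hAF : A ≤ F.autGroup D := by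
    rw [Subgroup.closure_le]
    rintro x (rfl | rfl)
    · exact haF
    · exact hbF
  obtain ⟨k, hk, hkA⟩ := fullyAutomized_conj_le (fullyNormalized_spec hS hF hDn).2 hAF hAp
  have hka := hkA a (Subgroup.subset_closure (Or.inl rfl))
  have hkb := hkA b (Subgroup.subset_closure (Or.inr rfl))
  have hkZ := stab hS hF hP hPZ hD hDn hk hg hgD hka
  have hkhZ := stab hS hF hP hPZ hD hDn (k := k * h) (Subgroup.mul_mem _ hk hh) hg' hg'D (by
    have : k * h * a' * (k * h)⁻¹ = k * b * k⁻¹ := by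
      rw [hb]; group
    rw [← ha', this]
    exact hkb)
  -- `k` restricted to `Z` is surjective
  let f : Z → Z := fun u => ⟨k ⟨u, hD.ZD u.2⟩, hkZ ⟨u, hD.ZD u.2⟩ u.2⟩
  have hfinj : Function.Injective f := by
    intro u v huv
    have h3 : k ⟨u, hD.ZD u.2⟩ = k ⟨v, hD.ZD v.2⟩ := Subtype.ext (congrArg (fun w : Z => (w : Ω)) huv)
    exact Subtype.ext (congrArg (fun w : D => (w : Ω)) (k.injective h3))
  have hfZ : Finite Z := finite_of_le (hD.ZD.trans hDS)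
  obtain ⟨u, hu⟩ := Finite.surjective_of_injective hfinj ⟨_, hkhZ z hz⟩
  have h3 : k ⟨u, hD.ZD u.2⟩ = k (h z) := Subtype.ext (congrArg (fun w : Z => (w : Ω)) hu)
  rw [← k.injective h3]
  exact u.2

/-- `x ↦ ⁅x, d⁆` is multiplicative on `P`. -/
theorem comm_mul {P Z : Subgroup Ω} (hPZ : PZ S P Z p) (hPS : P ≤ S) {x y d : Ω} (hx : x ∈ P) (hy : y ∈ P) (hd : d ∈ P) :
    (x * y) * d * (x * y)⁻¹ * d⁻¹ = (x * d * x⁻¹ * d⁻¹) * (y * d * y⁻¹ * d⁻¹) := by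
  have h1 := hPZ.ZS x (hPS hx) _ (hPZ.comm y hy d hd)
  calc (x * y) * d * (x * y)⁻¹ * d⁻¹ = x * (y * d * y⁻¹ * d⁻¹) * (d * x⁻¹ * d⁻¹) := by group
    _ = (y * d * y⁻¹ * d⁻¹) * x * (d * x⁻¹ * d⁻¹) := by rw [h1]
    _ = (y * d * y⁻¹ * d⁻¹) * (x * d * x⁻¹ * d⁻¹) := by group
    _ = _ := (hPZ.ZS _ (hPS (hPZ.ZP (hPZ.comm y hy d hd))) _ (hPZ.comm x hx d hd))

theorem comm_zpow {P Z : Subgroup Ω} (hPZ : PZ S P Z p) (hPS : P ≤ S) {x d : Ω} (hx : x ∈ P) (hd : d ∈ P) (n : ℤ) :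
    x ^ n * d * (x ^ n)⁻¹ * d⁻¹ = (x * d * x⁻¹ * d⁻¹) ^ n := by
  have hnat : ∀ n : ℕ, x ^ n * d * (x ^ n)⁻¹ * d⁻¹ = (x * d * x⁻¹ * d⁻¹) ^ n := by
    intro n
    induction n with
    | zero => simp
    | succ n ih => rw [pow_succ, comm_mul hPZ hPS (P.pow_mem hx n) hx hd, ih, pow_succ]
  rcases Int.eq_nat_or_neg n with ⟨m, rfl | rfl⟩
  · rw [zpow_natCast, zpow_natCast, hnat]
  · have h1 := comm_mul hPZ hPS (P.inv_mem (P.pow_mem hx m)) (P.pow_mem hx m) hd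
    rw [inv_mul_cancel] at h1
    have h2 : (1 : Ω) = ((x ^ m)⁻¹ * d * (x ^ m)⁻¹⁻¹ * d⁻¹) * (x ^ m * d * (x ^ m)⁻¹ * d⁻¹) := by
      rw [← h1]; group
    rw [hnat] at h2
    rw [zpow_neg, zpow_natCast, zpow_neg, zpow_natCast]
    exact eq_inv_of_mul_eq_one_left h2.symm

include hPZ hD hP in
/-- If no element of `P \ D` commutes with `d ∈ D` then `P = D ⟨g⟩` for `g ∈ P \ D`. -/
theorem cyc {d : Ω} (hd : d ∈ D) (hK : ∀ g ∈ P, g * d = d * g → g ∈ D) {g g₁ : Ω} (hg : g ∈ P)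
    (hgD : g ∉ D) (hg₁ : g₁ ∈ P) : ∃ n : ℤ, g₁ * g ^ n ∈ D := by
  have hdP := hD.DP hd
  have hu1 : g * d * g⁻¹ * d⁻¹ ≠ 1 := by
    intro h1
    apply hgD
    apply hK g hg
    have : g * d = (g * d * g⁻¹ * d⁻¹) * (d * g) := by group
    rw [this, h1, one_mul]
  obtain ⟨n, hn⟩ := hPZ.gen (hPZ.comm g hg d hdP) (hPZ.comm g₁ hg₁ d hdP) hu1
  refine ⟨-n, hK _ (P.mul_mem hg₁ (P.zpow_mem hg _)) ?_⟩
  have h1 := comm_mul hPZ hP.1 hg₁ (P.zpow_mem hg (-n)) hdP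
  rw [comm_zpow hPZ hP.1 hg hdP, ← hn, ← zpow_add, add_neg_cancel, zpow_zero] at h1
  have h2 : (g₁ * g ^ (-n)) * d = ((g₁ * g ^ (-n)) * d * (g₁ * g ^ (-n))⁻¹ * d⁻¹) * (d * (g₁ * g ^ (-n))) := by
    group
  rw [h2, h1, one_mul]

include hS hF hP hPZ hD in
theorem one_of (hDn : F.IsFullyNormalized D) {h : MulAut D} (hh : h ∈ F.autGroup D) {z : D} (hz : (z : Ω) ∈ Z)
    (hmv : ((h z : D) : Ω) ∉ Z) :
    (∀ g ∈ P, g * (h z : D) = (h z : D) * g → g ∈ D) ∨ (∀ g ∈ P, g * (h⁻¹ z : D) = (h⁻¹ z : D) * g → g ∈ D) := by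
  by_contra hcon
  push Not at hcon
  obtain ⟨⟨g, hg, hgc, hgD⟩, ⟨g', hg', hg'c, hg'D⟩⟩ := hcon
  have hz1 : (z : Ω) ≠ 1 := by
    intro h1
    have : z = 1 := Subtype.ext h1
    rw [this, map_one] at hmv
    exact hmv Z.one_mem
  apply hmv
  refine commuting hS hF hP hPZ hD hDn hh hg hgD hg' hg'D ?_ ?_ z hz
  · intro w hw
    obtain ⟨n, hn⟩ := hPZ.gen hz hw hz1
    have hwz : w = z ^ n := Subtype.ext hn.symm
    rw [hwz, map_zpow, map_zpow]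
    congr 1
    apply Subtype.ext
    show g * (h z : D) * g⁻¹ = (h z : D)
    rw [hgc]; group
  · intro w hw
    obtain ⟨n, hn⟩ := hPZ.gen hz hw hz1
    have hwz : w = z ^ n := Subtype.ext hn.symm
    rw [hwz, map_zpow, map_zpow]
    congr 1
    apply Subtype.ext
    show g' * (h⁻¹ z : D) * g'⁻¹ = (h⁻¹ z : D)
    rw [hg'c]; group

include hS hF hP hPZ hD in
theorem both_of (hDn : F.IsFullyNormalized D) (hPD : ∃ g ∈ P, g ∉ D) {h : MulAut D} (hh : h ∈ F.autGroup D)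
    {z : D} (hz : (z : Ω) ∈ Z)
    (hmv : ((h z : D) : Ω) ∉ Z) (hK : ∀ g ∈ P, g * (h z : D) = (h z : D) * g → g ∈ D) :
    ∀ g ∈ P, g * (h⁻¹ z : D) = (h⁻¹ z : D) * g → g ∈ D := by
  by_contra hcon
  push Not at hcon
  obtain ⟨g', hg', hg'c, hg'D⟩ := hcon
  obtain ⟨g, hg, hgD⟩ := hPD
  have hz1 : (z : Ω) ≠ 1 := by
    intro h1
    have : z = 1 := Subtype.ext h1
    rw [this, map_one] at hmv
    exact hmv Z.one_mem
  have hcm : ∀ x y : D, x * y = y * x := fun x y => Subtype.ext (hD.ab x x.2 y y.2)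
  -- all of `P` centralizes `h⁻¹ Z`
  have hall : ∀ g₁ ∈ P, ∀ w : D, (w : Ω) ∈ Z → g₁ * (h⁻¹ w : D) * g₁⁻¹ = (h⁻¹ w : D) := by
    intro g₁ hg₁ w hw
    obtain ⟨m, hm⟩ := hPZ.gen hz hw hz1
    have hwz : w = z ^ m := Subtype.ext hm.symm
    obtain ⟨n, hn⟩ := cyc hP hPZ hD (h z).2 hK hg' hg'D hg₁
    have h1 : g₁ * g' ^ n * (h⁻¹ z : D) = (h⁻¹ z : D) * (g₁ * g' ^ n) := hD.ab _ hn _ (h⁻¹ z).2
    have h2 : Commute (g' ^ n) ((h⁻¹ z : D) : Ω) := (show Commute g' ((h⁻¹ z : D) : Ω) from hg'c).zpow_left n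
    have h3 : Commute g₁ ((h⁻¹ z : D) : Ω) := by
      have h4 : Commute (g₁ * g' ^ n) ((h⁻¹ z : D) : Ω) := h1
      have h5 := h4.mul_left h2.inv_left
      rwa [mul_inv_cancel_right] at h5
    rw [hwz, map_zpow]
    have h4 : Commute g₁ (((h⁻¹ z : D) : Ω) ^ m) := h3.zpow_right m
    show g₁ * ((h⁻¹ z : D) : Ω) ^ m * g₁⁻¹ = ((h⁻¹ z : D) : Ω) ^ m
    rw [h4.eq]; group
  set a := conjAut D (norm hPZ hD hg) with ha
  have haF : a ∈ F.autGroup D := autInducedBy_le_autGroup F hDn.1 (conjAut_mem_autInducedBy _ (hP.1 hg))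
  have haZ : ∀ w : D, (w : Ω) ∈ Z → a w = w := by
    intro w hw
    apply Subtype.ext
    show g * w * g⁻¹ = w
    rw [hPZ.ZS g (hP.1 hg) w hw]; group
  have hah : ∀ w : D, (w : Ω) ∈ Z → a (h⁻¹ w) = h⁻¹ w := fun w hw => Subtype.ext (hall g hg w hw)
  have hax : ∀ x : D, ∃ u : D, (u : Ω) ∈ Z ∧ a x = u * x := by
    intro x
    refine ⟨⟨g * x * g⁻¹ * (x : Ω)⁻¹, hD.ZD (hPZ.comm g hg x (hD.DP x.2))⟩, hPZ.comm g hg x (hD.DP x.2), ?_⟩
    apply Subtype.ext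
    show g * x * g⁻¹ = g * x * g⁻¹ * (x : Ω)⁻¹ * x
    group
  set k := h⁻¹ * a * h with hk
  have hkF : k ∈ F.autGroup D := Subgroup.mul_mem _ (Subgroup.mul_mem _ (Subgroup.inv_mem _ hh) haF) hh
  have hkw : ∀ w : D, (w : Ω) ∈ Z → ∃ u : D, (u : Ω) ∈ Z ∧ a (h w) = u * h w ∧ k w = h⁻¹ u * w := by
    intro w hw
    obtain ⟨u, hu, hux⟩ := hax (h w)
    refine ⟨u, hu, hux, ?_⟩
    rw [hk, MulAut.mul_apply, MulAut.mul_apply, hux, map_mul, MulAut.inv_apply_self]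
  have hk'w : ∀ w : D, (w : Ω) ∈ Z → ∃ u : D, (u : Ω) ∈ Z ∧ k⁻¹ w = h⁻¹ u * w := by
    intro w hw
    obtain ⟨u, hu, hux, hkw'⟩ := hkw w hw
    refine ⟨u⁻¹, Z.inv_mem hu, ?_⟩
    have h1 : k (h⁻¹ u⁻¹ * w) = w := by
      rw [map_mul, hkw']
      have h2 : k (h⁻¹ u⁻¹) = h⁻¹ u⁻¹ := by
        rw [hk, MulAut.mul_apply, MulAut.mul_apply, MulAut.apply_inv_self, haZ _ (Z.inv_mem hu)]
      rw [h2, ← mul_assoc, ← map_mul, inv_mul_cancel, map_one, one_mul]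
    rw [← h1, MulAut.inv_apply_self, h1]
  have hkey := commuting hS hF hP hPZ hD hDn hkF hg hgD hg hgD (by
    intro w hw
    obtain ⟨u, hu, -, hkw'⟩ := hkw w hw
    rw [← ha, hkw', map_mul, hah u hu, haZ w hw]) (by
    intro w hw
    obtain ⟨u, hu, hkw'⟩ := hk'w w hw
    rw [← ha, hkw', map_mul, hah u hu, haZ w hw]) z hz
  obtain ⟨u, hu, hux, hkz⟩ := hkw z hz
  rw [hkz] at hkey
  have h1 : ((h⁻¹ u : D) : Ω) ∈ Z := by
    have := Z.mul_mem hkey (Z.inv_mem hz)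
    have h2 : ((h⁻¹ u * z : D) : Ω) * (z : Ω)⁻¹ = (h⁻¹ u : D) := by
      show ((h⁻¹ u : D) : Ω) * z * (z : Ω)⁻¹ = _
      group
    rwa [h2] at this
  have hu1 : ((h⁻¹ u : D) : Ω) ≠ 1 := by
    intro h2
    have h3 : h⁻¹ u = 1 := Subtype.ext h2
    have h4 : u = 1 := by
      rw [← MulAut.apply_inv_self D h u, h3, map_one]
    rw [h4, one_mul] at hux
    apply hgD
    apply hK g hg
    have h5 := congrArg (fun w : D => (w : Ω)) hux
    have h6 : g * (h z : D) * g⁻¹ = (h z : D) := h5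
    calc g * (h z : D) = g * (h z : D) * g⁻¹ * g := by group
      _ = _ := by rw [h6]
  obtain ⟨n, hn⟩ := hPZ.gen h1 hz hu1
  apply hmv
  have h2 : z = (h⁻¹ u) ^ n := Subtype.ext hn.symm
  rw [h2, map_zpow, MulAut.apply_inv_self]
  exact Z.zpow_mem hu n

end

end H89.GenExtra
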