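import Mathlib

/-! Groups generated inside a semidirect product of a free group with a group permuting the basis (Leary–Stancu). -/

set_option autoImplicit false

namespace H89.LStan
universe u v
open FreeGroup hiding map_one map_mul map_inv Red

section free
variable {X : Type u} [DecidableEq X]

theorem toWord_mk_eq {L : List (X × Bool)} (h : FreeGroup.IsReduced L) : (mk L).toWord = L := by
  rw [toWord_mk, h.reduce_eq]

omit [DecidableEq X] in
theorem isReduced_append {L M : List (X × Bool)} : FreeGroup.IsReduced (L ++ M) ↔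
    FreeGroup.IsReduced L ∧ FreeGroup.IsReduced M ∧ ∀ x ∈ L.getLast?, ∀ y ∈ M.head?, x.1 = y.1 → x.2 = y.2 :=
  List.isChain_append

omit [DecidableEq X] in
theorem isReduced_map {Y : Type v} {f : X → Y} (hf : Function.Injective f) {L : List (X × Bool)}
    (h : FreeGroup.IsReduced L) : FreeGroup.IsReduced (L.map fun x => (f x.1, x.2)) := by
  unfold FreeGroup.IsReduced at h ⊢
  rw [List.isChain_map]
  exact h.imp fun a b hab e => hab (hf e)

omit [DecidableEq X] in
theorem cancel_of_not_isReduced {L : List (X × Bool)} {a b : X × Bool} (h : FreeGroup.IsReduced (L ++ [a]))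
    (h' : ¬ FreeGroup.IsReduced ((L ++ [a]) ++ [b])) : a.1 = b.1 ∧ b.2 = !a.2 := by
  rw [isReduced_append] at h'
  by_contra hcon
  apply h'
  refine ⟨h, FreeGroup.IsReduced.singleton, ?_⟩
  intro x hx y hy
  rw [List.getLast?_concat, Option.mem_some_iff] at hx
  rw [List.head?_cons, Option.mem_some_iff] at hy
  subst hx hy
  intro e
  by_contra hne
  exact hcon ⟨e, by cases h1 : a.2 <;> cases h2 : b.2 <;> simp_all⟩

theorem mk_toWord_append {w : FreeGroup X} {a : X × Bool} : w * mk [a] = mk (w.toWord ++ [a]) := by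
  conv_lhs => rw [← mk_toWord (x := w)]
  rw [mul_mk]

end free

section act
variable (Γ : Type v) (X : Type u) [Group Γ] [MulAction Γ X]

/-- The action on the free group. -/
def act : Γ →* MulAut (FreeGroup X) where
  toFun g := freeGroupCongr (MulAction.toPerm g)
  map_one' := by
    apply MulEquiv.toMonoidHom_injective
    ext x
    simp
  map_mul' g h := by
    apply MulEquiv.toMonoidHom_injective
    ext x
    simp [mul_smul]

variable {Γ X}

/-- The action on letters. -/
def sm (g : Γ) (x : X × Bool) : X × Bool := (g • x.1, x.2)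

theorem sm_one (x : X × Bool) : sm (1 : Γ) x = x := by simp [sm]

theorem sm_mul (g h : Γ) (x : X × Bool) : sm (g * h) x = sm g (sm h x) := by simp [sm, mul_smul]

theorem act_mk (g : Γ) (L : List (X × Bool)) : act Γ X g (mk L) = mk (L.map (sm g)) := rfl

theorem toWord_act [DecidableEq X] (g : Γ) (w : FreeGroup X) : (act Γ X g w).toWord = w.toWord.map (sm g) := by
  conv_lhs => rw [← mk_toWord (x := w)]
  rw [act_mk, toWord_mk_eq]
  exact isReduced_map (MulAction.injective g) isReduced_toWord

end act

section main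

variable {Γ : Type u} [Group Γ] {I : Type u} (A : I → Subgroup Γ)

/-- The basis. -/
abbrev XX : Type u := Σ i, Γ ⧸ A i

/-- The ambient semidirect product. -/
abbrev WW : Type u := FreeGroup (XX A) ⋊[act Γ (XX A)] Γ

variable (σ : I → Γ)

/-- The reduced word. -/
noncomputable def wd {X : Type u} (w : FreeGroup X) : List (X × Bool) := @toWord X (Classical.decEq X) w

theorem wd_mk {X : Type u} {L : List (X × Bool)} (h : FreeGroup.IsReduced L) : wd (mk L) = L := by
  let _ := Classical.decEq X
  exact toWord_mk_eq h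

theorem mk_wd {X : Type u} {w : FreeGroup X} : mk (wd w) = w := by
  let _ := Classical.decEq X
  exact mk_toWord

theorem isReduced_wd {X : Type u} {w : FreeGroup X} : FreeGroup.IsReduced (wd w) := by
  let _ := Classical.decEq X
  exact isReduced_toWord

theorem wd_one {X : Type u} : wd (1 : FreeGroup X) = [] := by
  let _ := Classical.decEq X
  exact toWord_one

theorem mul_mk_eq {X : Type u} {w : FreeGroup X} {a : X × Bool} : w * mk [a] = mk (wd w ++ [a]) := by
  let _ := Classical.decEq X
  exact mk_toWord_append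

theorem wd_act {Γ : Type v} {X : Type u} [Group Γ] [MulAction Γ X] (g : Γ) (w : FreeGroup X) :
    wd (act Γ X g w) = (wd w).map (sm g) := by
  let _ := Classical.decEq X
  exact toWord_act g w

def uu (i : I) : XX A := ⟨i, ((1 : Γ) : Γ ⧸ A i)⟩

variable {A} in
theorem smul_uu_eq {i j : I} {g h : Γ} : g • uu A i = h • uu A j ↔ i = j ∧ g⁻¹ * h ∈ A i := by
  constructor
  · intro h1
    have h2 : i = j := congrArg Sigma.fst h1
    subst h2
    refine ⟨rfl, ?_⟩
    have h3 : ((g * 1 : Γ) : Γ ⧸ A i) = ((h * 1 : Γ) : Γ ⧸ A i) := by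
      have h4 := (Sigma.mk.inj_iff.1 h1).2
      exact eq_of_heq h4
    rw [mul_one, mul_one] at h3
    exact QuotientGroup.eq.1 h3
  · rintro ⟨rfl, h1⟩
    show (⟨i, ((g * 1 : Γ) : Γ ⧸ A i)⟩ : XX A) = ⟨i, ((h * 1 : Γ) : Γ ⧸ A i)⟩
    rw [mul_one, mul_one, QuotientGroup.eq.2 h1]

/-- The stable letters. -/
def tt (i : I) : WW A := SemidirectProduct.inr (σ i) * SemidirectProduct.inl (of (uu A i))

def te (i : I) (b : Bool) : WW A := if b then tt A σ i else (tt A σ i)⁻¹

def vt (i : I) (b : Bool) : Γ := if b then σ i else 1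

def st (i : I) (b : Bool) : Γ := if b then σ i else (σ i)⁻¹

@[simp] theorem te_right (i : I) (b : Bool) : (te A σ i b).right = st σ i b := by
  cases b <;> simp [te, tt, st]

theorem te_left (i : I) (b : Bool) : (te A σ i b).left = mk [(vt σ i b • uu A i, b)] := by
  cases b
  · simp [te, tt, vt, of]
    rfl
  · simp [te, tt, vt, of, act_mk, sm]

/-- The next letter. -/
def nl (g : Γ) (i : I) (b : Bool) : XX A × Bool := ((g * vt σ i b) • uu A i, b)

theorem mul_te_left (g : WW A) (i : I) (b : Bool) :
    (g * te A σ i b).left = g.left * mk [nl A σ g.right i b] := by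
  rw [SemidirectProduct.mul_left, te_left, act_mk]
  simp [sm, nl, mul_smul]

variable (S : Subgroup Γ)

/-- Reduced expressions. -/
inductive RedW : WW A → Prop
  | base {s : Γ} (hs : s ∈ S) : RedW (SemidirectProduct.inr s)
  | step {g : WW A} {i : I} {b : Bool} {s : Γ} (hg : RedW g) (hs : s ∈ S)
      (h : FreeGroup.IsReduced (wd g.left ++ [nl A σ g.right i b])) :
      RedW (g * te A σ i b * SemidirectProduct.inr s)

variable {A σ S}

theorem RedW.mul_inr {g : WW A} (hg : RedW A σ S g) {s : Γ} (hs : s ∈ S) :
    RedW A σ S (g * SemidirectProduct.inr s) := by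
  cases hg with
  | base hs' =>
    rw [← map_mul]
    exact RedW.base (S.mul_mem hs' hs)
  | step hg hs' h =>
    rw [mul_assoc, ← map_mul]
    exact RedW.step hg (S.mul_mem hs' hs) h

theorem step_right (g : WW A) (i : I) (b : Bool) (s : Γ) :
    (g * te A σ i b * SemidirectProduct.inr s).right = g.right * st σ i b * s := by
  simp

theorem step_left (g : WW A) (i : I) (b : Bool) (s : Γ) :
    (g * te A σ i b * SemidirectProduct.inr s).left = g.left * mk [nl A σ g.right i b] := by
  rw [SemidirectProduct.mul_left, mul_te_left, SemidirectProduct.left_inr, map_one, mul_one]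

/-- elements of `A i` commute with `u_i` -/
theorem inr_mul_inl {i : I} {a : Γ} (ha : a ∈ A i) :
    (SemidirectProduct.inr a : WW A) * SemidirectProduct.inl (of (uu A i)) =
      SemidirectProduct.inl (of (uu A i)) * SemidirectProduct.inr a := by
  apply SemidirectProduct.ext
  · simp only [SemidirectProduct.mul_left, SemidirectProduct.left_inr, SemidirectProduct.right_inr,
      SemidirectProduct.left_inl, SemidirectProduct.right_inl, map_one, one_mul, mul_one]
    show act Γ (XX A) a (mk [(uu A i, true)]) = mk [(uu A i, true)]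
    rw [act_mk]
    have h1 : a • uu A i = uu A i := by
      conv_rhs => rw [← one_smul Γ (uu A i)]
      rw [smul_uu_eq]
      exact ⟨rfl, by rw [mul_one]; exact (A i).inv_mem ha⟩
    simp [sm, h1]
  · simp

theorem tt_mul {i : I} {a : Γ} (ha : a ∈ A i) :
    tt A σ i * SemidirectProduct.inr a = SemidirectProduct.inr (σ i * a * (σ i)⁻¹) * tt A σ i := by
  unfold tt
  rw [mul_assoc, ← inr_mul_inl ha, ← mul_assoc, ← mul_assoc, ← map_mul, ← map_mul, inv_mul_cancel_right]

theorem RedW.mul_te {g : WW A} (hg : RedW A σ S g) (hA : ∀ i, A i ≤ S)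
    (hσ : ∀ i, ∀ a ∈ A i, σ i * a * (σ i)⁻¹ ∈ S) (i : I) (b : Bool) :
    RedW A σ S (g * te A σ i b) := by
  by_cases hred : FreeGroup.IsReduced (wd g.left ++ [nl A σ g.right i b])
  · have h1 := RedW.step (s := 1) hg S.one_mem hred
    rwa [map_one, mul_one] at h1
  cases hg with
  | base hs' =>
    exfalso
    apply hred
    rw [SemidirectProduct.left_inr, wd_one, List.nil_append]
    exact FreeGroup.IsReduced.singleton
  | @step g j c s hg hs h =>
    have h1 : wd (g * te A σ j c * SemidirectProduct.inr s).left = wd g.left ++ [nl A σ g.right j c] := by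
      rw [step_left, mul_mk_eq, wd_mk h]
    rw [h1] at hred
    obtain ⟨h2, h3⟩ := cancel_of_not_isReduced h hred
    have h3' : b = !c := h3
    rw [step_right] at h2
    have h4 : (g.right * vt σ j c) • uu A j = (g.right * st σ j c * s * vt σ i b) • uu A i := h2
    obtain ⟨hij, h5⟩ := smul_uu_eq.1 h4
    subst hij
    have h6 : (g.right * vt σ j c)⁻¹ * (g.right * st σ j c * s * vt σ j b) =
        (vt σ j c)⁻¹ * st σ j c * s * vt σ j b := by group
    rw [h6] at h5
    cases c with
    | true =>
      have hb : b = false := h3'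
      subst hb
      have h7 : s ∈ A j := by
        have : (vt σ j true)⁻¹ * st σ j true * s * vt σ j false = s := by simp [vt, st]
        rwa [this] at h5
      have h8 : g * te A σ j true * SemidirectProduct.inr s * te A σ j false =
          g * SemidirectProduct.inr (σ j * s * (σ j)⁻¹) := by
        show g * tt A σ j * SemidirectProduct.inr s * (tt A σ j)⁻¹ = _
        rw [mul_assoc g, tt_mul h7, ← mul_assoc, mul_inv_cancel_right]
      rw [h8]
      exact hg.mul_inr (hσ j s h7)
    | false =>
      have hb : b = true := h3'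
      subst hb
      have h7 : (σ j)⁻¹ * s * σ j ∈ A j := by
        have : (vt σ j false)⁻¹ * st σ j false * s * vt σ j true = (σ j)⁻¹ * s * σ j := by simp [vt, st]
        rwa [this] at h5
      have h8 : g * te A σ j false * SemidirectProduct.inr s * te A σ j true =
          g * SemidirectProduct.inr ((σ j)⁻¹ * s * σ j) := by
        show g * (tt A σ j)⁻¹ * SemidirectProduct.inr s * tt A σ j = _
        have h9 := tt_mul (σ := σ) h7
        have h10 : σ j * ((σ j)⁻¹ * s * σ j) * (σ j)⁻¹ = s := by group
        rw [h10] at h9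
        rw [mul_assoc, mul_assoc, ← h9, inv_mul_cancel_left]
      rw [h8]
      exact hg.mul_inr (hA j h7)

/-- The group. -/
def GG (A : I → Subgroup Γ) (σ : I → Γ) (S : Subgroup Γ) : Subgroup (WW A) :=
  Subgroup.closure ((SemidirectProduct.inr '' (S : Set Γ)) ∪ Set.range (tt A σ))

theorem inr_mem {s : Γ} (hs : s ∈ S) : (SemidirectProduct.inr s : WW A) ∈ GG A σ S :=
  Subgroup.subset_closure (Or.inl ⟨s, hs, rfl⟩)

theorem te_mem (i : I) (b : Bool) : te A σ i b ∈ GG A σ S := by
  have h1 : tt A σ i ∈ GG A σ S := Subgroup.subset_closure (Or.inr ⟨i, rfl⟩)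
  cases b
  · exact Subgroup.inv_mem _ h1
  · exact h1

theorem RedW.mem {g : WW A} (hg : RedW A σ S g) : g ∈ GG A σ S := by
  induction hg with
  | base hs => exact inr_mem hs
  | step hg hs h ih => exact Subgroup.mul_mem _ (Subgroup.mul_mem _ ih (te_mem _ _)) (inr_mem hs)

theorem red_of_mem (hA : ∀ i, A i ≤ S) (hσ : ∀ i, ∀ a ∈ A i, σ i * a * (σ i)⁻¹ ∈ S) {g : WW A}
    (hg : g ∈ GG A σ S) : RedW A σ S g := by
  unfold GG at hg
  induction hg using Subgroup.closure_induction_right with
  | one => rw [← map_one SemidirectProduct.inr]; exact RedW.base S.one_mem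
  | mul_right x y hx hy ih =>
    rcases hy with ⟨s, hs, rfl⟩ | ⟨i, rfl⟩
    · exact ih.mul_inr hs
    · exact ih.mul_te hA hσ i true
  | mul_inv_cancel x y hx hy ih =>
    rcases hy with ⟨s, hs, rfl⟩ | ⟨i, rfl⟩
    · rw [← map_inv]; exact ih.mul_inr (S.inv_mem hs)
    · exact ih.mul_te hA hσ i false

theorem mem_of_left_eq_one (hA : ∀ i, A i ≤ S) (hσ : ∀ i, ∀ a ∈ A i, σ i * a * (σ i)⁻¹ ∈ S) {g : WW A}
    (hg : g ∈ GG A σ S) (h : g.left = 1) : ∃ s ∈ S, g = SemidirectProduct.inr s := by
  cases red_of_mem hA hσ hg with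
  | base hs => exact ⟨_, hs, rfl⟩
  | @step g j c s hg hs h' =>
    exfalso
    have h1 : wd (g * te A σ j c * SemidirectProduct.inr s).left = wd g.left ++ [nl A σ g.right j c] := by
      rw [step_left, mul_mk_eq, wd_mk h']
    rw [h, wd_one] at h1
    simp at h1

/-- The key for the fusion: the last letter. -/
theorem mem_of_conj {g : WW A} {i : I} {b : Bool} {s : Γ}
    (h : FreeGroup.IsReduced (wd g.left ++ [nl A σ g.right i b]))
    {x y : Γ} (hxy : SemidirectProduct.inr y * (g * te A σ i b * SemidirectProduct.inr s) =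
      (g * te A σ i b * SemidirectProduct.inr s) * SemidirectProduct.inr x) :
    (vt σ i b)⁻¹ * st σ i b * (s * x * s⁻¹) * (st σ i b)⁻¹ * vt σ i b ∈ A i := by
  have h1 : wd (g * te A σ i b * SemidirectProduct.inr s).left = wd g.left ++ [nl A σ g.right i b] := by
    rw [step_left, mul_mk_eq, wd_mk h]
  have h2 := congrArg SemidirectProduct.left hxy
  have h3 := congrArg SemidirectProduct.right hxy
  rw [SemidirectProduct.mul_left, SemidirectProduct.mul_left (g * te A σ i b * SemidirectProduct.inr s),
    SemidirectProduct.left_inr, SemidirectProduct.left_inr, SemidirectProduct.right_inr, map_one, one_mul,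
    mul_one] at h2
  have h4 := congrArg wd h2
  rw [wd_act, h1, List.map_append, List.map_singleton] at h4
  have h5 := (List.append_inj' h4 rfl).2
  have h6 : sm y (nl A σ g.right i b) = nl A σ g.right i b := List.singleton_inj.1 h5
  have h7 : (y * (g.right * vt σ i b)) • uu A i = (g.right * vt σ i b) • uu A i := by
    rw [mul_smul]
    exact congrArg Prod.fst h6
  obtain ⟨-, h8⟩ := smul_uu_eq.1 h7
  rw [SemidirectProduct.mul_right, SemidirectProduct.mul_right (g * te A σ i b * SemidirectProduct.inr s),
    step_right, SemidirectProduct.right_inr, SemidirectProduct.right_inr] at h3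
  have h9 : y = g.right * st σ i b * s * x * (g.right * st σ i b * s)⁻¹ := eq_mul_inv_of_mul_eq h3
  have h10 := (A i).inv_mem h8
  have h11 : ((y * (g.right * vt σ i b))⁻¹ * (g.right * vt σ i b))⁻¹ =
      (vt σ i b)⁻¹ * st σ i b * (s * x * s⁻¹) * (st σ i b)⁻¹ * vt σ i b := by
    rw [h9]; group
  rwa [h11] at h10

/-- The first letter of an element of the group is reached by an element of the group. -/
theorem exists_first {g : WW A} (hg : RedW A σ S g) : ∀ (a : XX A × Bool) (L : List (XX A × Bool)),
    wd g.left = a :: L → ∃ g₁ ∈ GG A σ S, wd g₁.left = [a] := by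
  induction hg with
  | base hs =>
    intro a L h
    rw [SemidirectProduct.left_inr, wd_one] at h
    exact absurd h (by simp)
  | @step g j c s hg hs h' ih =>
    intro a L h
    have h1 : wd (g * te A σ j c * SemidirectProduct.inr s).left = wd g.left ++ [nl A σ g.right j c] := by
      rw [step_left, mul_mk_eq, wd_mk h']
    rw [h1] at h
    cases hw : wd g.left with
    | nil =>
      rw [hw, List.nil_append] at h
      refine ⟨g * te A σ j c * SemidirectProduct.inr s,
        Subgroup.mul_mem _ (Subgroup.mul_mem _ hg.mem (te_mem _ _)) (inr_mem hs), ?_⟩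
      rw [h1, hw, List.nil_append]
      have h2 := (List.cons.inj h).1
      rw [h2]
    | cons b M =>
      rw [hw, List.cons_append] at h
      have h2 := (List.cons.inj h).1
      rw [← h2]
      exact ih b M hw

theorem isReduced_invRev {X : Type u} {L : List (X × Bool)} (h : FreeGroup.IsReduced L) :
    FreeGroup.IsReduced (invRev L) := by
  let _ := Classical.decEq X
  rw [isReduced_iff_reduce_eq] at h ⊢
  rw [reduce_invRev, h]

theorem inv_left' {g : WW A} : (g⁻¹).left = act Γ (XX A) g.right⁻¹ g.left⁻¹ := rfl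

theorem length_act {w : FreeGroup (XX A)} (g : Γ) : (wd (act Γ (XX A) g w)).length = (wd w).length := by
  rw [wd_act, List.length_map]

theorem isReduced_of_ne {X : Type u} {a b : X × Bool} {L M : List (X × Bool)} (h : FreeGroup.IsReduced (a :: L))
    (h' : FreeGroup.IsReduced (b :: M)) (hne : a ≠ b) : FreeGroup.IsReduced (invRev (b :: M) ++ (a :: L)) := by
  rw [isReduced_append]
  refine ⟨isReduced_invRev h', h, ?_⟩
  intro x hx y hy
  rw [List.head?_cons, Option.mem_some_iff] at hy
  subst hy
  rw [invRev_cons] at hx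
  have h1 : (invRev M ++ invRev [b]).getLast? = some (b.1, !b.2) := by
    simp [invRev]
  rw [h1, Option.mem_some_iff] at hx
  subst hx
  intro e
  have h2 : b.2 ≠ a.2 := fun h3 => hne (Prod.ext e.symm h3.symm)
  show (!b.2) = a.2
  cases h3 : a.2 <;> cases h4 : b.2 <;> simp_all

theorem conj_bounded (hA : ∀ i, A i ≤ S) (hσ : ∀ i, ∀ a ∈ A i, σ i * a * (σ i)⁻¹ ∈ S) (n : ℕ) :
    ∀ (H : Subgroup (WW A)), H ≤ GG A σ S → (∀ h ∈ H, (wd h.left).length ≤ n) →
      ∃ g ∈ GG A σ S, ∀ h ∈ H, (g⁻¹ * h * g).left = 1 := by
  induction n with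
  | zero =>
    intro H hH hb
    refine ⟨1, Subgroup.one_mem _, fun h hh => ?_⟩
    rw [inv_one, one_mul, mul_one]
    have h1 := List.length_eq_zero_iff.1 (Nat.le_zero.1 (hb h hh))
    rw [← mk_wd (w := h.left), h1]
    rfl
  | succ n ih =>
    intro H hH hb
    by_cases hall : ∀ h ∈ H, (wd h.left).length ≤ n
    · exact ih H hH hall
    push Not at hall
    obtain ⟨h, hh, hn⟩ := hall
    have hlen : (wd h.left).length = n + 1 := le_antisymm (hb h hh) hn
    obtain ⟨a, L, haL⟩ : ∃ a L, wd h.left = a :: L := by
      cases hw : wd h.left with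
      | nil => rw [hw] at hlen; simp at hlen
      | cons a L => exact ⟨a, L, rfl⟩
    have hred : FreeGroup.IsReduced (a :: L) := by rw [← haL]; exact isReduced_wd
    -- all the first letters agree
    have hfirst : ∀ k ∈ H, ∀ b M, wd k.left = b :: M → b = a := by
      intro k hk b M hbM
      by_contra hne
      have hred' : FreeGroup.IsReduced (b :: M) := by rw [← hbM]; exact isReduced_wd
      have h1 := hb (k⁻¹ * h) (H.mul_mem (H.inv_mem hk) hh)
      have h2 : (k⁻¹ * h).left = act Γ (XX A) k.right⁻¹ (k.left⁻¹ * h.left) := by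
        rw [SemidirectProduct.mul_left, inv_left', SemidirectProduct.inv_right, map_mul]
      rw [h2, length_act] at h1
      have h3 : k.left⁻¹ * h.left = mk (invRev (b :: M) ++ (a :: L)) := by
        rw [← mk_wd (w := k.left), ← mk_wd (w := h.left), hbM, haL, inv_mk, mul_mk]
      rw [h3, wd_mk (isReduced_of_ne hred hred' (Ne.symm hne)), List.length_append, invRev_length] at h1
      rw [haL] at hlen
      rw [hlen, List.length_cons] at h1
      omega
    obtain ⟨g₁, hg₁, hg₁a⟩ := exists_first (red_of_mem hA hσ (hH hh)) a L haL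
    have hg₁l : g₁.left = mk [a] := by rw [← mk_wd (w := g₁.left), hg₁a]
    have hconj : ∀ k : WW A, (g₁⁻¹ * k * g₁).left =
        act Γ (XX A) g₁.right⁻¹ ((mk [a])⁻¹ * k.left * mk [sm k.right a]) := by
      intro k
      rw [SemidirectProduct.mul_left, SemidirectProduct.mul_left, inv_left', SemidirectProduct.mul_right,
        SemidirectProduct.inv_right, hg₁l, map_mul, map_mul, map_mul, MulAut.mul_apply, act_mk (k.right)]
      rfl
    -- the conjugated subgroup
    obtain ⟨g', hg', h'⟩ := ih (H.map (MulAut.conj g₁⁻¹).toMonoidHom) (by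
        rintro _ ⟨k, hk, rfl⟩
        show g₁⁻¹ * k * (g₁⁻¹)⁻¹ ∈ _
        rw [inv_inv]
        exact Subgroup.mul_mem _ (Subgroup.mul_mem _ (Subgroup.inv_mem _ hg₁) (hH hk)) hg₁) (by
        rintro _ ⟨k, hk, rfl⟩
        have h0 : (MulAut.conj g₁⁻¹).toMonoidHom k = g₁⁻¹ * k * g₁ := by
          show g₁⁻¹ * k * (g₁⁻¹)⁻¹ = _
          rw [inv_inv]
        rw [h0, hconj, length_act]
        cases hw : wd k.left with
        | nil =>
          have hk1 : k.left = 1 := by rw [← mk_wd (w := k.left), hw]; rfl
          have h1 : wd (k * h).left = sm k.right a :: L.map (sm k.right) := by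
            rw [SemidirectProduct.mul_left, hk1, one_mul, wd_act, haL, List.map_cons]
          have h2 := hfirst (k * h) (H.mul_mem hk hh) _ _ h1
          rw [hk1, h2, mul_one, inv_mul_cancel, wd_one]
          exact Nat.zero_le _
        | cons b M =>
          have h1 := hfirst k hk b M hw
          subst h1
          have hredk : FreeGroup.IsReduced (b :: M) := by rw [← hw]; exact isReduced_wd
          -- the last letter
          have h2 : wd (k⁻¹).left = (invRev (b :: M)).map (sm k.right⁻¹) := by
            rw [inv_left', wd_act, ← mk_wd (w := k.left), hw, inv_mk, wd_mk (isReduced_invRev hredk)]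
          rcases List.eq_nil_or_concat' M with rfl | ⟨M', c, rfl⟩
          · exfalso
            have h3 : wd (k⁻¹).left = sm k.right⁻¹ (b.1, !b.2) :: [] := by
              rw [h2]; simp [invRev]
            have h4 := hfirst (k⁻¹) (H.inv_mem hk) _ _ h3
            have h5 := congrArg Prod.snd h4
            have h6 : (!b.2) = b.2 := h5
            cases h7 : b.2 <;> rw [h7] at h6 <;> simp at h6
          · have h3 : wd (k⁻¹).left = sm k.right⁻¹ (c.1, !c.2) :: (invRev (b :: M')).map (sm k.right⁻¹) := by
              rw [h2]; simp [invRev]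
            have h4 := hfirst (k⁻¹) (H.inv_mem hk) _ _ h3
            have h5 : sm k.right b = (c.1, !c.2) := by
              rw [← h4, ← sm_mul, mul_inv_cancel, sm_one]
            rw [h5, ← mk_wd (w := k.left), hw]
            have h6 : (mk [b])⁻¹ * mk (b :: (M' ++ [c])) * mk [(c.1, !c.2)] = mk M' := by
              have h7 : mk (b :: (M' ++ [c])) = mk [b] * (mk M' * mk [c]) := by
                rw [mul_mk, mul_mk]; rfl
              have h8 : mk [(c.1, !c.2)] = (mk [c])⁻¹ := by
                rw [inv_mk]; rfl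
              rw [h7, h8]
              group
            rw [h6, wd_mk (hredk.infix ⟨[b], [c], by simp⟩)]
            have h9 := hb k hk
            rw [hw, List.length_cons, List.length_append] at h9
            simp at h9
            omega)
    refine ⟨g₁ * g', Subgroup.mul_mem _ hg₁ hg', fun k hk => ?_⟩
    have h1 := h' (g₁⁻¹ * k * g₁) ⟨k, hk, by
      show g₁⁻¹ * k * (g₁⁻¹)⁻¹ = _
      rw [inv_inv]⟩
    have h2 : (g₁ * g')⁻¹ * k * (g₁ * g') = g'⁻¹ * (g₁⁻¹ * k * g₁) * g' := by group
    rw [h2]
    exact h1

theorem conj_finite (hA : ∀ i, A i ≤ S) (hσ : ∀ i, ∀ a ∈ A i, σ i * a * (σ i)⁻¹ ∈ S)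
    (H : Subgroup (WW A)) (hH : H ≤ GG A σ S) [Finite H] :
    ∃ g ∈ GG A σ S, ∀ h ∈ H, ∃ s ∈ S, g⁻¹ * h * g = SemidirectProduct.inr s := by
  obtain ⟨n, hn⟩ : ∃ n, ∀ h ∈ H, (wd h.left).length ≤ n := by
    have h1 : (Set.range fun h : H => (wd (h : WW A).left).length).Finite := Set.finite_range _
    obtain ⟨n, hn⟩ := h1.bddAbove
    exact ⟨n, fun h hh => hn ⟨⟨h, hh⟩, rfl⟩⟩
  obtain ⟨g, hg, h⟩ := conj_bounded hA hσ n H hH hn
  refine ⟨g, hg, fun k hk => ?_⟩
  exact mem_of_left_eq_one hA hσ (Subgroup.mul_mem _ (Subgroup.mul_mem _ (Subgroup.inv_mem _ hg) (hH hk)) hg)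
    (h k hk)

/-- The kernel of the projection is free. -/
theorem isFree_ker (A : I → Subgroup Γ) (G : Subgroup (WW A)) :
    IsFreeGroup ((SemidirectProduct.rightHom (φ := act Γ (XX A))).comp G.subtype).ker := by
  let N := ((SemidirectProduct.rightHom (φ := act Γ (XX A))).comp G.subtype).ker
  have hN : ∀ x : N, ((x : G) : WW A).right = 1 := fun x => x.2
  let f : N →* FreeGroup (XX A) :=
    { toFun := fun x => ((x : G) : WW A).left
      map_one' := rfl
      map_mul' := fun x y => by
        show (((x : G) : WW A) * ((y : G) : WW A)).left = _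
        rw [SemidirectProduct.mul_left, hN x, map_one, MulAut.one_apply] }
  have hf : Function.Injective f := by
    intro x y hxy
    apply Subtype.ext
    apply Subtype.ext
    apply SemidirectProduct.ext
    · exact hxy
    · rw [hN, hN]
  exact IsFreeGroup.ofMulEquiv (MonoidHom.ofInjective hf).symm

end main

end H89.LStan
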