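import Cfsg.Agent.Lib.H89.LStan1
import Cfsg.Agent.Lib.H87.Basic

/-! Every fusion system is realized by a virtually free group (S5286). -/

set_option autoImplicit false
open Cfsg Cfsg.FusionSystem H87.Base H87.Basic

namespace H89.LStan
universe u

/-- Two free actions: an injective homomorphism between subgroups is conjugation in the symmetric group, through the
right regular representation. -/
theorem exists_perm {G : Type u} [Group G] [Finite G] (P : Subgroup G) (φ : P →* G) (hφ : Function.Injective φ) :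
    ∃ σ : Equiv.Perm G, ∀ (s : G) (x : P), σ (s * x) = σ s * φ x := by
  classical
  have hcard : Nat.card (G ⧸ P) = Nat.card (G ⧸ φ.range) := by
    have h1 := Subgroup.card_eq_card_quotient_mul_card_subgroup P
    have h2 := Subgroup.card_eq_card_quotient_mul_card_subgroup φ.range
    have h3 : Nat.card P = Nat.card φ.range := Nat.card_congr (MonoidHom.ofInjective hφ).toEquiv
    rw [h1, ← h3] at h2
    exact Nat.eq_of_mul_eq_mul_right Nat.card_pos h2
  have e : (G ⧸ P) ≃ (G ⧸ φ.range) := (Finite.equivFinOfCardEq hcard).trans (Finite.equivFin _).symm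
  let r : G → G := fun s => ((s : G) : G ⧸ P).out
  have hr : ∀ s : G, (r s)⁻¹ * s ∈ P := fun s => by
    rw [← QuotientGroup.eq]
    exact Quotient.out_eq' _
  have hrx : ∀ (s : G) (x : P), r (s * x) = r s := fun s x => by
    show (((s * x : G) : G ⧸ P)).out = ((s : G) : G ⧸ P).out
    congr 1
    rw [eq_comm, QuotientGroup.eq, inv_mul_cancel_left]
    exact x.2
  let f : G → G := fun s => (e (s : G ⧸ P)).out * φ ⟨(r s)⁻¹ * s, hr s⟩
  have hf : ∀ (s : G) (x : P), f (s * x) = f s * φ x := by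
    intro s x
    show (e ((s * x : G) : G ⧸ P)).out * φ ⟨(r (s * x))⁻¹ * (s * x), _⟩ =
      (e (s : G ⧸ P)).out * φ ⟨(r s)⁻¹ * s, _⟩ * φ x
    have h1 : ((s * x : G) : G ⧸ P) = (s : G ⧸ P) := by
      rw [eq_comm, QuotientGroup.eq, inv_mul_cancel_left]
      exact x.2
    have h2 : (⟨(r (s * x))⁻¹ * (s * x), hr (s * x)⟩ : P) = ⟨(r s)⁻¹ * s, hr s⟩ * x := by
      apply Subtype.ext
      show (r (s * x))⁻¹ * (s * x) = (r s)⁻¹ * s * x
      rw [hrx, mul_assoc]
    rw [h1, h2, map_mul, mul_assoc]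
  have hinj : Function.Injective f := by
    intro s s' h
    have h1 : (e (s : G ⧸ P)) = e (s' : G ⧸ P) := by
      have h2 : ((f s : G) : G ⧸ φ.range) = e (s : G ⧸ P) := by
        have h3 : ((f s : G) : G ⧸ φ.range) = (((e (s : G ⧸ P)).out : G) : G ⧸ φ.range) := by
          rw [eq_comm, QuotientGroup.eq]
          show ((e (s : G ⧸ P)).out)⁻¹ * ((e (s : G ⧸ P)).out * φ ⟨(r s)⁻¹ * s, hr s⟩) ∈ φ.range
          rw [inv_mul_cancel_left]
          exact ⟨_, rfl⟩
        rw [h3]; exact Quotient.out_eq' _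
      have h2' : ((f s' : G) : G ⧸ φ.range) = e (s' : G ⧸ P) := by
        have h3 : ((f s' : G) : G ⧸ φ.range) = (((e (s' : G ⧸ P)).out : G) : G ⧸ φ.range) := by
          rw [eq_comm, QuotientGroup.eq]
          show ((e (s' : G ⧸ P)).out)⁻¹ * ((e (s' : G ⧸ P)).out * φ ⟨(r s')⁻¹ * s', hr s'⟩) ∈ φ.range
          rw [inv_mul_cancel_left]
          exact ⟨_, rfl⟩
        rw [h3]; exact Quotient.out_eq' _
      rw [← h2, ← h2', h]
    have h2 : (s : G ⧸ P) = s' := e.injective h1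
    have h3 : r s = r s' := by
      show ((s : G) : G ⧸ P).out = ((s' : G) : G ⧸ P).out
      rw [h2]
    have h4 : (e (s : G ⧸ P)).out * φ ⟨(r s)⁻¹ * s, hr s⟩ =
      (e (s' : G ⧸ P)).out * φ ⟨(r s')⁻¹ * s', hr s'⟩ := h
    rw [h2] at h4
    have h5 := congrArg Subtype.val (hφ (mul_left_cancel h4))
    have h6 : (r s)⁻¹ * s = (r s')⁻¹ * s' := h5
    rw [h3] at h6
    exact mul_left_cancel h6
  exact ⟨Equiv.ofBijective f (Finite.injective_iff_bijective.1 hinj), hf⟩

/-- The right regular representation. -/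
def regr (G : Type u) [Group G] : G →* Equiv.Perm G where
  toFun s := Equiv.mulRight s⁻¹
  map_one' := by ext x; simp
  map_mul' a b := by ext x; simp [mul_assoc]

theorem regr_apply {G : Type u} [Group G] (s x : G) : regr G s x = x * s⁻¹ := rfl

theorem regr_injective {G : Type u} [Group G] : Function.Injective (regr G) := by
  intro a b h
  have h1 : (1 : G) * a⁻¹ = 1 * b⁻¹ := by rw [← regr_apply, ← regr_apply, h]
  simpa using h1

variable {Ω : Type u} [Group Ω] {S : Subgroup Ω} (F : FusionSystem S)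

abbrev II : Type u := Σ P : Subgroup Ω, {φ : P →* Ω // φ ∈ F.Hom P}

def AA (i : II F) : Subgroup (Equiv.Perm S) := (i.1.subgroupOf S).map (regr S)

variable {F} in
theorem exists_sigma [Finite S] (i : II F) : ∃ σ : Equiv.Perm S, ∀ x : i.1,
    σ * regr S ⟨x, (F.le_of_mem i.2.2).1 x.2⟩ * σ⁻¹ = regr S ⟨i.2.1 x, (F.le_of_mem i.2.2).2 x⟩ := by
  have hP := (F.le_of_mem i.2.2).1
  let φ' : i.1.subgroupOf S →* S :=
    { toFun := fun x => ⟨i.2.1 ⟨x, x.2⟩, (F.le_of_mem i.2.2).2 _⟩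
      map_one' := Subtype.ext (map_one i.2.1)
      map_mul' := fun x y => Subtype.ext (map_mul i.2.1 ⟨x, x.2⟩ ⟨y, y.2⟩) }
  have hφ' : Function.Injective φ' := by
    intro x y hxy
    have h1 := F.injective_of_mem i.2.2 (congrArg Subtype.val hxy : i.2.1 ⟨x, x.2⟩ = i.2.1 ⟨y, y.2⟩)
    exact Subtype.ext (Subtype.ext (congrArg (fun z : i.1 => (z : Ω)) h1))
  obtain ⟨σ, hσ⟩ := exists_perm (i.1.subgroupOf S) φ' hφ'
  refine ⟨σ, fun x => ?_⟩
  rw [mul_inv_eq_iff_eq_mul]
  ext s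
  rw [Equiv.Perm.mul_apply, Equiv.Perm.mul_apply, regr_apply, regr_apply]
  have h1 := hσ s (⟨⟨x, hP x.2⟩, x.2⟩⁻¹ : i.1.subgroupOf S)
  have h2 : ((⟨⟨x, hP x.2⟩, x.2⟩⁻¹ : i.1.subgroupOf S) : S) = (⟨x, hP x.2⟩ : S)⁻¹ := rfl
  rw [h2] at h1
  rw [h1, map_inv]
  rfl

variable {F} in
noncomputable def sg [Finite S] (i : II F) : Equiv.Perm S := (exists_sigma i).choose

theorem sg_spec [Finite S] (i : II F) (x : i.1) :
    sg i * regr S ⟨x, (F.le_of_mem i.2.2).1 x.2⟩ * (sg i)⁻¹ = regr S ⟨i.2.1 x, (F.le_of_mem i.2.2).2 x⟩ :=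
  (exists_sigma i).choose_spec x

theorem hA (i : II F) : AA F i ≤ (regr S).range := by
  rintro _ ⟨x, -, rfl⟩
  exact ⟨x, rfl⟩

theorem hsg [Finite S] (i : II F) (a : Equiv.Perm S) (ha : a ∈ AA F i) :
    sg i * a * (sg i)⁻¹ ∈ (regr S).range := by
  obtain ⟨x, hx, rfl⟩ := ha
  exact ⟨_, (sg_spec F i ⟨x, hx⟩).symm⟩

/-- The embedding of `S`, extended by `1`. -/
noncomputable def jj (x : Ω) : WW (AA F) :=
  SemidirectProduct.inr (extFun (P := S) (regr S) x)

variable {F}

theorem jj_apply {x : Ω} (hx : x ∈ S) : jj F x = SemidirectProduct.inr (regr S ⟨x, hx⟩) := by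
  rw [jj, extFun_apply _ hx]

theorem jj_inj {x y : Ω} (hx : x ∈ S) (hy : y ∈ S) (h : jj F x = jj F y) : x = y := by
  rw [jj_apply hx, jj_apply hy] at h
  have h1 := regr_injective (SemidirectProduct.inr_injective h)
  exact congrArg Subtype.val h1

theorem jj_mul {x y : Ω} (hx : x ∈ S) (hy : y ∈ S) : jj F (x * y) = jj F x * jj F y := by
  rw [jj_apply hx, jj_apply hy, jj_apply (S.mul_mem hx hy), ← map_mul, ← map_mul]
  rfl

theorem jj_inv {x : Ω} (hx : x ∈ S) : jj F x⁻¹ = (jj F x)⁻¹ := by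
  rw [jj_apply hx, jj_apply (S.inv_mem hx), ← map_inv, ← map_inv]
  rfl

theorem tt_jj [Finite S] (i : II F) {x : Ω} (hx : x ∈ i.1) :
    tt (AA F) sg i * jj F x = jj F (extFun i.2.1 x) * tt (AA F) sg i := by
  have hP := (F.le_of_mem i.2.2).1
  rw [jj_apply (hP hx), extFun_apply _ hx, jj_apply ((F.le_of_mem i.2.2).2 _)]
  have h1 : regr S ⟨x, hP hx⟩ ∈ AA F i := ⟨⟨x, hP hx⟩, hx, rfl⟩
  rw [tt_mul h1, sg_spec F i ⟨x, hx⟩]

theorem isMap_of_red [Finite S] {g : WW (AA F)} (hg : RedW (AA F) sg (regr S).range g) :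
    ∀ (P : Subgroup Ω) (f : Ω → Ω), P ≤ S → (∀ x ∈ P, f x ∈ S) → (∀ x ∈ P, jj F (f x) * g = g * jj F x) →
      IsMap F P f := by
  induction hg with
  | base hs =>
    obtain ⟨s, rfl⟩ := hs
    intro P f hP hf h
    refine (isMap_conj F hP s.2).congr fun x hx => ?_
    have h1 := h x hx
    have h2 : (SemidirectProduct.inr (regr S s) : WW (AA F)) = jj F (s : Ω) := by
      rw [jj_apply s.2]
    rw [h2] at h1
    have h3 : jj F (f x) = jj F (s * x * (s : Ω)⁻¹) := by
      rw [jj_mul (S.mul_mem s.2 (hP hx)) (S.inv_mem s.2), jj_mul s.2 (hP hx), jj_inv s.2, ← h1,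
        mul_inv_cancel_right]
    exact (jj_inj (hf x hx) (S.mul_mem (S.mul_mem s.2 (hP hx)) (S.inv_mem s.2)) h3).symm
  | @step g i b s' hg hs hred ih =>
    obtain ⟨s, rfl⟩ := hs
    intro P f hP hf h
    have hs2 : (SemidirectProduct.inr (regr S s) : WW (AA F)) = jj F (s : Ω) := by
      rw [jj_apply s.2]
    have hiP := (F.le_of_mem i.2.2).1
    have hiM := isMap_of_mem i.2.2
    have hconj := isMap_conj F hP s.2
    have hcS : ∀ x ∈ P, (s : Ω) * x * (s : Ω)⁻¹ ∈ S := fun x hx => hconj.mem hx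
    have hmem : ∀ x (hx : x ∈ P), (vt sg i b)⁻¹ * st sg i b * (regr S ⟨(s : Ω) * x * (s : Ω)⁻¹,
        S.mul_mem (S.mul_mem s.2 (hP hx)) (S.inv_mem s.2)⟩) * (st sg i b)⁻¹ * vt sg i b ∈ AA F i := by
      intro x hx
      have h1 := h x hx
      rw [jj_apply (hf x hx), jj_apply (hP hx)] at h1
      have h2 := mem_of_conj hred h1
      have h3 : regr S s * regr S ⟨x, hP hx⟩ * (regr S s)⁻¹ =
          regr S ⟨(s : Ω) * x * (s : Ω)⁻¹, S.mul_mem (S.mul_mem s.2 (hP hx)) (S.inv_mem s.2)⟩ := by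
        rw [← map_inv, ← map_mul, ← map_mul]
        rfl
      rw [h3] at h2
      exact h2
    -- the middle map
    obtain ⟨k, hk, hkt⟩ : ∃ k : Ω → Ω, IsMap F P k ∧ ∀ x ∈ P,
        te (AA F) sg i b * jj F (s * x * (s : Ω)⁻¹) = jj F (k x) * te (AA F) sg i b := by
      cases b with
      | true =>
        have h1 : ∀ x ∈ P, (s : Ω) * x * (s : Ω)⁻¹ ∈ i.1 := by
          intro x hx
          have h2 := hmem x hx
          simp only [vt, st, if_true, inv_mul_cancel, one_mul, inv_mul_cancel_right] at h2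
          obtain ⟨y, hy, hye⟩ := h2
          have h3 := congrArg Subtype.val (regr_injective hye)
          have h4 : (y : Ω) = (s : Ω) * x * (s : Ω)⁻¹ := h3
          rw [← h4]
          exact hy
        exact ⟨_, hconj.comp' hiM h1, fun x hx => tt_jj i (h1 x hx)⟩
      | false =>
        have h1 : ∀ x ∈ P, ∃ a ∈ i.1, extFun i.2.1 a = (s : Ω) * x * (s : Ω)⁻¹ := by
          intro x hx
          have h2 := hmem x hx
          simp only [vt, st, Bool.false_eq_true, if_false, inv_one, one_mul, mul_one, inv_inv] at h2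
          obtain ⟨y, hy, hye⟩ := h2
          refine ⟨y, hy, ?_⟩
          have h3 := sg_spec F i ⟨y, hy⟩
          have h4 : regr S ⟨y, hiP hy⟩ = (sg i)⁻¹ * regr S ⟨(s : Ω) * x * (s : Ω)⁻¹, S.mul_mem (S.mul_mem s.2
            (hP hx)) (S.inv_mem s.2)⟩ * sg i := hye
          have h5 : regr S ⟨i.2.1 ⟨y, hy⟩, (F.le_of_mem i.2.2).2 _⟩ = regr S ⟨(s : Ω) * x * (s : Ω)⁻¹,
              S.mul_mem (S.mul_mem s.2 (hP hx)) (S.inv_mem s.2)⟩ := by
            rw [← h3, h4]; group
          rw [extFun_apply i.2.1 (show (y : Ω) ∈ i.1 from hy)]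
          exact congrArg Subtype.val (regr_injective h5)
        obtain ⟨m, hm, hm1, hm2⟩ := (isIso_of_mem i.2.2).symm
        have h2 : ∀ x ∈ P, (s : Ω) * x * (s : Ω)⁻¹ ∈ i.2.1.range := by
          intro x hx
          obtain ⟨a, ha, hae⟩ := h1 x hx
          rw [← hae, extFun_apply _ ha]
          exact ⟨_, rfl⟩
        refine ⟨_, hconj.comp' hm.isMap h2, fun x hx => ?_⟩
        obtain ⟨a, ha, hae⟩ := h1 x hx
        show (tt (AA F) sg i)⁻¹ * jj F (s * x * (s : Ω)⁻¹) = jj F (m (s * x * (s : Ω)⁻¹)) * (tt (AA F) sg i)⁻¹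
        rw [← hae, hm1 a ha, inv_mul_eq_iff_eq_mul, ← mul_assoc, tt_jj i ha, mul_inv_cancel_right]
    obtain ⟨m, hm, hm1, hm2⟩ := hk.isIso.symm
    have hR := hm.le
    have h1 := ih (img P k) (fun y => f (m y)) hR (fun y hy => hf _ (hm.mem hy)) (fun y hy => by
      obtain ⟨x, hx, rfl⟩ := (H87.Base.mem_img hk).1 hy
      rw [hm1 x hx]
      have h2 := h x hx
      have h3 := hkt x hx
      rw [jj_mul (S.mul_mem s.2 (hP hx)) (S.inv_mem s.2), jj_mul s.2 (hP hx), jj_inv s.2] at h3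
      rw [hs2] at h2
      -- h2 : j (f x) g te j s = g te j s j x
      have h4 : jj F (f x) * g * te (AA F) sg i b = g * te (AA F) sg i b * (jj F s * jj F x * (jj F (s : Ω))⁻¹) := by
        rw [← mul_assoc, ← mul_assoc, ← h2]
        group
      have h5 : g * te (AA F) sg i b * (jj F s * jj F x * (jj F (s : Ω))⁻¹) = g * jj F (k x) * te (AA F) sg i b := by
        rw [mul_assoc, h3, mul_assoc]
      rw [h5] at h4
      exact mul_right_cancel h4)
    refine (hk.comp h1 fun x hx => apply_mem_img hx).congr fun x hx => ?_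
    show f (m (k x)) = f x
    rw [hm1 x hx]

variable (F)

/-- The realizing homomorphism. -/
noncomputable def iota [Finite S] : S →* GG (AA F) sg (regr S).range :=
  (SemidirectProduct.inr.comp (regr S)).codRestrict _ (fun s => inr_mem ⟨s, rfl⟩)

theorem iota_val [Finite S] (s : S) : ((iota F s : GG (AA F) sg (regr S).range) : WW (AA F)) = jj F s := by
  rw [jj_apply s.2]
  rfl

theorem realized [Finite S] : F.IsRealizedBy (iota F) := by
  refine ⟨fun a b hab => ?_, fun P hP φ hφ => ⟨fun h => ?_, ?_⟩⟩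
  · have h1 := congrArg Subtype.val hab
    rw [iota_val, iota_val] at h1
    exact Subtype.ext (jj_inj a.2 b.2 h1)
  · let i : II F := ⟨P, φ, h⟩
    have ht : tt (AA F) sg i ∈ GG (AA F) sg (regr S).range := te_mem i true
    refine ⟨⟨tt (AA F) sg i, ht⟩, fun x => ?_⟩
    rw [eq_mul_inv_iff_mul_eq]
    apply Subtype.ext
    show ((iota F _ : GG (AA F) sg (regr S).range) : WW (AA F)) * tt (AA F) sg i =
      tt (AA F) sg i * ((iota F _ : GG (AA F) sg (regr S).range) : WW (AA F))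
    rw [iota_val, iota_val, tt_jj i (x := (x : Ω)) x.2]
    congr 2
    exact (extFun_apply φ x.2).symm
  · rintro ⟨g, hg⟩
    have hred := red_of_mem (hA F) (hsg F) g.2
    have h1 := isMap_of_red hred P (extFun φ) hP (fun x hx => by
      rw [extFun_apply φ hx]; exact hφ _) (fun x hx => by
      have h2 := congrArg Subtype.val (hg ⟨x, hx⟩)
      rw [Subgroup.coe_mul, Subgroup.coe_mul, Subgroup.coe_inv, iota_val, iota_val,
        eq_mul_inv_iff_mul_eq] at h2
      rw [extFun_apply φ hx]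
      exact h2)
    exact mem_of_isMap h1 fun x => (extFun_coe φ x).symm

theorem main [Finite S] : ∃ (G : Type u) (_ : Group G) (ι : ↥S →* G), F.IsRealizedBy ι ∧
    (∀ H : Subgroup G, Finite ↥H → ∃ g : G, ∀ h ∈ H, g * h * g⁻¹ ∈ ι.range) ∧
      ∃ N : Subgroup G, N.Normal ∧ IsFreeGroup ↥N ∧ N.index ∣ (Nat.card ↥S).factorial := by
  classical
  refine ⟨GG (AA F) sg (regr S).range, inferInstance, iota F, realized F, fun H hH => ?_,
    ((SemidirectProduct.rightHom (φ := act (Equiv.Perm S) (XX (AA F)))).comp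
      (GG (AA F) sg (regr S).range).subtype).ker, inferInstance, isFree_ker _ _, ?_⟩
  · have hfin : Finite (H.map (GG (AA F) sg (regr S).range).subtype) := by
      have h1 := (Set.toFinite (H : Set (GG (AA F) sg (regr S).range))).image
        (GG (AA F) sg (regr S).range).subtype
      exact h1.to_subtype
    obtain ⟨g, hg, h⟩ := conj_finite (hA F) (hsg F) (H.map (GG (AA F) sg (regr S).range).subtype) (by
      rintro _ ⟨x, -, rfl⟩; exact x.2)
    refine ⟨⟨g⁻¹, Subgroup.inv_mem _ hg⟩, fun x hx => ?_⟩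
    obtain ⟨s, ⟨t, rfl⟩, hs⟩ := h _ ⟨x, hx, rfl⟩
    refine ⟨t, ?_⟩
    apply Subtype.ext
    show SemidirectProduct.inr (regr S t) = g⁻¹ * (x : WW (AA F)) * (g⁻¹)⁻¹
    rw [inv_inv, ← hs]
    rfl
  · rw [Subgroup.index_ker]
    have h1 : Nat.card (Equiv.Perm S) = (Nat.card S).factorial := Nat.card_perm
    rw [← h1]
    exact Subgroup.card_subgroup_dvd_card _

end H89.LStan
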