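import Mathlib

set_option autoImplicit false
set_option linter.unusedSectionVars false

/-! O'Nan: 2-transitive groups with abelian normal subgroups `N x` of the point stabilizers,
not semiregular. Part 1: the linear space. -/

namespace H89.ON

/-- the setting -/
structure Dat (G X : Type*) [Group G] [MulAction G X] where
  N : X → Subgroup G
  conj : ∀ (g : G) (x : X) (n : G), n ∈ N x → g * n * g⁻¹ ∈ N (g • x)
  fix : ∀ (x : X) (n : G), n ∈ N x → n • x = x
  comm : ∀ (x : X) (a b : G), a ∈ N x → b ∈ N x → a * b = b * a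
  ne : ∀ x y : X, x ≠ y → ∃ n ∈ N x, n ≠ 1 ∧ n • y = y
  faith : ∀ g : G, (∀ x : X, g • x = x) → g = 1
  tt : ∀ x y x' y' : X, x ≠ y → x' ≠ y' → ∃ g : G, g • x = x' ∧ g • y = y'

variable {G X : Type*} [Group G] [MulAction G X] [Finite G]

theorem card_le_of_conj {A B : Subgroup G} (g : G) (h : ∀ n ∈ A, g * n * g⁻¹ ∈ B) :
    Nat.card A ≤ Nat.card B := by
  refine Nat.card_le_card_of_injective (fun n : A => (⟨g * n * g⁻¹, h n n.2⟩ : B)) ?_
  intro a b hab
  have := congrArg Subtype.val hab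
  simp only [mul_left_inj, mul_right_inj] at this
  exact Subtype.ext this

namespace Dat

variable (D : Dat G X)

theorem conj_inv {g : G} {x : X} {n : G} (h : n ∈ D.N (g • x)) : g⁻¹ * n * g ∈ D.N x := by
  have := D.conj g⁻¹ (g • x) n h
  simpa using this

theorem card_N (x y : X) : Nat.card (D.N x) = Nat.card (D.N y) := by
  by_cases h : x = y
  · rw [h]
  · obtain ⟨g, hg, hg'⟩ := D.tt x y y x h (Ne.symm h)
    refine le_antisymm (card_le_of_conj g fun n hn => ?_) (card_le_of_conj g fun n hn => ?_)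
    · have := D.conj g x n hn; rwa [hg] at this
    · have := D.conj g y n hn; rwa [hg'] at this

/-- the stabilizer of `y` in `N x` -/
def W (x y : X) : Subgroup G := D.N x ⊓ MulAction.stabilizer G y

theorem mem_W {x y : X} {g : G} : g ∈ D.W x y ↔ g ∈ D.N x ∧ g • y = y := by
  simp [W, Subgroup.mem_inf]

theorem W_conj (g : G) {x y : X} {n : G} (h : n ∈ D.W x y) :
    g * n * g⁻¹ ∈ D.W (g • x) (g • y) := by
  rw [mem_W] at h ⊢
  refine ⟨D.conj g x n h.1, ?_⟩
  rw [smul_smul, inv_mul_cancel_right, ← smul_smul, h.2]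

theorem W_conj_inv {g : G} {x y : X} {n : G} (h : n ∈ D.W (g • x) (g • y)) :
    g⁻¹ * n * g ∈ D.W x y := by
  have := D.W_conj g⁻¹ h
  simpa using this

theorem card_W {x y x' y' : X} (h : x ≠ y) (h' : x' ≠ y') :
    Nat.card (D.W x y) = Nat.card (D.W x' y') := by
  obtain ⟨g, hg, hg'⟩ := D.tt x y x' y' h h'
  obtain ⟨k, hk, hk'⟩ := D.tt x' y' x y h' h
  refine le_antisymm (card_le_of_conj g fun n hn => ?_) (card_le_of_conj k fun n hn => ?_)
  · have := D.W_conj g hn; rwa [hg, hg'] at this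
  · have := D.W_conj k hn; rwa [hk, hk'] at this

/-- `N x ⊓ N y` -/
def K (x y : X) : Subgroup G := D.N x ⊓ D.N y

theorem card_K {x y x' y' : X} (h : x ≠ y) (h' : x' ≠ y') :
    Nat.card (D.K x y) = Nat.card (D.K x' y') := by
  have key : ∀ {x y x' y' : X}, x ≠ y → x' ≠ y' → Nat.card (D.K x y) ≤ Nat.card (D.K x' y') := by
    intro x y x' y' h h'
    obtain ⟨g, hg, hg'⟩ := D.tt x y x' y' h h'
    refine card_le_of_conj g fun n hn => ?_
    rw [K, Subgroup.mem_inf] at hn ⊢
    rw [← hg, ← hg']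
    exact ⟨D.conj g x n hn.1, D.conj g y n hn.2⟩
  exact le_antisymm (key h h') (key h' h)

theorem K_eq {x y z w : X} (hxy : x ≠ y) (hzw : z ≠ w) (hz : D.K x y ≤ D.N z)
    (hw : D.K x y ≤ D.N w) : D.K z w = D.K x y := by
  have hle : D.K x y ≤ D.K z w := le_inf hz hw
  exact (Subgroup.eq_of_le_of_card_ge hle (le_of_eq (D.card_K hzw hxy))).symm

theorem ti {x y : X} {g : G} (hxy : x ≠ y) (hx : g ∈ D.N x) (hy : g ∈ D.N y) : g = 1 := by
  refine D.faith g fun w => ?_
  by_contra hw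
  have hwx : w ≠ x := fun h => hw (by rw [h]; exact D.fix x g hx)
  have hwy : w ≠ y := fun h => hw (by rw [h]; exact D.fix y g hy)
  have hne : w ≠ g • w := fun h => hw h.symm
  -- general fact
  have gen : ∀ u : X, u ≠ w → g ∈ D.N u → D.K w (g • w) = D.K u w := by
    intro u huw hu
    refine D.K_eq huw hne (fun k hk => ?_) (fun k hk => ?_)
    · rw [K, Subgroup.mem_inf] at hk; exact hk.2
    · rw [K, Subgroup.mem_inf] at hk
      have h1 := D.conj g w k hk.2
      rwa [D.comm u g k hu hk.1, mul_inv_cancel_right] at h1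
  have h1 := gen x (Ne.symm hwx) hx
  have h2 := gen y (Ne.symm hwy) hy
  have h3 : D.K x w = D.K y w := h1.symm.trans h2
  have h4 : D.K x w ≤ D.K x y := by
    refine le_inf inf_le_left ?_
    rw [h3]; exact inf_le_left
  have h5 : D.K x w = D.K x y :=
    Subgroup.eq_of_le_of_card_ge h4 (le_of_eq (D.card_K hxy (Ne.symm hwx)))
  have h6 : g ∈ D.K x w := by rw [h5]; exact ⟨hx, hy⟩
  exact hw (D.fix w g h6.2)

theorem cent {x : X} {a g : G} (ha : a ∈ D.N x) (h1 : a ≠ 1) (hc : g * a = a * g) :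
    g • x = x := by
  by_contra h
  apply h1
  refine D.ti h ?_ ha
  have := D.conj g x a ha
  rwa [hc, mul_inv_cancel_right] at this

theorem W_comm {x y : X} (hxy : x ≠ y) {a b : G} (ha : a ∈ D.W x y) (hb : b ∈ D.W y x) :
    a * b = b * a := by
  rw [mem_W] at ha hb
  have h : a * b * a⁻¹ * b⁻¹ = 1 := by
    refine D.ti hxy ?_ ?_
    · have h1 := D.conj b x a⁻¹ (inv_mem ha.1)
      rw [hb.2] at h1
      have := mul_mem ha.1 h1
      simpa [mul_assoc] using this
    · have h1 := D.conj a y b hb.1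
      rw [ha.2] at h1
      exact mul_mem h1 (inv_mem hb.1)
  have h3 : a * b * a⁻¹ = b := by
    have := mul_inv_eq_one.1 h
    exact this
  calc a * b = a * b * a⁻¹ * a := by group
    _ = b * a := by rw [h3]

/-- symmetry of collinearity -/
theorem csymm {x y z : X} (hxy : x ≠ y) (hyz : y ≠ z) (h : D.W x y = D.W x z) :
    D.W y z = D.W y x := by
  refine Subgroup.eq_of_le_of_card_ge (fun u hu => ?_) (le_of_eq (D.card_W (Ne.symm hxy) hyz))
  by_contra hux
  rw [mem_W] at hu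
  have hux' : u • x ≠ x := fun h' => hux (D.mem_W.2 ⟨hu.1, h'⟩)
  -- conjugation map
  have hmem : ∀ a ∈ D.W x y, a * u * a⁻¹ ∈ D.W y z := by
    intro a ha
    have haz : a ∈ D.W x z := h ▸ ha
    rw [mem_W] at ha haz
    have := D.W_conj a (D.mem_W.2 hu)
    rwa [ha.2, haz.2] at this
  let f : D.W x y → D.W y z := fun a => ⟨a * u * (a : G)⁻¹, hmem a a.2⟩
  have hf : Function.Injective f := by
    intro a b hab
    have h1 : (a : G) * u * (a : G)⁻¹ = b * u * (b : G)⁻¹ := congrArg Subtype.val hab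
    by_contra hne
    have h2 : (b : G)⁻¹ * a ≠ 1 := fun h' => hne (Subtype.ext (inv_mul_eq_one.1 h').symm)
    have h3 : (b : G)⁻¹ * a ∈ D.N x := mul_mem (inv_mem (D.mem_W.1 b.2).1) (D.mem_W.1 a.2).1
    have h4 : u * ((b : G)⁻¹ * a) = (b : G)⁻¹ * a * u := by
      have : (b : G)⁻¹ * (a * u * (a : G)⁻¹) * a = (b : G)⁻¹ * (b * u * (b : G)⁻¹) * a := by
        rw [h1]
      simp only [mul_assoc, inv_mul_cancel_left, inv_mul_cancel, mul_one] at this
      rw [mul_assoc]; exact this.symm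
    exact hux' (D.cent h3 h2 h4)
  have hbij : Function.Bijective f := by
    rw [Nat.bijective_iff_injective_and_card]
    exact ⟨hf, D.card_W hxy hyz⟩
  obtain ⟨a, ha⟩ := hbij.2 1
  have h5 : (a : G) * u * (a : G)⁻¹ = 1 := congrArg Subtype.val ha
  have h6 : u = 1 := by
    have := conj_eq_one_iff.1 h5
    exact this
  exact hux' (by rw [h6, one_smul])

/-- the line through `x` and `y` (for `x ≠ y`) -/
def L (x y : X) : Set X := {z | ∀ g ∈ D.W x y, g • z = z}

theorem left_mem (x y : X) : x ∈ D.L x y := fun g hg => D.fix x g (D.mem_W.1 hg).1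

theorem right_mem (x y : X) : y ∈ D.L x y := fun _ hg => (D.mem_W.1 hg).2

theorem W_eq_of_mem {x y z : X} (hxy : x ≠ y) (hz : z ∈ D.L x y) (hzx : z ≠ x) :
    D.W x z = D.W x y := by
  refine (Subgroup.eq_of_le_of_card_ge (fun g hg => ?_)
    (le_of_eq (D.card_W (Ne.symm hzx) hxy))).symm
  exact D.mem_W.2 ⟨(D.mem_W.1 hg).1, hz g hg⟩

theorem L_symm_le {x y z : X} (hxy : x ≠ y) (hz : z ∈ D.L x y) : z ∈ D.L y x := by
  by_cases hzx : z = x
  · rw [hzx]; exact D.right_mem y x
  by_cases hzy : z = y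
  · rw [hzy]; exact D.left_mem y x
  have h1 := D.W_eq_of_mem hxy hz hzx
  have h2 := D.csymm hxy (Ne.symm hzy) h1.symm
  intro g hg
  rw [← h2] at hg
  exact (D.mem_W.1 hg).2

theorem L_symm {x y : X} (hxy : x ≠ y) : D.L x y = D.L y x :=
  Set.Subset.antisymm (fun _ hz => D.L_symm_le hxy hz) (fun _ hz => D.L_symm_le (Ne.symm hxy) hz)

theorem L_eq_left {x y z : X} (hxy : x ≠ y) (hz : z ∈ D.L x y) (hzx : z ≠ x) :
    D.L x z = D.L x y := by
  unfold L
  rw [D.W_eq_of_mem hxy hz hzx]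

theorem L_eq {x y z w : X} (hxy : x ≠ y) (hz : z ∈ D.L x y) (hw : w ∈ D.L x y) (hzw : z ≠ w) :
    D.L z w = D.L x y := by
  by_cases hzx : z = x
  · rw [hzx]; exact D.L_eq_left hxy hw (fun h => hzw (by rw [hzx, h]))
  · have h1 := D.L_eq_left hxy hz hzx
    rw [← h1] at hw
    rw [D.L_symm (Ne.symm hzx)] at hw h1
    rw [D.L_eq_left hzx hw (Ne.symm hzw), h1]

theorem smul_L (g : G) {x y w : X} (hw : w ∈ D.L x y) : g • w ∈ D.L (g • x) (g • y) := by
  intro h hh
  have h1 := hw _ (D.W_conj_inv hh)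
  calc h • g • w = g • ((g⁻¹ * h * g) • w) := by
        rw [smul_smul, smul_smul]; congr 1; group
    _ = g • w := by rw [h1]

theorem N_line {x y : X} {n : G} (hn : n ∈ D.N x) : n • y ∈ D.L x y := by
  intro g hg
  rw [smul_smul, D.comm x g n (D.mem_W.1 hg).1 hn, ← smul_smul, (D.mem_W.1 hg).2]

theorem ne_of_notMem {x y z : X} (h : z ∉ D.L x y) : z ≠ x ∧ z ≠ y :=
  ⟨fun h' => h (h' ▸ D.left_mem x y), fun h' => h (h' ▸ D.right_mem x y)⟩

theorem fix_line {x y z w : X} {g : G} (hg : g ∈ D.N z) (hxy : x ≠ y) (hx : g • x = x)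
    (hy : g • y = y) (hw : w ∈ D.L x y) : g • w = w := by
  by_cases hz : z ∈ D.L x y
  · -- choose a point of the line different from z
    have : ∃ u, u ∈ D.L x y ∧ z ≠ u ∧ g • u = u := by
      by_cases hzx : z = x
      · exact ⟨y, D.right_mem x y, by rw [hzx]; exact hxy, hy⟩
      · exact ⟨x, D.left_mem x y, hzx, hx⟩
    obtain ⟨u, hu, hzu, hgu⟩ := this
    have h1 := D.L_eq hxy hz hu hzu
    rw [← h1] at hw
    exact hw g (D.mem_W.2 ⟨hg, hgu⟩)
  · by_contra hne
    have hwz : z ≠ w := fun h => hz (h ▸ hw)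
    have h1 : g • w ∈ D.L z w := D.N_line hg
    have h2 : g • w ∈ D.L x y := by
      have := D.smul_L g hw
      rwa [hx, hy] at this
    have h3 := D.L_eq hwz (D.right_mem z w) h1 (Ne.symm hne)
    have h4 := D.L_eq hxy hw h2 (Ne.symm hne)
    apply hz
    rw [← h4, h3]
    exact D.left_mem z w

theorem exists_notMem {x y : X} (hxy : x ≠ y) : ∃ b, b ∉ D.L x y := by
  obtain ⟨n, hn, hn1, hny⟩ := D.ne x y hxy
  by_contra hcon
  push Not at hcon
  exact hn1 (D.faith n fun b => hcon b n (D.mem_W.2 ⟨hn, hny⟩))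

/-- orbit-stabilizer for `N x` -/
theorem card_orbit [Finite X] (x u : X) :
    Nat.card (D.N x) = Nat.card (MulAction.orbit (D.N x) u) * Nat.card (D.W x u) := by
  have h1 : Nat.card (D.W x u) = Nat.card (MulAction.stabilizer (D.N x) u) := by
    refine Nat.card_congr
      { toFun := fun g => ⟨⟨g, (D.mem_W.1 g.2).1⟩, by
          rw [MulAction.mem_stabilizer_iff]; exact (D.mem_W.1 g.2).2⟩
        invFun := fun g => ⟨g.1.1, D.mem_W.2 ⟨g.1.2, by
          have := g.2; rw [MulAction.mem_stabilizer_iff] at this; exact this⟩⟩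
        left_inv := fun g => rfl
        right_inv := fun g => rfl }
  rw [h1, ← Nat.card_prod]
  exact (Nat.card_congr (MulAction.orbitProdStabilizerEquivGroup (D.N x) u)).symm

end Dat

end H89.ON
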