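import Cfsg.Agent.Lib.H89.ON9
import Cfsg.Agent.Lib.H48.Pid3

set_option autoImplicit false
set_option linter.unusedSectionVars false
set_option linter.unusedVariables false

/-! O'Nan, part 10: the field and the coordinates. -/

namespace H89.ON

/-- carrier for small fields -/
def FF (n : ℕ) : Type := Fin n

theorem exists_small {K₀ M : Type*} [Field K₀] [Finite K₀] [AddCommGroup M] [Module K₀ M] :
    ∃ (K : Type) (_ : Field K) (_ : Fintype K) (_ : Module K M) (r : K ≃ K₀),
      ∀ (k : K) (a : M), k • a = r k • a := by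
  obtain ⟨n, ⟨e⟩⟩ := Finite.exists_equiv_fin K₀
  let e' : FF n ≃ K₀ := e.symm
  let fld' : Field (FF n) := e'.field
  let r : FF n ≃+* K₀ := @Equiv.ringEquiv _ _ e' _ _
  let ft : Fintype (FF n) := inferInstanceAs (Fintype (Fin n))
  let md' : Module (FF n) M := Module.compHom M (r : FF n →+* K₀)
  exact ⟨FF n, fld', ft, md', r.toEquiv, fun k a => rfl⟩

namespace Spread

variable {M ι : Type*} [AddCommGroup M] [Finite M] (S : Spread M ι)

/-- the kernel as a finite field in the lowest universe -/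
theorem exists_field [Nonempty ι]
    (htr : ∀ c, ∀ a ∈ S.T c, a ≠ 0 → ∀ a' ∈ S.T c, ∃ φ ∈ S.Scal, φ a = a') :
    ∃ (K : Type) (_ : Field K) (_ : Fintype K) (_ : Module K M),
      (∀ (k : K) (b : ι) (a : M), a ∈ S.T b → k • a ∈ S.T b) ∧
      (∀ (b : ι) (a : M), a ∈ S.T b → a ≠ 0 → ∀ a' ∈ S.T b, ∃ k : K, k • a = a') := by
  have hM : Nontrivial M := by
    obtain ⟨b⟩ := ‹Nonempty ι›
    obtain ⟨a, -, ha⟩ := S.nt b
    exact ⟨⟨a, 0, ha⟩⟩
  have hfin : Finite (AddMonoid.End M) := by
    refine Finite.of_injective (fun φ : AddMonoid.End M => (φ : M → M)) ?_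
    intro φ ψ hφ
    exact DFunLike.coe_injective hφ
  have hdom : IsDomain S.Scal := isDomain_of S.Scal (fun θ hθ x hx h => S.Scal_zero hθ hx h)
  let fld : Field S.Scal := (Finite.isDomain_to_isField S.Scal).toField
  let md : Module S.Scal M :=
    { smul := fun k a => (k : AddMonoid.End M) a
      one_smul := fun a => rfl
      mul_smul := fun k l a => rfl
      smul_zero := fun k => map_zero (k : AddMonoid.End M)
      smul_add := fun k a b => map_add (k : AddMonoid.End M) a b
      add_smul := fun k l a => rfl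
      zero_smul := fun a => rfl }
  obtain ⟨K, fK, ftK, mK, r, hr⟩ := exists_small (K₀ := S.Scal) (M := M)
  refine ⟨K, fK, ftK, mK, ?_, ?_⟩
  · intro k b a ha
    rw [hr]
    exact (r k).2 b a ha
  · intro b a ha ha0 a' ha'
    obtain ⟨φ, hφ, h⟩ := htr b a ha ha0 a' ha'
    refine ⟨r.symm ⟨φ, hφ⟩, ?_⟩
    rw [hr, Equiv.apply_symm_apply]
    exact h

end Spread

variable {G X : Type*} [Group G] [MulAction G X] [Finite G] [Finite X]

namespace Dat

open Submodule

section coords

variable {D : Dat G X} {H : Set X} {hH : D.IsHyp H} {K : Type*} [Field K] [Module K (D.MA hH)]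

theorem exists_pt (hH : D.IsHyp H) {o x : X} (ho : o ∉ H) (hx : x ∉ H) :
    ∃ a : D.MA hH, val a • o = x := by
  obtain ⟨b, hb, a, ha, h⟩ := D.A_trans hH ho hx
  exact ⟨toMA hH a (D.T_le_A hb ha), h⟩

theorem pt_inj {o : X} (ho : o ∉ H) {a a' : D.MA hH} (h : val a • o = val a' • o) : a = a' := by
  have h1 : val (-a' + a) • o = o := by
    rw [val_add, val_neg, mul_smul, h, inv_smul_smul]
  have h2 := D.A_free hH (val_mem _) ho h1
  rw [val_eq_one] at h2
  exact (neg_add_eq_zero.1 h2).symm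

theorem pt_notMem {o : X} (ho : o ∉ H) (a : D.MA hH) : val a • o ∉ H := D.A_notMem (val_mem a) ho

/-- coordinate functions exist -/
theorem exists_co (hH : D.IsHyp H) [Module K (D.MA hH)] {o : X} (ho : o ∉ H) :
    ∃ v : X → D.MA hH × K, (∀ x (hx : x ∈ H), ∃ u ∈ TA hH ⟨x, hx⟩, u ≠ 0 ∧ v x = (u, 0)) ∧
      ∀ a : D.MA hH, v (val a • o) = (a, 1) := by
  classical
  have h1 : ∀ x, x ∈ H → ∃ u : D.MA hH, val u ∈ D.T x H ∧ u ≠ 0 := by
    intro x hx
    obtain ⟨a, ha, ha1⟩ := D.T_nt hH hx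
    exact ⟨toMA hH a (D.T_le_A hx ha), ha, fun h => ha1 (congrArg val h)⟩
  have h2 : ∀ x, x ∉ H → ∃ a : D.MA hH, val a • o = x := fun x hx => exists_pt hH ho hx
  choose! f hf1 hf2 using h1
  choose! g hg using h2
  refine ⟨fun x => if x ∈ H then (f x, 0) else (g x, 1), fun x hx => ?_, fun a => ?_⟩
  · refine ⟨f x, hf1 x hx, hf2 x hx, ?_⟩
    simp [hx]
  · have h3 := pt_notMem ho a
    have h4 := hg _ h3
    have h5 := pt_inj ho h4
    simp [h3, h5]

variable {o : X} (ho : o ∉ H)
  (st : ∀ (k : K) (b : H) (a : D.MA hH), a ∈ TA hH b → k • a ∈ TA hH b)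
  (tr : ∀ (b : H) (a : D.MA hH), a ∈ TA hH b → a ≠ 0 → ∀ a' ∈ TA hH b, ∃ k : K, k • a = a')
  {v : X → D.MA hH × K}
  (hv1 : ∀ x (hx : x ∈ H), ∃ u ∈ TA hH ⟨x, hx⟩, u ≠ 0 ∧ v x = (u, 0))
  (hv2 : ∀ a : D.MA hH, v (val a • o) = (a, 1))

include ho st tr hv1 hv2

/-- collinear points have dependent coordinates -/
theorem span_of_mem {x y z : X} (hxy : x ≠ y) (hz : z ∈ D.L x y) : v z ∈ span K {v x, v y} := by
  -- mixed case
  have mixed : ∀ {x y z : X}, x ∈ H → y ∉ H → z ∈ D.L x y → v z ∈ span K {v x, v y} := by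
    intro x y z hx hy hz
    have hxy : x ≠ y := fun h => hy (h ▸ hx)
    by_cases hzx : z = x
    · rw [hzx]; exact subset_span (by simp)
    obtain ⟨τ, hτ, hτz⟩ := D.T_trans hH hx hy hz hzx
    obtain ⟨u, hu, hu0, hvx⟩ := hv1 x hx
    obtain ⟨a, ha⟩ := exists_pt hH ho hy
    obtain ⟨k, hk⟩ := tr ⟨x, hx⟩ u hu hu0 (toMA hH τ (D.T_le_A hx hτ)) hτ
    have h1 : z = val (k • u + a) • o := by
      rw [val_add, mul_smul, ha, hk, val_toMA, hτz]
    rw [mem_span_pair]
    refine ⟨k, 1, ?_⟩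
    rw [h1, hv2, ← ha, hv2, hvx]
    simp
  by_cases hx : x ∈ H
  · by_cases hy : y ∈ H
    · have hzH := D.hyp_closed hH hx hy hxy hz
      by_cases hzy : z = y
      · rw [hzy]; exact subset_span (by simp)
      obtain ⟨α, hα, β, hβ, h1, h2⟩ := col_of_mem (hH := hH) (c := ⟨x, hx⟩) (d := ⟨y, hy⟩)
        (e := ⟨z, hzH⟩) hxy hzy hz
      obtain ⟨u, hu, hu0, hvx⟩ := hv1 x hx
      obtain ⟨u', hu', hu0', hvy⟩ := hv1 y hy
      obtain ⟨u'', hu'', hu0'', hvz⟩ := hv1 z hzH
      obtain ⟨k, hk⟩ := tr _ u hu hu0 α hα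
      obtain ⟨k', hk'⟩ := tr _ u' hu' hu0' β hβ
      obtain ⟨k'', hk''⟩ := tr _ (α + β) h1 h2 u'' hu''
      rw [mem_span_pair]
      refine ⟨k'' * k, k'' * k', ?_⟩
      rw [hvx, hvy, hvz, ← hk'', ← hk, ← hk']
      simp [mul_smul]
    · exact mixed hx hy hz
  · by_cases hy : y ∈ H
    · rw [Set.pair_comm]
      exact mixed hy hx (by rw [D.L_symm (Ne.symm hxy)]; exact hz)
    · obtain ⟨e, he, τ, hτ, hτy⟩ := D.A_trans hH hx hy
      obtain ⟨a, ha⟩ := exists_pt hH ho hx
      have hye : y ≠ e := fun h => hy (h ▸ he)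
      have hxe : x ≠ e := fun h => hx (h ▸ he)
      have hyL : y ∈ D.L e x := by rw [← hτy]; exact D.N_line (D.mem_T.1 hτ).1
      have hL : D.L x y = D.L e x :=
        D.L_eq (Ne.symm hxe) (D.right_mem _ _) hyL hxy
      set t : D.MA hH := toMA hH τ (D.T_le_A he hτ) with ht
      have hvx : v x = (a, 1) := by rw [← ha, hv2]
      have hvy : v y = (t + a, 1) := by
        rw [← hτy, ← ha, ← mul_smul]
        have : τ * val a = val (t + a) := rfl
        rw [this, hv2]
      have ht0 : t ≠ 0 := by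
        intro h
        apply hxy
        have : τ = 1 := congrArg val h
        rw [← hτy, this, one_smul]
      rw [hL] at hz
      rw [mem_span_pair]
      by_cases hze : z = e
      · obtain ⟨u, hu, hu0, hvz⟩ := hv1 e he
        obtain ⟨k, hk⟩ := tr ⟨e, he⟩ t hτ ht0 u hu
        refine ⟨-k, k, ?_⟩
        rw [hvx, hvy, hze, hvz, ← hk]
        simp
      · obtain ⟨σ, hσ, hσz⟩ := D.T_trans hH he hx hz hze
        obtain ⟨k, hk⟩ := tr ⟨e, he⟩ t hτ ht0 (toMA hH σ (D.T_le_A he hσ)) hσ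
        have hvz : v z = (k • t + a, 1) := by
          rw [← hσz, ← ha, ← mul_smul]
          have : σ * val a = val (k • t + a) := by rw [hk]; rfl
          rw [this, hv2]
        refine ⟨1 - k, k, ?_⟩
        rw [hvx, hvy, hvz]
        refine Prod.ext ?_ ?_
        · change (1 - k) • a + k • (t + a) = k • t + a
          rw [sub_smul, one_smul, smul_add]
          abel
        · simp

theorem mem_of_span {x y z : X} (hxy : x ≠ y) (hz : v z ∈ span K {v x, v y}) :
    z ∈ D.L x y := by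
  have mixed : ∀ {x y z : X}, x ∈ H → y ∉ H → v z ∈ span K {v x, v y} → z ∈ D.L x y := by
    intro x y z hx hy hz
    have hxy : x ≠ y := fun h => hy (h ▸ hx)
    obtain ⟨u, hu, hu0, hvx⟩ := hv1 x hx
    obtain ⟨a, ha⟩ := exists_pt hH ho hy
    have hvy : v y = (a, 1) := by rw [← ha, hv2]
    rw [mem_span_pair] at hz
    obtain ⟨p, q, hpq⟩ := hz
    rw [hvx, hvy] at hpq
    by_cases hzH : z ∈ H
    · obtain ⟨u', hu', hu0', hvz⟩ := hv1 z hzH
      rw [hvz] at hpq
      have h2 : q = 0 := by simpa using congrArg Prod.snd hpq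
      have h1 : p • u = u' := by
        have := congrArg Prod.fst hpq
        simpa [h2] using this
      have h3 := st p ⟨x, hx⟩ u hu
      rw [h1] at h3
      have h4 := D.T_disj (mem_TA.1 h3) (mem_TA.1 hu') (val_ne hu0')
      change x = z at h4
      rw [← h4]; exact D.left_mem _ _
    · obtain ⟨a', ha'⟩ := exists_pt hH ho hzH
      have hvz : v z = (a', 1) := by rw [← ha', hv2]
      rw [hvz] at hpq
      have h2 : q = 1 := by simpa using congrArg Prod.snd hpq
      have h1 : p • u + a = a' := by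
        have := congrArg Prod.fst hpq
        simpa [h2] using this
      have h3 := st p ⟨x, hx⟩ u hu
      rw [← ha', ← h1, val_add, mul_smul, ha]
      exact D.N_line (D.mem_T.1 (mem_TA.1 h3)).1
  by_cases hx : x ∈ H
  · by_cases hy : y ∈ H
    · obtain ⟨u, hu, hu0, hvx⟩ := hv1 x hx
      obtain ⟨u', hu', hu0', hvy⟩ := hv1 y hy
      rw [mem_span_pair] at hz
      obtain ⟨p, q, hpq⟩ := hz
      rw [hvx, hvy] at hpq
      have hzH : z ∈ H := by
        by_contra hzH
        obtain ⟨a', ha'⟩ := exists_pt hH ho hzH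
        rw [← ha', hv2] at hpq
        have := congrArg Prod.snd hpq
        simp at this
      obtain ⟨u'', hu'', hu0'', hvz⟩ := hv1 z hzH
      rw [hvz] at hpq
      have h1 : p • u + q • u' = u'' := by
        have := congrArg Prod.fst hpq
        simpa using this
      have h3 := st p ⟨x, hx⟩ u hu
      have h4 := st q ⟨y, hy⟩ u' hu'
      by_cases hp : p • u = 0
      · rw [hp, zero_add] at h1
        rw [h1] at h4
        have h5 := D.T_disj (mem_TA.1 h4) (mem_TA.1 hu'') (val_ne hu0'')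
        change y = z at h5
        rw [← h5]; exact D.right_mem _ _
      by_cases hq : q • u' = 0
      · rw [hq, add_zero] at h1
        rw [h1] at h3
        have h5 := D.T_disj (mem_TA.1 h3) (mem_TA.1 hu'') (val_ne hu0'')
        change x = z at h5
        rw [← h5]; exact D.left_mem _ _
      refine D.col_of_mul hH hx hy hzH hxy (mem_TA.1 h3) (mem_TA.1 h4) (val_ne hp) (val_ne hq) ?_
      rw [← val_add, h1]
      exact mem_TA.1 hu''
    · exact mixed hx hy hz
  · by_cases hy : y ∈ H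
    · rw [D.L_symm hxy]
      rw [Set.pair_comm] at hz
      exact mixed hy hx hz
    · obtain ⟨e, he, τ, hτ, hτy⟩ := D.A_trans hH hx hy
      obtain ⟨a, ha⟩ := exists_pt hH ho hx
      have hye : y ≠ e := fun h => hy (h ▸ he)
      have hxe : x ≠ e := fun h => hx (h ▸ he)
      have hyL : y ∈ D.L e x := by rw [← hτy]; exact D.N_line (D.mem_T.1 hτ).1
      have hL : D.L x y = D.L e x :=
        D.L_eq (Ne.symm hxe) (D.right_mem _ _) hyL hxy
      set t : D.MA hH := toMA hH τ (D.T_le_A he hτ) with ht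
      have hvx : v x = (a, 1) := by rw [← ha, hv2]
      have hvy : v y = (t + a, 1) := by
        rw [← hτy, ← ha, ← mul_smul]
        have : τ * val a = val (t + a) := rfl
        rw [this, hv2]
      rw [mem_span_pair] at hz
      obtain ⟨p, q, hpq⟩ := hz
      rw [hvx, hvy] at hpq
      rw [hL]
      by_cases hzH : z ∈ H
      · obtain ⟨u', hu', hu0', hvz⟩ := hv1 z hzH
        rw [hvz] at hpq
        have h2 : p + q = 0 := by simpa using congrArg Prod.snd hpq
        have h1 : q • t = u' := by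
          have h3 := congrArg Prod.fst hpq
          simp only [Prod.smul_mk, Prod.mk_add_mk] at h3
          have h4 : p = -q := eq_neg_of_add_eq_zero_left h2
          rw [h4, neg_smul, smul_add] at h3
          rw [← h3]; abel
        have h3 := st q ⟨e, he⟩ t hτ
        rw [h1] at h3
        have h4 := D.T_disj (mem_TA.1 h3) (mem_TA.1 hu') (val_ne hu0')
        change e = z at h4
        rw [← h4]; exact D.left_mem _ _
      · obtain ⟨a', ha'⟩ := exists_pt hH ho hzH
        have hvz : v z = (a', 1) := by rw [← ha', hv2]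
        rw [hvz] at hpq
        have h2 : p + q = 1 := by simpa using congrArg Prod.snd hpq
        have h1 : q • t + a = a' := by
          have h3 := congrArg Prod.fst hpq
          simp only [Prod.smul_mk, Prod.mk_add_mk] at h3
          have h4 : p = 1 - q := eq_sub_of_add_eq h2
          rw [h4, sub_smul, one_smul, smul_add] at h3
          rw [← h3]; abel
        have h3 := st q ⟨e, he⟩ t hτ
        rw [← ha', ← h1, val_add, mul_smul, ha]
        exact D.N_line (D.mem_T.1 (mem_TA.1 h3)).1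

theorem co_ne (x : X) : v x ≠ 0 := by
  by_cases hx : x ∈ H
  · obtain ⟨u, hu, hu0, hvx⟩ := hv1 x hx
    rw [hvx]
    intro h
    exact hu0 (congrArg Prod.fst h)
  · obtain ⟨a, ha⟩ := exists_pt hH ho hx
    rw [← ha, hv2]
    intro h
    exact one_ne_zero (congrArg Prod.snd h)

theorem co_surj (w : D.MA hH × K) (hw : w ≠ 0) : ∃ x, ∃ c : K, w = c • v x := by
  obtain ⟨m, k⟩ := w
  by_cases hk : k = 0
  · subst hk
    have hm : m ≠ 0 := by
      rintro rfl
      exact hw rfl
    obtain ⟨b, hb, hmb⟩ := D.A_cover hH (val_mem m)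
    obtain ⟨u, hu, hu0, hvb⟩ := hv1 b hb
    obtain ⟨c, hc⟩ := tr ⟨b, hb⟩ u hu hu0 m hmb
    refine ⟨b, c, ?_⟩
    rw [hvb, ← hc]
    simp
  · refine ⟨val (k⁻¹ • m) • o, k, ?_⟩
    rw [hv2]
    ext
    · simp [smul_smul, hk]
    · simp

theorem co_inj (x y : X) (h : ∃ c : K, v x = c • v y) : x = y := by
  obtain ⟨c, h⟩ := h
  by_cases hx : x ∈ H
  · obtain ⟨u, hu, hu0, hvx⟩ := hv1 x hx
    by_cases hy : y ∈ H
    · obtain ⟨u', hu', hu0', hvy⟩ := hv1 y hy
      rw [hvx, hvy] at h
      have h1 : u = c • u' := congrArg Prod.fst h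
      have h2 := st c ⟨y, hy⟩ u' hu'
      rw [← h1] at h2
      exact D.T_disj (mem_TA.1 hu) (mem_TA.1 h2) (val_ne hu0)
    · obtain ⟨a, ha⟩ := exists_pt hH ho hy
      rw [hvx, ← ha, hv2] at h
      have h1 : (0 : K) = c • 1 := congrArg Prod.snd h
      have h2 : u = c • a := congrArg Prod.fst h
      have h3 : c = 0 := by simpa using h1.symm
      rw [h3, zero_smul] at h2
      exact absurd h2 hu0
  · obtain ⟨a, ha⟩ := exists_pt hH ho hx
    by_cases hy : y ∈ H
    · obtain ⟨u', hu', hu0', hvy⟩ := hv1 y hy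
      rw [← ha, hv2, hvy] at h
      have h1 : (1 : K) = c • 0 := congrArg Prod.snd h
      simp at h1
    · obtain ⟨a', ha'⟩ := exists_pt hH ho hy
      rw [← ha, hv2, ← ha', hv2] at h
      have h1 : (1 : K) = c • 1 := congrArg Prod.snd h
      have h2 : a = c • a' := congrArg Prod.fst h
      have h3 : c = 1 := by simpa using h1.symm
      rw [h3, one_smul] at h2
      rw [← ha, ← ha', h2]

omit ho hv2 in
theorem two_le_finrank [Module.Finite K (D.MA hH)] : 2 ≤ Module.finrank K (D.MA hH) := by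
  obtain ⟨⟨o', -⟩, -⟩ := hH.1, hH.2
  obtain ⟨c, hc, -⟩ := D.two_points hH o'
  obtain ⟨d, hd, hcd⟩ := D.two_points hH c
  obtain ⟨u, hu, hu0, -⟩ := hv1 c hc
  obtain ⟨u', hu', hu0', -⟩ := hv1 d hd
  have hli : LinearIndependent K ![u, u'] := by
    rw [LinearIndependent.pair_iff' hu0]
    intro a ha
    have h1 := st a ⟨c, hc⟩ u hu
    rw [ha] at h1
    exact hcd (D.T_disj (mem_TA.1 h1) (mem_TA.1 hu') (val_ne hu0'))
  have := hli.fintype_card_le_finrank
  simpa using this

end coords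

/-- O'Nan's theorem, abstract form -/
theorem main (D : Dat G X) (hX : ∃ x y : X, x ≠ y) :
    ∃ (K : Type) (_ : Field K) (_ : Fintype K) (n : ℕ) (T : Subgroup G), 3 ≤ n ∧ T.Normal ∧
      Subgroup.centralizer (T : Set G) = ⊥ ∧ (∀ x, D.N x ≤ T) ∧
      Nonempty (T ≃* Matrix.ProjectiveSpecialLinearGroup (Fin n) K) ∧
      Nat.card X * (Fintype.card K - 1) = Fintype.card K ^ n - 1 := by
  classical
  obtain ⟨x0, y0, hxy0⟩ := hX
  obtain ⟨n0, hn0, hn01, hn0y⟩ := D.ne x0 y0 hxy0
  obtain ⟨H, hH, -⟩ := D.exists_hyp hn0 hn01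
  obtain ⟨o, ho⟩ := D.exists_notMem_hyp hH
  obtain ⟨c0, hc0, -⟩ := D.two_points hH o
  have : Nonempty H := ⟨⟨c0, hc0⟩⟩
  obtain ⟨K, fK, ftK, mK, st, tr⟩ := (spr hH).exists_field (fun c => scal_tr hH c)
  have st' : ∀ (k : K) (b : H) (a : D.MA hH), a ∈ TA hH b → k • a ∈ TA hH b := st
  have tr' : ∀ (b : H) (a : D.MA hH), a ∈ TA hH b → a ≠ 0 → ∀ a' ∈ TA hH b,
    ∃ k : K, k • a = a' := tr
  obtain ⟨v, hv1, hv2⟩ := exists_co (K := K) hH ho
  have hother : ∀ x : X, ∃ y, x ≠ y := by
    intro x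
    by_cases h : x = x0
    · exact ⟨y0, h ▸ hxy0⟩
    · exact ⟨x0, h⟩
  have hfs : FaithfulSMul G X := by
    refine ⟨fun {g h} hgh => ?_⟩
    have : h⁻¹ * g = 1 := D.faith _ fun x => by rw [mul_smul, hgh x, inv_smul_smul]
    exact (inv_mul_eq_one.1 this).symm
  have hfinM : Module.Finite K (D.MA hH) := Module.Finite.of_finite
  have h3 : 3 ≤ Module.finrank K (D.MA hH × K) := by
    rw [Module.finrank_prod, Module.finrank_self]
    have := two_le_finrank st' tr' hv1
    omega
  have hsp : ∀ {x y z : X}, x ≠ y → z ∈ D.L x y → v z ∈ span K {v x, v y} :=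
    fun hxy hz => span_of_mem ho st' tr' hv1 hv2 hxy hz
  have hme : ∀ {x y z : X}, x ≠ y → v z ∈ span K {v x, v y} → z ∈ D.L x y :=
    fun hxy hz => mem_of_span ho st' tr' hv1 hv2 hxy hz
  have hinj := co_inj ho st' tr' hv1 hv2
  obtain ⟨T, hT1, hT2, hT3, hT4⟩ := H48.Pid.main (G := G) (X := X) (K := K) (V := D.MA hH × K)
    (by
      intro x y
      by_cases h : x = y
      · exact ⟨1, by rw [one_smul, h]⟩
      · obtain ⟨g, hg, -⟩ := D.tt x y y x h (Ne.symm h)
        exact ⟨g, hg⟩)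
    h3 v (co_ne ho st' tr' hv1 hv2) (co_surj ho st' tr' hv1 hv2) hinj
    (by
      intro g x y z hz
      by_cases hxy : x = y
      · subst hxy
        have hz' : v z ∈ span K {v x} := by simpa using hz
        obtain ⟨c, hc⟩ := mem_span_singleton.1 hz'
        have := hinj z x ⟨c, hc.symm⟩
        subst this
        exact subset_span (by simp)
      · exact hsp (fun h => hxy (MulAction.injective g h)) (D.smul_L g (hme hxy hz)))
    D.N D.conj D.fix
    (by
      intro x
      obtain ⟨y, hy⟩ := hother x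
      obtain ⟨n, hn, hn1, -⟩ := D.ne x y hy
      exact ⟨n, hn, hn1⟩)
    (by
      intro x n hn y
      by_cases hxy : x = y
      · subst hxy
        rw [D.fix x n hn]
        exact subset_span (by simp)
      · exact hsp hxy (D.N_line hn))
    (by
      intro x n hn y z hyz
      obtain ⟨u, hu, huL⟩ := D.exists_fix hn hyz
      exact ⟨u, hu, hsp hyz huL⟩)
    (by
      intro x n hn b hb z z' hz hz' hspan
      have hn1 : n ≠ 1 := by
        rintro rfl
        exact hz (one_smul _ _)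
      have hH' := D.isHyp_Fx hn hn1
      have hzH : z ∉ (Fx n : Set X) := hz
      have hbz : b ≠ z := fun h => hz (h ▸ hb)
      obtain ⟨h, hh, hhz⟩ := D.T_trans hH' (show b ∈ (Fx n : Set X) from hb) hzH
        (hme hbz hspan) hz'
      have hh' := D.mem_T.1 hh
      exact ⟨h, hh'.1, hhz, fun y hy => hh'.2 y hy⟩)
  refine ⟨K, fK, ftK, _, T, h3, hT1, hT2, hT3, hT4, ?_⟩
  -- counting the points
  have hq : 1 < Fintype.card K := Fintype.one_lt_card
  have e1 : X × {c : K // c ≠ 0} ≃ {w : D.MA hH × K // w ≠ 0} := by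
    refine Equiv.ofBijective (fun p => ⟨p.2.1 • v p.1, ?_⟩) ⟨?_, ?_⟩
    · intro h
      rcases smul_eq_zero.1 h with h | h
      · exact p.2.2 h
      · exact co_ne ho st' tr' hv1 hv2 _ h
    · rintro ⟨x, c, hc⟩ ⟨y, d, hd⟩ h
      have h1 : c • v x = d • v y := congrArg Subtype.val h
      have h2 : x = y := hinj x y ⟨c⁻¹ * d, by rw [mul_smul, ← h1, smul_smul,
        inv_mul_cancel₀ hc, one_smul]⟩
      subst h2
      have h3 : (c - d) • v x = 0 := by rw [sub_smul, h1, sub_self]
      rcases smul_eq_zero.1 h3 with h4 | h4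
      · have := sub_eq_zero.1 h4
        subst this
        rfl
      · exact absurd h4 (co_ne ho st' tr' hv1 hv2 _)
    · rintro ⟨w, hw⟩
      obtain ⟨x, c, hc⟩ := co_surj ho st' tr' hv1 hv2 w hw
      refine ⟨⟨x, c, ?_⟩, Subtype.ext hc.symm⟩
      rintro rfl
      exact hw (by rw [hc, zero_smul])
  have e2 := Nat.card_congr e1
  have hfV : Finite (D.MA hH × K) := inferInstance
  have ftV := Fintype.ofFinite (D.MA hH × K)
  have e3 : Nat.card {c : K // c ≠ 0} = Fintype.card K - 1 := by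
    rw [Nat.card_eq_fintype_card, Fintype.card_subtype_compl, Fintype.card_subtype_eq]
  have e4 : Nat.card {w : D.MA hH × K // w ≠ 0} = Fintype.card (D.MA hH × K) - 1 := by
    rw [Nat.card_eq_fintype_card, Fintype.card_subtype_compl, Fintype.card_subtype_eq]
  rw [Nat.card_prod, e3, e4] at e2
  rw [e2, Module.card_eq_pow_finrank (K := K) (V := D.MA hH × K)]

end Dat

end H89.ON
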