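import Cfsg.Agent.Lib.H89.ON10
import Cfsg.Agent.Lib.H92.Norm4
import Cfsg.Agent.Lib.H6.SLGen

set_option autoImplicit false
set_option linter.unusedSectionVars false
set_option linter.unusedVariables false

/-! O'Nan, part 11: from a 2-transitive action to the datum; final forms. -/

namespace H89.ON

open Cfsg

variable {G X : Type*} [Group G] [MulAction G X] [Finite G] [Finite X]

/-- conjugates of a normal subgroup of a point stabilizer -/
def NN (x₀ : X) (N : Subgroup G) (y : X) : Subgroup G where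
  carrier := {n | ∀ g : G, g • x₀ = y → g⁻¹ * n * g ∈ N}
  mul_mem' := by
    intro a b ha hb g hg
    have := mul_mem (ha g hg) (hb g hg)
    have e : g⁻¹ * a * g * (g⁻¹ * b * g) = g⁻¹ * (a * b) * g := by group
    rwa [e] at this
  one_mem' := by
    intro g hg
    have e : g⁻¹ * 1 * g = 1 := by group
    rw [e]; exact one_mem _
  inv_mem' := by
    intro a ha g hg
    have := inv_mem (ha g hg)
    have e : (g⁻¹ * a * g)⁻¹ = g⁻¹ * a⁻¹ * g := by group
    rwa [e] at this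

theorem mem_NN {x₀ : X} {N : Subgroup G} {y : X} {n : G} :
    n ∈ NN x₀ N y ↔ ∀ g : G, g • x₀ = y → g⁻¹ * n * g ∈ N := Iff.rfl

theorem mem_NN' {x₀ : X} {N : Subgroup G}
    (hN : ∀ g ∈ MulAction.stabilizer G x₀, ∀ n ∈ N, g * n * g⁻¹ ∈ N) {y : X} {n g : G}
    (hg : g • x₀ = y) (h : g⁻¹ * n * g ∈ N) : n ∈ NN x₀ N y := by
  intro k hk
  have h1 : k⁻¹ * g ∈ MulAction.stabilizer G x₀ := by
    rw [MulAction.mem_stabilizer_iff, mul_smul, hg, ← hk, inv_smul_smul]
  have h2 := hN _ h1 _ h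
  have e : k⁻¹ * g * (g⁻¹ * n * g) * (k⁻¹ * g)⁻¹ = k⁻¹ * n * k := by group
  rwa [e] at h2

theorem exists_dat [FaithfulSMul G X] (h2 : MulAction.IsMultiplyPretransitive G X 2) (x₀ : X)
    (N : Subgroup G) (hNle : N ≤ MulAction.stabilizer G x₀)
    (hN : ∀ g ∈ MulAction.stabilizer G x₀, ∀ n ∈ N, g * n * g⁻¹ ∈ N)
    (hab : ∀ a ∈ N, ∀ b ∈ N, a * b = b * a)
    (hnsr : ∃ n ∈ N, n ≠ 1 ∧ ∃ y : X, y ≠ x₀ ∧ n • y = y) :
    Nonempty (Dat G X) ∧ ∃ x y : X, x ≠ y := by
  have htt : ∀ x y x' y' : X, x ≠ y → x' ≠ y' → ∃ g : G, g • x = x' ∧ g • y = y' := by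
    intro x y x' y' h h'
    rw [MulAction.is_two_pretransitive_iff] at h2
    exact h2 h h'
  obtain ⟨n0, hn0, hn01, y0, hy0, hny0⟩ := hnsr
  have htr : ∀ x : X, ∃ g : G, g • x₀ = x := by
    intro x
    by_cases h : x₀ = x
    · exact ⟨1, by rw [one_smul, h]⟩
    · obtain ⟨g, hg, -⟩ := htt x₀ x x x₀ h (Ne.symm h)
      exact ⟨g, hg⟩
  refine ⟨⟨{ N := NN x₀ N, conj := ?_, fix := ?_, comm := ?_, ne := ?_, faith := ?_, tt := htt }⟩,
    ⟨y0, x₀, hy0⟩⟩
  · intro g x n hn h hh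
    have h1 : (g⁻¹ * h) • x₀ = x := by rw [mul_smul, hh, inv_smul_smul]
    have h2 := hn _ h1
    have e : (g⁻¹ * h)⁻¹ * n * (g⁻¹ * h) = h⁻¹ * (g * n * g⁻¹) * h := by group
    rwa [e] at h2
  · intro x n hn
    obtain ⟨g, rfl⟩ := htr x
    have h1 := hNle (hn g rfl)
    rw [MulAction.mem_stabilizer_iff, mul_smul, mul_smul, inv_smul_eq_iff] at h1
    exact h1
  · intro x a b ha hb
    obtain ⟨g, rfl⟩ := htr x
    have h1 := hab _ (ha g rfl) _ (hb g rfl)
    have e1 : g⁻¹ * a * g * (g⁻¹ * b * g) = g⁻¹ * (a * b) * g := by group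
    have e2 : g⁻¹ * b * g * (g⁻¹ * a * g) = g⁻¹ * (b * a) * g := by group
    rw [e1, e2] at h1
    exact mul_left_cancel (mul_right_cancel h1)
  · intro x y hxy
    obtain ⟨g, hg, hg'⟩ := htt x₀ y0 x y (Ne.symm hy0) hxy
    refine ⟨g * n0 * g⁻¹, mem_NN' hN hg ?_, ?_, ?_⟩
    · have e : g⁻¹ * (g * n0 * g⁻¹) * g = n0 := by group
      rwa [e]
    · intro h; exact hn01 (conj_eq_one_iff.1 h)
    · rw [mul_smul, mul_smul, inv_smul_eq_iff.2 hg'.symm, hny0, hg']
  · intro g hg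
    exact FaithfulSMul.eq_of_smul_eq_smul (α := X) fun x => by rw [hg x, one_smul]

/-- generalized Fitting subgroup from a normal `PSL` with trivial centralizer -/
theorem gfit_psl {G : Type*} [Group G] [Finite G] {K : Type*} [Field K] {n : ℕ} (hn : 3 ≤ n)
    (T : Subgroup G) (hT : T.Normal) (hc : Subgroup.centralizer (T : Set G) = ⊥)
    (e : T ≃* Matrix.ProjectiveSpecialLinearGroup (Fin n) K) :
    generalizedFittingSubgroup G = T := by
  have hs : IsSimpleGroup (Matrix.ProjectiveSpecialLinearGroup (Fin n) K) :=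
    H6.SLGen.psl_isSimpleGroup (by simpa using hn)
  have hs' : IsSimpleGroup T := e.isSimpleGroup_congr.2 hs
  refine H92.Norm4.gfit_of_simple T hs' ?_ ?_
  · by_contra hcon
    push Not at hcon
    have h1 : T ≤ Subgroup.centralizer (T : Set G) := by
      intro a ha
      rw [Subgroup.mem_centralizer_iff]
      intro b hb
      have := hcon ⟨b, hb⟩ ⟨a, ha⟩
      exact congrArg Subtype.val this
    rw [hc] at h1
    have h2 : T = ⊥ := le_bot_iff.1 h1
    subst h2
    exact (not_subsingleton _) (inferInstance : Subsingleton (⊥ : Subgroup G))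
  · intro z hz
    have : z ∈ Subgroup.centralizer (T : Set G) := by
      rw [Subgroup.mem_centralizer_iff]
      intro y hy
      exact ((hz y hy).eq).symm
    rw [hc] at this
    exact Subgroup.mem_bot.1 this

end H89.ON
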