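import Cfsg.Agent.Lib.H89.ON1

set_option autoImplicit false
set_option linter.unusedSectionVars false

/-! O'Nan, part 2: transitivity on lines, hyperplanes, Veblen. -/

namespace H89.ON

open scoped Classical in
theorem card_diff {G : Type*} [Group G] [Fintype G] {A B : Subgroup G} (h : A ≤ B) :
    (Finset.univ.filter (fun g => g ∈ B ∧ g ∉ A)).card = Nat.card B - Nat.card A := by
  have hA : Nat.card A = (Finset.univ.filter (fun g => g ∈ A)).card := by
    rw [Nat.card_eq_fintype_card, Fintype.card_subtype]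
  have hB : Nat.card B = (Finset.univ.filter (fun g => g ∈ B)).card := by
    rw [Nat.card_eq_fintype_card, Fintype.card_subtype]
  rw [hA, hB, ← Finset.card_sdiff_of_subset]
  · congr 1
    ext g
    simp
  · intro g hg
    simp only [Finset.mem_filter, Finset.mem_univ, true_and] at hg ⊢
    exact h hg

variable {G X : Type*} [Group G] [MulAction G X] [Finite G] [Finite X]

namespace Dat

variable (D : Dat G X)

theorem mem_line_of {b x y : X} (hxy : x ≠ y) (hbx : b ≠ x) (hby : y ∈ D.L b x) :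
    b ∈ D.L x y := by
  have h := D.L_eq hbx (D.right_mem b x) hby hxy
  rw [h]
  exact D.left_mem b x

theorem trans_line {x y z : X} (hxy : x ≠ y) (hz : z ∈ D.L x y) (hzx : z ≠ x) :
    ∃ n ∈ D.N x, n • y = z := by
  classical
  by_contra hcon
  push Not at hcon
  obtain ⟨b, hb⟩ := D.exists_notMem hxy
  obtain ⟨hbx, hby⟩ := D.ne_of_notMem hb
  set s := Nat.card (MulAction.orbit (D.N x) y) with hs
  set t := Nat.card (D.W x y) with ht
  have htpos : 0 < t := Nat.card_pos
  let A : Subgroup G := D.W b x ⊓ D.W b y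
  set α := Nat.card A with hα
  -- orders
  have h1 : Nat.card (D.N b) = s * t := by
    rw [D.card_N b x, D.card_orbit x y]
  have h2 : ∀ u ∈ D.L x y, Nat.card (D.W b u) = t := by
    intro u hu
    exact D.card_W (fun h => hb (h ▸ hu)) hxy
  have h3 : ∀ u ∈ D.L x y, A ≤ D.W b u := by
    intro u hu g hg
    have hg1 := D.mem_W.1 hg.1
    have hg2 := D.mem_W.1 hg.2
    exact D.mem_W.2 ⟨hg1.1, D.fix_line hg1.1 hxy hg1.2 hg2.2 hu⟩
  have h3' : ∀ u ∈ D.L x y, ∀ u' ∈ D.L x y, u ≠ u' → ∀ g ∈ D.W b u, g ∈ D.W b u' → g ∈ A := by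
    intro u hu u' hu' huu' g hg hg'
    have hg1 := D.mem_W.1 hg
    have hg2 := D.mem_W.1 hg'
    have hL := D.L_eq hxy hu hu' huu'
    refine ⟨D.mem_W.2 ⟨hg1.1, ?_⟩, D.mem_W.2 ⟨hg1.1, ?_⟩⟩
    · exact D.fix_line hg1.1 huu' hg1.2 hg2.2 (hL ▸ D.left_mem x y)
    · exact D.fix_line hg1.1 huu' hg1.2 hg2.2 (hL ▸ D.right_mem x y)
  have h4 : 2 * α ≤ t := by
    have hle : A ≤ D.W b x := inf_le_left
    have hdvd := Subgroup.card_dvd_of_le hle
    rw [h2 x (D.left_mem x y), ← hα] at hdvd
    have hne : α ≠ t := by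
      intro h
      have h5 : A = D.W b x := Subgroup.eq_of_le_of_card_ge hle
        (by rw [h2 x (D.left_mem x y), ← hα, h])
      have h6 : y ∈ D.L b x := by
        intro g hg
        rw [← h5] at hg
        exact (D.mem_W.1 hg.2).2
      exact hb (D.mem_line_of hxy hbx h6)
    obtain ⟨k, hk⟩ := hdvd
    have hαpos : 0 < α := Nat.card_pos
    have : 2 ≤ k := by
      rcases k with _ | _ | k
      · omega
      · exfalso; apply hne; rw [hk]; ring
      · omega
    calc 2 * α ≤ k * α := Nat.mul_le_mul_right _ this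
      _ = t := by rw [hk]; ring
  -- size of the line
  have h5 : 2 * s + 1 ≤ (D.L x y).ncard := by
    have hsz : Nat.card (MulAction.orbit (D.N x) z) = s := by
      have e1 := D.card_orbit x z
      have e2 := D.card_orbit x y
      rw [D.card_W (Ne.symm hzx) hxy] at e1
      exact Nat.eq_of_mul_eq_mul_right htpos (e1.symm.trans e2)
    have hsub : insert x (MulAction.orbit (D.N x) y ∪ MulAction.orbit (D.N x) z) ⊆ D.L x y := by
      intro w hw
      rcases hw with rfl | ⟨⟨n, hn⟩, rfl⟩ | ⟨⟨n, hn⟩, rfl⟩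
      · exact D.left_mem _ y
      · exact D.N_line hn
      · have := D.N_line (y := z) hn
        rwa [D.L_eq_left hxy hz hzx] at this
    refine le_trans ?_ (Set.ncard_le_ncard hsub)
    have hxn : x ∉ MulAction.orbit (D.N x) y ∪ MulAction.orbit (D.N x) z := by
      rintro (⟨⟨n, hn⟩, h⟩ | ⟨⟨n, hn⟩, h⟩)
      · have h' : n • y = x := h
        have : y = x := by
          rw [← inv_smul_smul n y, h', D.fix x n⁻¹ (inv_mem hn)]
        exact hxy this.symm
      · have h' : n • z = x := h
        have : z = x := by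
          rw [← inv_smul_smul n z, h', D.fix x n⁻¹ (inv_mem hn)]
        exact hzx this
    have hdisj : Disjoint (MulAction.orbit (D.N x) y) (MulAction.orbit (D.N x) z) := by
      rw [Set.disjoint_left]
      rintro w ⟨⟨n, hn⟩, h⟩ ⟨⟨n', hn'⟩, h'⟩
      have e1 : n • y = w := h
      have e2 : n' • z = w := h'
      refine hcon (n'⁻¹ * n) (mul_mem (inv_mem hn') hn) ?_
      rw [mul_smul, e1, ← e2, inv_smul_smul]
    rw [Set.ncard_insert_of_notMem hxn, Set.ncard_union_eq hdisj]
    have e1 : (MulAction.orbit (D.N x) y).ncard = s := rfl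
    have e2 : (MulAction.orbit (D.N x) z).ncard = s := hsz
    rw [e1, e2]
    omega
  -- counting in N b
  have h6 : (D.L x y).ncard * (t - α) ≤ s * t - α := by
    have := Fintype.ofFinite G
    have := Fintype.ofFinite X
    let S : X → Finset G := fun u => Finset.univ.filter (fun g => g ∈ D.W b u ∧ g ∉ A)
    have hcard : ∀ u ∈ (D.L x y).toFinset, (S u).card = t - α := by
      intro u hu
      rw [Set.mem_toFinset] at hu
      rw [card_diff (h3 u hu), h2 u hu]
    have hdisj : ∀ u ∈ (D.L x y).toFinset, ∀ u' ∈ (D.L x y).toFinset, u ≠ u' →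
        Disjoint (S u) (S u') := by
      intro u hu u' hu' huu'
      rw [Set.mem_toFinset] at hu hu'
      rw [Finset.disjoint_left]
      intro g hg hg'
      simp only [S, Finset.mem_filter, Finset.mem_univ, true_and] at hg hg'
      exact hg.2 (h3' u hu u' hu' huu' g hg.1 hg'.1)
    have hsub : (D.L x y).toFinset.biUnion S ⊆
        Finset.univ.filter (fun g => g ∈ D.N b ∧ g ∉ A) := by
      intro g hg
      simp only [Finset.mem_biUnion, S, Finset.mem_filter, Finset.mem_univ, true_and] at hg ⊢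
      obtain ⟨u, hu, hg1, hg2⟩ := hg
      exact ⟨(D.mem_W.1 hg1).1, hg2⟩
    have hle := Finset.card_le_card hsub
    rw [Finset.card_biUnion hdisj, Finset.sum_congr rfl hcard, Finset.sum_const, smul_eq_mul,
      card_diff (A := A) (B := D.N b)
        (fun g (hg : g ∈ D.W b x ⊓ D.W b y) => (D.mem_W.1 hg.1).1), h1,
      ← Set.ncard_eq_toFinset_card'] at hle
    exact hle
  have hspos : 0 < s := by
    by_contra h0
    have : s = 0 := by omega
    have h7 : Nat.card (D.N b) = 0 := by rw [h1, this, zero_mul]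
    exact absurd h7 (Nat.card_pos).ne'
  have hαpos : 0 < α := Nat.card_pos
  obtain ⟨r, hr⟩ : ∃ r, t = α + r := ⟨t - α, by omega⟩
  have h8 : t - α = r := by omega
  rw [h8] at h6
  have h9 : (2 * s + 1) * r ≤ s * t - α := le_trans (Nat.mul_le_mul_right _ h5) h6
  have h10 : α ≤ s * t := by
    calc α ≤ t := by omega
      _ ≤ s * t := Nat.le_mul_of_pos_left _ hspos
  have h11 : (2 * s + 1) * r + α ≤ s * t := by omega
  rw [hr] at h11 h4
  have h12 : α ≤ r := by omega
  nlinarith [Nat.mul_le_mul_left s h12]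

/-- the fixed point set of an element -/
def Fx (g : G) : Set X := {y | g • y = y}

/-- number of points of a line minus one -/
theorem ncard_line_sub {x y : X} (hxy : x ≠ y) :
    Nat.card (D.N x) = Nat.card {w : X // w ∈ D.L x y ∧ w ≠ x} * Nat.card (D.W x y) := by
  rw [D.card_orbit x y]
  congr 1
  refine Nat.card_congr (Equiv.subtypeEquivRight fun w => ?_)
  constructor
  · rintro ⟨⟨n, hn⟩, rfl⟩
    refine ⟨D.N_line hn, fun h => ?_⟩
    have h' : n • y = x := h
    have : y = x := by
      rw [← inv_smul_smul n y, h', D.fix x n⁻¹ (inv_mem hn)]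
    exact hxy this.symm
  · rintro ⟨hw, hwx⟩
    obtain ⟨n, hn, h⟩ := D.trans_line hxy hw hwx
    exact ⟨⟨n, hn⟩, h⟩

/-- the common number `s` -/
theorem card_line_eq {x y x' y' : X} (hxy : x ≠ y) (hxy' : x' ≠ y') :
    Nat.card {w : X // w ∈ D.L x y ∧ w ≠ x} = Nat.card {w : X // w ∈ D.L x' y' ∧ w ≠ x'} := by
  have e1 := D.ncard_line_sub hxy
  have e2 := D.ncard_line_sub hxy'
  rw [D.card_W hxy hxy', D.card_N x x'] at e1
  exact Nat.eq_of_mul_eq_mul_right Nat.card_pos (e1.symm.trans e2)

theorem two_le_line {x y : X} (hxy : x ≠ y) :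
    2 ≤ Nat.card {w : X // w ∈ D.L x y ∧ w ≠ x} := by
  obtain ⟨n, hn, hn1, -⟩ := D.ne x y hxy
  -- n moves some point z
  obtain ⟨z, hz⟩ : ∃ z : X, n • z ≠ z := by
    by_contra hcon; push Not at hcon; exact hn1 (D.faith n hcon)
  have hxz : x ≠ z := fun h => hz (by rw [← h]; exact D.fix x n hn)
  rw [D.card_line_eq hxy hxz]
  have : Nontrivial {w : X // w ∈ D.L x z ∧ w ≠ x} := by
    refine ⟨⟨⟨z, D.right_mem x z, Ne.symm hxz⟩, ⟨n • z, D.N_line hn, fun h => ?_⟩, fun h => ?_⟩⟩
    · have : z = x := by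
        rw [← inv_smul_smul n z, h, D.fix x n⁻¹ (inv_mem hn)]
      exact hxz this.symm
    · exact hz (congrArg Subtype.val h).symm
  exact Finite.one_lt_card

theorem N_ne_point {x y : X} {n : G} (hn : n ∈ D.N x) (hxy : x ≠ y) : n • y ≠ x := by
  intro h
  have : y = x := by
    rw [← inv_smul_smul n y, h, D.fix x n⁻¹ (inv_mem hn)]
  exact hxy this.symm

/-- commutators with an elation: the key estimate -/
theorem comm_fix {b c y : X} {g u : G} (hg : g ∈ D.N c) (hb : g • b = b) (hu : u ∈ D.N b)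
    (hy : g • y = y) : (u * (g * u⁻¹ * g⁻¹)) • y = y := by
  by_cases hby : b = y
  · rw [← hby]
    have h1 : g * u⁻¹ * g⁻¹ ∈ D.N b := by
      have := D.conj g b u⁻¹ (inv_mem hu); rwa [hb] at this
    exact D.fix b _ (mul_mem hu h1)
  · have h1 : g⁻¹ • y = y := by rw [inv_smul_eq_iff, hy]
    have h2 : u⁻¹ • y ∈ D.L b y := D.N_line (inv_mem hu)
    have h3 : g • u⁻¹ • y = u⁻¹ • y := D.fix_line hg hby hb hy h2
    rw [mul_smul, mul_smul, mul_smul, h1, h3, smul_inv_smul]

/-- any element of `N b` fixes a point on a line meeting its image -/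
theorem fix_of_meet {b y z w : X} {g : G} (hg : g ∈ D.N b) (hyz : y ≠ z) (hb : b ∉ D.L y z)
    (hw : w ∈ D.L y z) (hw' : w ∈ D.L (g • y) (g • z)) : g • w = w := by
  have h1 : g⁻¹ • w ∈ D.L y z := by
    have := D.smul_L g⁻¹ hw'
    simpa using this
  have hbw : b ≠ w := fun h => hb (h ▸ hw)
  have h2 : g⁻¹ • w ∈ D.L b w := D.N_line (inv_mem hg)
  by_contra hne
  have hne' : w ≠ g⁻¹ • w := fun h => hne (by nth_rw 1 [h]; rw [smul_inv_smul])
  have h3 := D.L_eq hbw (D.right_mem b w) h2 hne'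
  have h4 := D.L_eq hyz hw h1 hne'
  apply hb
  rw [← h4, h3]
  exact D.left_mem b w

end Dat

end H89.ON
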