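import Cfsg.Agent.Lib.H89.ON2

set_option autoImplicit false
set_option linter.unusedSectionVars false

/-! O'Nan, part 3: hyperplanes. -/

namespace H89.ON

variable {G X : Type*} [Group G] [MulAction G X] [Finite G] [Finite X]

namespace Dat

variable (D : Dat G X)

/-- `H` is an inclusion-maximal fixed point set of a nontrivial elation -/
def IsHyp (H : Set X) : Prop :=
  (∃ b, ∃ g ∈ D.N b, g ≠ 1 ∧ Fx g = H) ∧
    ∀ c, ∀ h ∈ D.N c, h ≠ 1 → H ⊆ Fx h → Fx h = H

/-- elations with centre `b` and axis containing `H` -/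
def T (b : X) (H : Set X) : Subgroup G := D.N b ⊓ fixingSubgroup G H

theorem mem_T {b : X} {H : Set X} {g : G} : g ∈ D.T b H ↔ g ∈ D.N b ∧ ∀ y ∈ H, g • y = y := by
  simp [T, Subgroup.mem_inf, mem_fixingSubgroup_iff]

theorem center_mem_Fx {b : X} {g : G} (hg : g ∈ D.N b) : b ∈ (Fx g : Set X) := D.fix b g hg

/-- elements of `Fx g` are closed under lines -/
theorem Fx_closed {b x y w : X} {g : G} (hg : g ∈ D.N b) (hx : x ∈ (Fx g : Set X))
    (hy : y ∈ (Fx g : Set X)) (hxy : x ≠ y) (hw : w ∈ D.L x y) : w ∈ (Fx g : Set X) :=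
  D.fix_line hg hxy hx hy hw

theorem hyp_closed {H : Set X} (hH : D.IsHyp H) {x y w : X} (hx : x ∈ H) (hy : y ∈ H)
    (hxy : x ≠ y) (hw : w ∈ D.L x y) : w ∈ H := by
  obtain ⟨⟨b, g, hg, hg1, rfl⟩, -⟩ := hH
  exact D.Fx_closed hg hx hy hxy hw

theorem exists_notMem_hyp {H : Set X} (hH : D.IsHyp H) : ∃ z, z ∉ H := by
  obtain ⟨⟨b, g, hg, hg1, rfl⟩, -⟩ := hH
  by_contra hcon
  push Not at hcon
  exact hg1 (D.faith g hcon)

theorem exists_ne (b : X) {g : G} (hg : g ∈ D.N b) (hg1 : g ≠ 1) : ∃ y : X, b ≠ y := by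
  by_contra hcon
  push Not at hcon
  exact hg1 (D.faith g fun x => by rw [← hcon x]; exact D.fix b g hg)

/-- a hyperplane has a second point, and is the axis of an elation with another centre than `b` -/
theorem two_points {H : Set X} (hH : D.IsHyp H) (b : X) : ∃ c ∈ H, b ≠ c := by
  obtain ⟨⟨c, g, hg, hg1, rfl⟩, hmax⟩ := hH
  by_cases hbc : b = c
  · subst hbc
    by_contra hcon
    push Not at hcon
    obtain ⟨y, hy⟩ := D.exists_ne b hg hg1
    obtain ⟨n, hn, hn1, hny⟩ := D.ne b y hy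
    have h1 : (Fx g : Set X) ⊆ Fx n := by
      intro z hz
      rw [← hcon z hz]
      exact D.fix b n hn
    have h2 := hmax b n hn hn1 h1
    have h3 : y ∈ (Fx n : Set X) := hny
    rw [h2] at h3
    exact hy (hcon y h3)
  · exact ⟨c, D.center_mem_Fx hg, hbc⟩

/-- lower bound for the order of `T b H` -/
theorem card_T_ge {b c : X} {g : G} (hg : g ∈ D.N c) (hg1 : g ≠ 1) (hbc : b ≠ c)
    (hb : g • b = b) : Nat.card {w : X // w ∈ D.L b c ∧ w ≠ b} ≤ Nat.card (D.T b (Fx g)) := by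
  have hgb : ∀ u ∈ D.N b, g * u * g⁻¹ ∈ D.N b := by
    intro u hu
    have := D.conj g b u hu; rwa [hb] at this
  let f : D.N b →* G :=
    { toFun := fun u => u * (g * (u : G)⁻¹ * g⁻¹)
      map_one' := by simp
      map_mul' := by
        intro u v
        have e1 : g * (u : G)⁻¹ * g⁻¹ ∈ D.N b := hgb _ (inv_mem u.2)
        have e2 : (v : G) * (g * (v : G)⁻¹ * g⁻¹) ∈ D.N b :=
          mul_mem v.2 (hgb _ (inv_mem v.2))
        have e3 := D.comm b _ _ e1 e2
        have e4 := D.comm b _ _ (hgb _ (inv_mem u.2)) (hgb _ (inv_mem v.2))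
        calc ((u * v : D.N b) : G) * (g * ((u * v : D.N b) : G)⁻¹ * g⁻¹)
            = u * v * ((g * (v : G)⁻¹ * g⁻¹) * (g * (u : G)⁻¹ * g⁻¹)) := by
              simp only [Subgroup.coe_mul, mul_inv_rev]; group
          _ = u * ((v * (g * (v : G)⁻¹ * g⁻¹)) * (g * (u : G)⁻¹ * g⁻¹)) := by group
          _ = u * ((g * (u : G)⁻¹ * g⁻¹) * (v * (g * (v : G)⁻¹ * g⁻¹))) := by rw [e3]
          _ = _ := by group }
  have hker : f.ker.map (D.N b).subtype = D.W b c := by
    ext u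
    simp only [Subgroup.mem_map, MonoidHom.mem_ker, Subgroup.coe_subtype]
    constructor
    · rintro ⟨⟨u, hu⟩, hf, rfl⟩
      have h1 : u * (g * u⁻¹ * g⁻¹) = 1 := hf
      have h2 : u * g = g * u := by
        have : u * (g * u⁻¹ * g⁻¹) * (g * u) = g * u := by rw [h1, one_mul]
        rw [← this]; group
      exact D.mem_W.2 ⟨hu, D.cent hg hg1 h2⟩
    · intro hu
      refine ⟨⟨u, (D.mem_W.1 hu).1⟩, ?_, rfl⟩
      have h2 := D.W_comm hbc hu (D.mem_W.2 ⟨hg, hb⟩)
      change u * (g * u⁻¹ * g⁻¹) = 1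
      have h3 : g * u⁻¹ = u⁻¹ * g := by
        have : u * (g * u⁻¹) = u * (u⁻¹ * g) := by
          rw [← mul_assoc, h2]; group
        exact mul_left_cancel this
      rw [h3]; group
  have hrange : f.range ≤ D.T b (Fx g) := by
    rintro _ ⟨u, rfl⟩
    rw [mem_T]
    refine ⟨mul_mem u.2 (hgb _ (inv_mem u.2)), fun y hy => ?_⟩
    exact D.comm_fix hg hb u.2 hy
  have hcard : Nat.card (D.N b) = Nat.card f.range * Nat.card (D.W b c) := by
    rw [← hker, Subgroup.card_map_of_injective (D.N b).subtype_injective, mul_comm]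
    have := Subgroup.card_mul_index f.ker
    rw [Subgroup.index_ker] at this
    exact this.symm
  rw [D.ncard_line_sub hbc] at hcard
  have h5 := Nat.eq_of_mul_eq_mul_right Nat.card_pos hcard
  rw [h5]
  exact Nat.card_le_card_of_injective (Subgroup.inclusion hrange)
    (Subgroup.inclusion_injective hrange)

theorem T_Fx {H : Set X} (hH : D.IsHyp H) {b : X} {g : G} (hg : g ∈ D.T b H) (hg1 : g ≠ 1) :
    Fx g = H := hH.2 b g (D.mem_T.1 hg).1 hg1 (fun y hy => (D.mem_T.1 hg).2 y hy)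

/-- every hyperplane is the axis of a nontrivial elation with centre different from `b` -/
theorem exists_gen {H : Set X} (hH : D.IsHyp H) (b : X) (hb : b ∈ H) :
    ∃ c, b ≠ c ∧ ∃ g ∈ D.N c, g ≠ 1 ∧ Fx g = H := by
  obtain ⟨c, g, hg, hg1, hgH⟩ := hH.1
  by_cases hbc : b = c
  · subst hbc
    obtain ⟨d, hd, hbd⟩ := D.two_points hH b
    have h1 := D.card_T_ge (b := d) (c := b) hg hg1 (Ne.symm hbd) (by
      have : d ∈ (Fx g : Set X) := by rw [hgH]; exact hd
      exact this)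
    have h2 := D.two_le_line (Ne.symm hbd)
    rw [hgH] at h1
    have : Nontrivial (D.T d H) := by
      rw [← Finite.one_lt_card_iff_nontrivial]
      exact lt_of_lt_of_le h2 h1
    obtain ⟨⟨h, hh⟩, hne⟩ := _root_.exists_ne (1 : D.T d H)
    have hne' : h ≠ 1 := fun h' => hne (Subtype.ext h')
    exact ⟨d, hbd, h, (D.mem_T.1 hh).1, hne', D.T_Fx hH hh hne'⟩
  · exact ⟨c, hbc, g, hg, hg1, hgH⟩

/-- Claim A: `T b H` is transitive on the points different from `b` of a line through `b`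
not contained in `H` -/
theorem T_trans {H : Set X} (hH : D.IsHyp H) {b z z' : X} (hb : b ∈ H) (hz : z ∉ H)
    (hz' : z' ∈ D.L b z) (hzb : z' ≠ b) : ∃ g ∈ D.T b H, g • z = z' := by
  have hbz : b ≠ z := fun h => hz (h ▸ hb)
  obtain ⟨c, hbc, g, hg, hg1, hgH⟩ := D.exists_gen hH b hb
  have h1 := D.card_T_ge hg hg1 hbc (by
    have : b ∈ (Fx g : Set X) := by rw [hgH]; exact hb
    exact this)
  rw [hgH, D.card_line_eq hbc hbz] at h1
  let f : D.T b H → {w : X // w ∈ D.L b z ∧ w ≠ b} := fun h =>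
    ⟨(h : G) • z, D.N_line (D.mem_T.1 h.2).1, D.N_ne_point (D.mem_T.1 h.2).1 hbz⟩
  have hf : Function.Injective f := by
    intro h k hk
    have e1 : (h : G) • z = (k : G) • z := congrArg Subtype.val hk
    by_contra hne
    have h2 : (k : G)⁻¹ * h ≠ 1 := fun h' => hne (Subtype.ext (inv_mul_eq_one.1 h').symm)
    have h3 : (k : G)⁻¹ * h ∈ D.T b H := mul_mem (inv_mem k.2) h.2
    have h4 := D.T_Fx hH h3 h2
    apply hz
    rw [← h4]
    change ((k : G)⁻¹ * h) • z = z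
    rw [mul_smul, e1, inv_smul_smul]
  have hle := Nat.card_le_card_of_injective f hf
  have hbij : Function.Bijective f :=
    (Nat.bijective_iff_injective_and_card f).2 ⟨hf, le_antisymm hle h1⟩
  obtain ⟨h, hh⟩ := hbij.2 ⟨z', hz', hzb⟩
  exact ⟨h, h.2, congrArg Subtype.val hh⟩

/-- every fixed point set is contained in a hyperplane -/
theorem exists_hyp {b : X} {g : G} (hg : g ∈ D.N b) (hg1 : g ≠ 1) :
    ∃ H, D.IsHyp H ∧ (Fx g : Set X) ⊆ H := by
  obtain ⟨H, hle, hmax⟩ := Finite.exists_le_maximal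
    (p := fun H : Set X => ∃ b, ∃ g ∈ D.N b, g ≠ 1 ∧ Fx g = H) ⟨b, g, hg, hg1, rfl⟩
  refine ⟨H, ⟨hmax.1, fun c h hh hh1 hsub => ?_⟩, hle⟩
  exact Set.Subset.antisymm (hmax.2 ⟨c, h, hh, hh1, rfl⟩ hsub) hsub

/-- Claim C -/
theorem exists_hyp_sep {b y a : X} (hby : b ≠ y) (ha : a ∉ D.L b y) :
    ∃ H, D.IsHyp H ∧ b ∈ H ∧ y ∈ H ∧ a ∉ H := by
  by_contra hcon
  push Not at hcon
  apply ha
  have key : ∀ n : ℕ, ∀ g ∈ D.W b y, ((Fx g : Set X)ᶜ).ncard ≤ n → g • a = a := by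
    intro n
    induction n with
    | zero =>
      intro g hg hn
      have : (Fx g : Set X)ᶜ = ∅ := by
        rw [← Set.ncard_eq_zero]; omega
      have h2 : a ∈ (Fx g : Set X) := by
        rw [Set.compl_empty_iff] at this; rw [this]; trivial
      exact h2
    | succ n ih =>
      intro g hg hn
      by_cases hg1 : g = 1
      · rw [hg1, one_smul]
      have hgW := D.mem_W.1 hg
      obtain ⟨H, hH, hsub⟩ := D.exists_hyp hgW.1 hg1
      have hbH : b ∈ H := hsub (D.center_mem_Fx hgW.1)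
      have hyH : y ∈ H := hsub hgW.2
      have haH := hcon H hH hbH hyH
      obtain ⟨z, hz⟩ := D.exists_notMem_hyp hH
      have hbz : b ≠ z := fun h => hz (h ▸ hbH)
      obtain ⟨τ, hτ, hτz⟩ := D.T_trans hH hbH hz (D.N_line hgW.1) (D.N_ne_point hgW.1 hbz)
      have hτ' := D.mem_T.1 hτ
      have h1 : τ⁻¹ * g ∈ D.W b y := by
        refine D.mem_W.2 ⟨mul_mem (inv_mem hτ'.1) hgW.1, ?_⟩
        rw [mul_smul, hgW.2, inv_smul_eq_iff, hτ'.2 y hyH]
      have h2 : (Fx (τ⁻¹ * g) : Set X)ᶜ ⊂ (Fx g : Set X)ᶜ := by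
        refine compl_lt_compl_iff_lt.2 ?_
        refine ⟨fun w hw => ?_, fun hsub' => ?_⟩
        · change (τ⁻¹ * g) • w = w
          have hw' : g • w = w := hw
          rw [mul_smul, hw', inv_smul_eq_iff, hτ'.2 w (hsub hw)]
        · have : z ∈ (Fx g : Set X) := hsub' (by
            change (τ⁻¹ * g) • z = z
            rw [mul_smul, ← hτz, inv_smul_smul])
          exact hz (hsub this)
      have h3 := Set.ncard_lt_ncard h2
      have h4 := ih _ h1 (by omega)
      calc g • a = τ • (τ⁻¹ * g) • a := by rw [mul_smul, smul_inv_smul]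
        _ = a := by rw [h4, hτ'.2 a haH]
  intro g hg
  exact key _ g hg le_rfl

/-- `W b x` is transitive on the other lines through `b` -/
theorem W_trans {b x a a' : X} (hbx : b ≠ x) (ha : a ∉ D.L b x) (ha' : a' ∈ D.L b a)
    (hab : a' ≠ b) : ∃ u ∈ D.W b x, u • a = a' := by
  obtain ⟨H, hH, hb, hx, haH⟩ := D.exists_hyp_sep hbx ha
  obtain ⟨u, hu, hua⟩ := D.T_trans hH hb haH ha' hab
  exact ⟨u, D.mem_W.2 ⟨(D.mem_T.1 hu).1, (D.mem_T.1 hu).2 x hx⟩, hua⟩

/-- Veblen: the cevians `b c` and `x a'` of the triangle `b x a` meet -/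
theorem veblen {b x a a' c : X} (hbx : b ≠ x) (ha : a ∉ D.L b x) (ha' : a' ∈ D.L b a)
    (hab : a' ≠ b) (hc : c ∈ D.L x a) : ∃ w, w ∈ D.L b c ∧ w ∈ D.L x a' := by
  obtain ⟨u, hu, hua⟩ := D.W_trans hbx ha ha' hab
  have hu' := D.mem_W.1 hu
  refine ⟨u • c, D.N_line hu'.1, ?_⟩
  have := D.smul_L u hc
  rwa [hu'.2, hua] at this

/-- every element of `N b` fixes a point on every line -/
theorem exists_fix {b y z : X} {g : G} (hg : g ∈ D.N b) (hyz : y ≠ z) :
    ∃ w, g • w = w ∧ w ∈ D.L y z := by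
  by_cases hb : b ∈ D.L y z
  · exact ⟨b, D.fix b g hg, hb⟩
  by_cases hy : g • y = y
  · exact ⟨y, hy, D.left_mem y z⟩
  by_cases hz : g • z = z
  · exact ⟨z, hz, D.right_mem y z⟩
  obtain ⟨hby, hbz⟩ := D.ne_of_notMem hb
  have hyz' : g • y ≠ g • z := fun h => hyz (MulAction.injective g h)
  -- triangle y, g z, b
  have h1 : g • z ∈ D.L b z := D.N_line hg
  have h2 : g • y ∈ D.L b y := D.N_line hg
  have hbgz : b ≠ g • z := fun h => D.N_ne_point hg hbz h.symm
  have hbgy : b ≠ g • y := fun h => D.N_ne_point hg hby h.symm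
  have hLz : D.L b (g • z) = D.L b z := D.L_eq hbz (D.left_mem b z) h1 hbgz
  have hygz : y ≠ g • z := by
    intro h
    apply hb
    have e1 : y ∈ D.L b z := h ▸ h1
    have := D.L_eq hbz e1 (D.right_mem b z) hyz
    rw [this]; exact D.left_mem b z
  have hbn : b ∉ D.L y (g • z) := by
    intro h
    apply hb
    -- then y lies on the line b z
    have e1 := D.L_eq hygz h (D.right_mem y (g • z)) hbgz
    have e2 : y ∈ D.L b z := by rw [← hLz, e1]; exact D.left_mem y _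
    have := D.L_eq hbz e2 (D.right_mem b z) hyz
    rw [this]; exact D.left_mem b z
  have h3 : g • y ∈ D.L y b := by rw [D.L_symm (Ne.symm hby)]; exact h2
  have h4 : z ∈ D.L (g • z) b := by
    rw [D.L_symm (Ne.symm hbgz), hLz]; exact D.right_mem b z
  obtain ⟨w, hw1, hw2⟩ := D.veblen hygz hbn h3 hy h4
  refine ⟨w, D.fix_of_meet hg hyz hb hw1 ?_, hw1⟩
  rw [D.L_symm hyz']; exact hw2

/-- all nontrivial elations have hyperplanes as axes -/
theorem isHyp_Fx {b : X} {g : G} (hg : g ∈ D.N b) (hg1 : g ≠ 1) : D.IsHyp (Fx g) := by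
  refine ⟨⟨b, g, hg, hg1, rfl⟩, fun c h hh hh1 hsub => ?_⟩
  refine Set.Subset.antisymm (fun z hz => ?_) hsub
  by_contra hzg
  obtain ⟨w, hw⟩ : ∃ w, w ∉ (Fx h : Set X) := by
    by_contra hcon
    push Not at hcon
    exact hh1 (D.faith h hcon)
  have hzw : z ≠ w := fun h' => hw (h' ▸ hz)
  obtain ⟨u, hu, huL⟩ := D.exists_fix hg hzw
  have hu' : u ∈ (Fx h : Set X) := hsub hu
  have huz : u ≠ z := fun h' => hzg (h' ▸ hu)
  apply hw
  refine D.Fx_closed hh hu' hz huz ?_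
  rw [D.L_eq hzw huL (D.left_mem z w) huz]
  exact D.right_mem z w

theorem hyp_meet {H : Set X} (hH : D.IsHyp H) {y z : X} (hyz : y ≠ z) :
    ∃ w ∈ H, w ∈ D.L y z := by
  obtain ⟨⟨b, g, hg, hg1, rfl⟩, -⟩ := hH
  obtain ⟨w, hw, hwL⟩ := D.exists_fix hg hyz
  exact ⟨w, hw, hwL⟩

theorem smul_hyp {H : Set X} (hH : D.IsHyp H) (k : G) :
    D.IsHyp {w | k⁻¹ • w ∈ H} := by
  obtain ⟨⟨b, g, hg, hg1, rfl⟩, -⟩ := hH
  have h1 := D.isHyp_Fx (D.conj k b g hg) (by
    intro h; exact hg1 (conj_eq_one_iff.1 h))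
  have h2 : (Fx (k * g * k⁻¹) : Set X) = {w | k⁻¹ • w ∈ (Fx g : Set X)} := by
    ext w
    change (k * g * k⁻¹) • w = w ↔ g • k⁻¹ • w = k⁻¹ • w
    rw [mul_smul, mul_smul]
    constructor
    · intro h
      rw [eq_inv_smul_iff]; exact h
    · intro h
      rw [h, smul_inv_smul]
  rwa [h2] at h1

end Dat

end H89.ON
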