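import Mathlib

set_option autoImplicit false
set_option linter.unusedSectionVars false
set_option linter.unusedVariables false

/-! O'Nan, part 4: spreads with transvection groups and their kernel. -/

namespace H89.ON

/-- three distinct members of a family of subgroups are linearly dependent -/
def Col {M ι : Type*} [AddCommGroup M] (T : ι → AddSubgroup M) (c d e : ι) : Prop :=
  ∃ x ∈ T c, ∃ y ∈ T d, x + y ∈ T e ∧ x + y ≠ 0

structure Spread (M ι : Type*) [AddCommGroup M] where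
  T : ι → AddSubgroup M
  cover : ∀ a : M, ∃ b, a ∈ T b
  disj : ∀ b c a, a ∈ T b → a ∈ T c → a ≠ 0 → b = c
  nt : ∀ b, ∃ a ∈ T b, a ≠ 0
  two : ∀ b : ι, ∃ d, d ≠ b
  Γ : ι → AddSubgroup (M →+ M)
  im : ∀ c γ, γ ∈ Γ c → ∀ a, γ a ∈ T c
  ker : ∀ c γ, γ ∈ Γ c → ∀ a ∈ T c, γ a = 0
  tr : ∀ c d a a', c ≠ d → a ∈ T d → a ≠ 0 → a' ∈ T c → ∃ γ ∈ Γ c, γ a = a'
  perm : ∀ c γ, γ ∈ Γ c → ∀ d, ∃ e, ∀ a ∈ T d, a + γ a ∈ T e
  semi : ∀ c γ, γ ∈ Γ c → ∀ d a, a ∈ T d → a ≠ 0 → γ a = 0 → ∀ a' ∈ T d, γ a' = 0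
  ind : ∀ c' c d, c' ≠ c → c' ≠ d → c ≠ d → ¬ Col T c' c d → ∀ γ ∈ Γ c,
    ∃ γ' ∈ Γ c, (∀ a ∈ T d, γ' a = γ a) ∧ ∀ a ∈ T c', γ' a = 0
  comp : ∀ c' c, c' ≠ c → ∀ κ ∈ Γ c', ∀ γ ∈ Γ c, (∀ a ∈ T c', γ a = 0) → κ.comp γ ∈ Γ c'

namespace Spread

variable {M ι : Type*} [AddCommGroup M] [Finite M] (S : Spread M ι)

theorem inj {c d : ι} {γ : M →+ M} (hγ : γ ∈ S.Γ c) {a0 : M} (ha0 : a0 ∈ S.T d)
    (h0 : γ a0 ≠ 0) {a a' : M} (ha : a ∈ S.T d) (ha' : a' ∈ S.T d) (h : γ a = γ a') : a = a' := by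
  by_contra hne
  exact h0 (S.semi c γ hγ d (a - a') (sub_mem ha ha') (sub_ne_zero.2 hne)
    (by rw [map_sub, h, sub_self]) a0 ha0)

theorem exists_nz {c d : ι} (hcd : c ≠ d) {a : M} (ha : a ∈ S.T d) (ha0 : a ≠ 0) :
    ∃ γ ∈ S.Γ c, γ a ≠ 0 := by
  obtain ⟨a', ha', h0⟩ := S.nt c
  obtain ⟨γ, hγ, h⟩ := S.tr c d a a' hcd ha ha0 ha'
  exact ⟨γ, hγ, by rw [h]; exact h0⟩

theorem card_le {c d : ι} (hcd : c ≠ d) : Nat.card (S.T d) ≤ Nat.card (S.T c) := by
  obtain ⟨a, ha, ha0⟩ := S.nt d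
  obtain ⟨γ, hγ, h0⟩ := S.exists_nz hcd ha ha0
  refine Nat.card_le_card_of_injective (fun x : S.T d => (⟨γ x, S.im c γ hγ x⟩ : S.T c)) ?_
  intro x y hxy
  exact Subtype.ext (S.inj hγ ha h0 x.2 y.2 (congrArg Subtype.val hxy))

theorem card_eq (c d : ι) : Nat.card (S.T d) = Nat.card (S.T c) := by
  by_cases hcd : c = d
  · rw [hcd]
  · exact le_antisymm (S.card_le hcd) (S.card_le (Ne.symm hcd))

theorem surj {c d : ι} {γ : M →+ M} (hγ : γ ∈ S.Γ c) {a0 : M} (ha0 : a0 ∈ S.T d)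
    (h0 : γ a0 ≠ 0) {a' : M} (ha' : a' ∈ S.T c) : ∃ a ∈ S.T d, γ a = a' := by
  let f : S.T d → S.T c := fun x => ⟨γ x, S.im c γ hγ x⟩
  have hf : Function.Injective f := fun x y hxy =>
    Subtype.ext (S.inj hγ ha0 h0 x.2 y.2 (congrArg Subtype.val hxy))
  have hb : Function.Bijective f :=
    (Nat.bijective_iff_injective_and_card f).2 ⟨hf, S.card_eq c d⟩
  obtain ⟨a, ha⟩ := hb.2 ⟨a', ha'⟩
  exact ⟨a, a.2, congrArg Subtype.val ha⟩

theorem add_ne {c d : ι} (hcd : c ≠ d) {x y : M} (hx : x ∈ S.T c) (hy : y ∈ S.T d)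
    (hx0 : x ≠ 0) : x + y ≠ 0 := by
  intro h
  apply hcd
  refine S.disj c d x hx ?_ hx0
  rw [eq_neg_of_add_eq_zero_left h]
  exact neg_mem hy

/-- inverses -/
theorem exists_inv {c d : ι} (hcd : c ≠ d) {γ : M →+ M} (hγ : γ ∈ S.Γ c) {a0 : M}
    (ha0 : a0 ∈ S.T d) (h0 : γ a0 ≠ 0) :
    ∃ δ ∈ S.Γ d, (∀ a ∈ S.T d, δ (γ a) = a) ∧ ∀ a' ∈ S.T c, γ (δ a') = a' := by
  have ha00 : a0 ≠ 0 := fun h => h0 (by rw [h, map_zero])
  obtain ⟨δ, hδ, hδ0⟩ := S.tr d c (γ a0) a0 (Ne.symm hcd) (S.im c γ hγ a0) h0 ha0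
  obtain ⟨e, he⟩ := S.perm c γ hγ d
  obtain ⟨e', he'⟩ := S.perm d δ hδ c
  have h1 : a0 + γ a0 ≠ 0 := S.add_ne (Ne.symm hcd) ha0 (S.im c γ hγ a0) ha00
  have h2 : a0 + γ a0 ∈ S.T e' := by
    have := he' (γ a0) (S.im c γ hγ a0)
    rwa [hδ0, add_comm] at this
  have hee : e = e' := S.disj e e' _ (he a0 ha0) h2 h1
  subst hee
  have hed : e ≠ d := by
    intro h
    subst h
    have h3 : γ a0 ∈ S.T e := by
      have := sub_mem (he a0 ha0) ha0
      rwa [add_sub_cancel_left] at this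
    exact hcd (S.disj c e _ (S.im c γ hγ a0) h3 h0)
  have key : ∀ a ∈ S.T d, δ (γ a) = a := by
    intro a ha
    have h3 := he a ha
    have h4 := he' (γ a) (S.im c γ hγ a)
    have h5 : a - δ (γ a) ∈ S.T e := by
      have := sub_mem h3 h4
      have e1 : a + γ a - (γ a + δ (γ a)) = a - δ (γ a) := by abel
      rwa [e1] at this
    have h6 : a - δ (γ a) ∈ S.T d := sub_mem ha (S.im d δ hδ _)
    by_contra hne
    exact hed (S.disj e d _ h5 h6 (sub_ne_zero.2 (Ne.symm hne)))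
  refine ⟨δ, hδ, key, fun a' ha' => ?_⟩
  obtain ⟨a, ha, rfl⟩ := S.surj hγ ha0 h0 ha'
  rw [key a ha]

/-- the kernel ring -/
def Scal : Subring (AddMonoid.End M) where
  carrier := {φ | ∀ b, ∀ a ∈ S.T b, φ a ∈ S.T b}
  mul_mem' := fun {φ ψ} hφ hψ b a ha => hφ b _ (hψ b a ha)
  one_mem' := fun _ _ ha => ha
  add_mem' := fun {φ ψ} hφ hψ b a ha => add_mem (hφ b a ha) (hψ b a ha)
  zero_mem' := fun _ _ _ => zero_mem _
  neg_mem' := fun {φ} hφ b a ha => neg_mem (hφ b a ha)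

theorem mem_Scal {φ : AddMonoid.End M} : φ ∈ S.Scal ↔ ∀ b, ∀ a ∈ S.T b, φ a ∈ S.T b := Iff.rfl

/-- a scalar killing a nonzero element is zero -/
theorem Scal_zero {φ : AddMonoid.End M} (hφ : φ ∈ S.Scal) {a : M} (ha : a ≠ 0)
    (h : φ a = 0) : φ = 0 := by
  obtain ⟨b, hb⟩ := S.cover a
  -- kills T c for c ≠ b
  have key : ∀ (b : ι) (a : M), a ∈ S.T b → a ≠ 0 → φ a = 0 → ∀ c, c ≠ b → ∀ x ∈ S.T c,
      φ x = 0 := by
    intro b a hb ha h c hcb x hx
    by_contra hx0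
    have hx' : x ≠ 0 := fun h' => hx0 (by rw [h', map_zero])
    obtain ⟨d, hd⟩ := S.cover (x + a)
    have h1 : φ (x + a) = φ x := by rw [map_add, h, add_zero]
    have h2 : φ x ∈ S.T d := by rw [← h1]; exact hφ d _ hd
    have h3 : d = c := S.disj d c _ h2 (hφ c x hx) hx0
    subst h3
    have h4 : a ∈ S.T d := by
      have := sub_mem hd hx
      rwa [add_sub_cancel_left] at this
    exact hcb (S.disj d b a h4 hb ha)
  ext x
  change φ x = 0
  by_cases hx0 : x = 0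
  · rw [hx0, map_zero]
  obtain ⟨c, hc⟩ := S.cover x
  by_cases hcb : c = b
  · subst hcb
    obtain ⟨d, hd⟩ := S.two c
    obtain ⟨y, hy, hy0⟩ := S.nt d
    have h1 := key c a hb ha h d hd y hy
    exact key d y hy hy0 h1 c (Ne.symm hd) x hc
  · exact key b a hb ha h c hcb x hc

/-- compatible families of local scalars extend to a global scalar -/
theorem exists_ext (θ : ι → M → M) (hmem : ∀ b, ∀ a ∈ S.T b, θ b a ∈ S.T b)
    (hadd : ∀ b, ∀ a ∈ S.T b, ∀ a' ∈ S.T b, θ b (a + a') = θ b a + θ b a')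
    (hcompat : ∀ b c, b ≠ c → ∀ γ ∈ S.Γ b, ∀ a ∈ S.T c, θ b (γ a) = γ (θ c a)) :
    ∃ φ ∈ S.Scal, ∀ b, ∀ a ∈ S.T b, φ a = θ b a := by
  classical
  have hzero : ∀ b, θ b 0 = 0 := by
    intro b
    have := hadd b 0 (zero_mem _) 0 (zero_mem _)
    rw [add_zero] at this
    exact left_eq_add.1 this
  have hneg : ∀ b, ∀ a ∈ S.T b, θ b (-a) = -θ b a := by
    intro b a ha
    have := hadd b a ha (-a) (neg_mem ha)
    rw [add_neg_cancel, hzero] at this
    exact (neg_eq_of_add_eq_zero_right this.symm).symm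
  let f : M → M := fun a => θ (S.cover a).choose a
  have hf : ∀ b, ∀ a ∈ S.T b, f a = θ b a := by
    intro b a ha
    by_cases h0 : a = 0
    · subst h0
      change θ _ 0 = θ b 0
      rw [hzero, hzero]
    · have := S.disj _ b a (S.cover a).choose_spec ha h0
      change θ _ a = θ b a
      rw [this]
  have hfadd : ∀ a a', f (a + a') = f a + f a' := by
    intro a a'
    obtain ⟨b, hb⟩ := S.cover a
    obtain ⟨c, hc⟩ := S.cover a'
    by_cases ha : a = 0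
    · rw [ha, zero_add, hf b 0 (zero_mem _), hzero, zero_add]
    by_cases ha' : a' = 0
    · rw [ha', add_zero, hf b 0 (zero_mem _), hzero, add_zero]
    by_cases hbc : b = c
    · subst hbc
      rw [hf b _ hb, hf b _ hc, hf b _ (add_mem hb hc), hadd b a hb a' hc]
    obtain ⟨γ, hγ, hγa⟩ := S.tr c b a a' (Ne.symm hbc) hb ha hc
    obtain ⟨e, he⟩ := S.perm c γ hγ b
    have h1 : a + a' ∈ S.T e := by have := he a hb; rwa [hγa] at this
    have heb : e ≠ b := by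
      intro h
      rw [h] at h1
      have h2 : a' ∈ S.T b := by
        have := sub_mem h1 hb; rwa [add_sub_cancel_left] at this
      exact hbc (S.disj b c a' h2 hc ha')
    have hec : e ≠ c := by
      intro h
      rw [h] at h1
      have h2 : a ∈ S.T c := by
        have := sub_mem h1 hc; rwa [add_sub_cancel_right] at this
      exact hbc (S.disj b c a hb h2 ha)
    obtain ⟨δ, hδ, hδa⟩ := S.tr e b a (-(a + a')) heb hb ha (neg_mem h1)
    obtain ⟨e'', he''⟩ := S.perm e δ hδ b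
    have h3 : -a' ∈ S.T e'' := by
      have := he'' a hb
      rw [hδa] at this
      have e1 : a + -(a + a') = -a' := by abel
      rwa [e1] at this
    have h4 : e'' = c := S.disj e'' c (-a') h3 (neg_mem hc) (neg_ne_zero.2 ha')
    subst h4
    have key : ∀ x ∈ S.T b, x + γ x = - δ x := by
      intro x hx
      have i1 : x + γ x + δ x ∈ S.T e := add_mem (he x hx) (S.im e δ hδ x)
      have i2 : x + γ x + δ x ∈ S.T e'' := by
        have := add_mem (he'' x hx) (S.im e'' γ hγ x)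
        have e1 : x + δ x + γ x = x + γ x + δ x := by abel
        rwa [e1] at this
      by_contra hne
      apply hec
      refine S.disj e e'' _ i1 i2 fun h => hne ?_
      exact eq_neg_of_add_eq_zero_left h
    rw [hf e _ h1, hf b a hb, hf e'' a' hc]
    rw [← hγa, key a hb, hneg e _ (S.im e δ hδ a), hcompat e b heb δ hδ a hb,
      ← key _ (hmem b a hb), ← hcompat e'' b (Ne.symm hbc) γ hγ a hb]
  refine ⟨AddMonoidHom.mk' f hfadd, ?_, fun b a ha => hf b a ha⟩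
  intro b a ha
  change f a ∈ S.T b
  rw [hf b a ha]
  exact hmem b a ha

end Spread

end H89.ON
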