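import Cfsg.Agent.Lib.H89.ON4

set_option autoImplicit false
set_option linter.unusedSectionVars false
set_option linter.unusedVariables false

/-! O'Nan, part 5: the kernel of a spread with transvection groups is large. -/

namespace H89.ON

/-- a finite ring of endomorphisms acting without zeros is a domain -/
theorem isDomain_of {A : Type*} [AddCommGroup A] [Nontrivial A] (R : Subring (AddMonoid.End A))
    (h : ∀ θ ∈ R, ∀ x : A, x ≠ 0 → θ x = 0 → θ = 0) : IsDomain R := by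
  have hnt : Nontrivial R := by
    refine ⟨⟨0, 1, fun h01 => ?_⟩⟩
    obtain ⟨x, hx⟩ := exists_ne (0 : A)
    have h1 : (0 : AddMonoid.End A) = 1 := congrArg Subtype.val h01
    have h2 := DFunLike.congr_fun h1 x
    exact hx h2.symm
  have hnz : NoZeroDivisors R := by
    refine ⟨fun {a b} hab => ?_⟩
    by_contra hcon
    push Not at hcon
    obtain ⟨ha, hb⟩ := hcon
    have hab' : (a : AddMonoid.End A) * b = 0 := congrArg Subtype.val hab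
    obtain ⟨x, hx⟩ : ∃ x, (b : AddMonoid.End A) x ≠ 0 := by
      by_contra hx
      push Not at hx
      exact hb (Subtype.ext (by ext x; exact hx x))
    have h1 : (a : AddMonoid.End A) ((b : AddMonoid.End A) x) = 0 := by
      have := DFunLike.congr_fun hab' x
      exact this
    exact ha (Subtype.ext (h a a.2 _ hx h1))
  exact NoZeroDivisors.to_isDomain R

theorem comm_of {A : Type*} [AddCommGroup A] [Nontrivial A] [Finite A]
    (R : Subring (AddMonoid.End A))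
    (h : ∀ θ ∈ R, ∀ x : A, x ≠ 0 → θ x = 0 → θ = 0) (θ θ' : AddMonoid.End A) (hθ : θ ∈ R)
    (hθ' : θ' ∈ R) (x : A) : θ (θ' x) = θ' (θ x) := by
  have := isDomain_of R h
  have hfin : Finite (AddMonoid.End A) := by
    refine Finite.of_injective (fun φ : AddMonoid.End A => (φ : A → A)) ?_
    intro φ ψ hφ
    exact DFunLike.coe_injective hφ
  have := Finite.isDomain_to_isField R
  have h1 := this.mul_comm ⟨θ, hθ⟩ ⟨θ', hθ'⟩
  have h2 : θ * θ' = θ' * θ := congrArg Subtype.val h1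
  exact DFunLike.congr_fun h2 x

namespace Spread

variable {M ι : Type*} [AddCommGroup M] [Finite M] (S : Spread M ι)

/-- the line case -/
theorem scal_of_comm {c d : ι} (hcd : c ≠ d)
    (hM : ∀ a : M, ∃ x ∈ S.T c, ∃ y ∈ S.T d, a = x + y)
    (hcomm : ∀ β ∈ S.Γ d, ∀ γ ∈ S.Γ c, ∀ γ' ∈ S.Γ c, ∀ a ∈ S.T c,
      γ (β (γ' (β a))) = γ' (β (γ (β a)))) :
    ∀ a ∈ S.T c, a ≠ 0 → ∀ a' ∈ S.T c, ∃ φ ∈ S.Scal, φ a = a' := by
  classical
  intro a ha ha0 a' ha'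
  obtain ⟨u, hu, hu0⟩ := S.nt d
  obtain ⟨α, hα, hαu⟩ := S.exists_nz hcd hu hu0
  obtain ⟨β, hβ, hβα, hαβ⟩ := S.exists_inv hcd hα hu hαu
  have hβa : β a ≠ 0 := fun h => ha0 (by rw [← hαβ a ha, h, map_zero])
  obtain ⟨ξ, hξ, hξa⟩ := S.tr c d (β a) a' hcd (S.im d β hβ a) hβa ha'
  -- decomposition
  choose px hpx py hpy hp using hM
  have huniq : ∀ x ∈ S.T c, ∀ y ∈ S.T d, ∀ x' ∈ S.T c, ∀ y' ∈ S.T d, x + y = x' + y' →
      x = x' ∧ y = y' := by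
    intro x hx y hy x' hx' y' hy' h
    have h1 : x - x' = y' - y := by
      rw [sub_eq_sub_iff_add_eq_add, h, add_comm]
    have h2 : x - x' ∈ S.T c := sub_mem hx hx'
    have h3 : x - x' ∈ S.T d := by rw [h1]; exact sub_mem hy' hy
    have h4 : x - x' = 0 := by
      by_contra hne
      exact hcd (S.disj c d _ h2 h3 hne)
    have h5 : x = x' := sub_eq_zero.1 h4
    refine ⟨h5, ?_⟩
    rw [h5] at h
    exact add_left_cancel h
  let f : M → M := fun m => ξ (β (px m)) + β (ξ (β (α (py m))))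
  have hf : ∀ x ∈ S.T c, ∀ y ∈ S.T d, f (x + y) = ξ (β x) + β (ξ (β (α y))) := by
    intro x hx y hy
    obtain ⟨h1, h2⟩ := huniq _ (hpx (x + y)) _ (hpy (x + y)) x hx y hy (hp (x + y)).symm
    simp only [f, h1, h2]
  have hfadd : ∀ m m', f (m + m') = f m + f m' := by
    intro m m'
    have e : m + m' = (px m + px m') + (py m + py m') := by
      nth_rw 1 [hp m, hp m']; abel
    rw [e, hf _ (add_mem (hpx m) (hpx m')) _ (add_mem (hpy m) (hpy m'))]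
    simp only [f, map_add]
    abel
  refine ⟨AddMonoidHom.mk' f hfadd, ?_, ?_⟩
  · intro b m hm
    change f m ∈ S.T b
    by_cases hbc : b = c
    · subst hbc
      have := hf m hm 0 (zero_mem _)
      rw [add_zero] at this
      rw [this]
      simp only [map_zero, add_zero]
      exact S.im b ξ hξ _
    by_cases hbd : b = d
    · subst hbd
      have := hf 0 (zero_mem _) m hm
      rw [zero_add] at this
      rw [this]
      simp only [map_zero, zero_add]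
      exact S.im b β hβ _
    by_cases hm0 : m = 0
    · have := hf 0 (zero_mem _) 0 (zero_mem _)
      rw [zero_add] at this
      rw [hm0, this]
      simp only [map_zero, zero_add]
      exact zero_mem _
    have hy0 : py m ≠ 0 := by
      intro h
      have : m = px m := by nth_rw 1 [hp m]; rw [h, add_zero]
      exact hbc (S.disj b c m hm (by rw [this]; exact hpx m) hm0)
    obtain ⟨γ, hγ, hγy⟩ := S.tr c d (py m) (px m) hcd (hpy m) hy0 (hpx m)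
    obtain ⟨e, he⟩ := S.perm c γ hγ d
    have h1 : m ∈ S.T e := by
      have := he (py m) (hpy m)
      rw [hγy, add_comm, ← hp m] at this
      exact this
    have heb : e = b := S.disj e b m h1 hm hm0
    subst heb
    have h2 : f m = ξ (β (px m)) + β (ξ (β (α (py m)))) := rfl
    have h3 := hcomm β hβ γ hγ ξ hξ (α (py m)) (S.im c α hα _)
    rw [hβα (py m) (hpy m), hγy] at h3
    rw [h2, ← h3, hβα (py m) (hpy m), add_comm]
    exact he _ (S.im d β hβ _)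
  · change f a = a'
    have := hf a ha 0 (zero_mem _)
    rw [add_zero] at this
    rw [this, hξa]
    simp

/-! ### the noncollinear case -/

theorem col_swap {c d e : ι} (h : Col S.T c d e) : Col S.T d c e := by
  obtain ⟨x, hx, y, hy, h1, h2⟩ := h
  exact ⟨y, hy, x, hx, by rwa [add_comm], by rwa [add_comm]⟩

theorem col_rot {c d e : ι} (hce : c ≠ e) (h : Col S.T c d e) : Col S.T c e d := by
  obtain ⟨x, hx, y, hy, h1, h2⟩ := h
  refine ⟨-x, neg_mem hx, x + y, h1, ?_, ?_⟩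
  · rwa [neg_add_cancel_left]
  · rw [neg_add_cancel_left]
    intro hy0
    rw [hy0, add_zero] at h1 h2
    exact hce (S.disj c e x hx h1 h2)

theorem col_full {c d e : ι} (hcd : c ≠ d) (hce : c ≠ e) (hde : d ≠ e) (h : Col S.T c d e) :
    ∀ z ∈ S.T e, ∃ x ∈ S.T c, ∃ y ∈ S.T d, z = x + y := by
  obtain ⟨x, hx, y, hy, h1, h2⟩ := h
  have hy0 : y ≠ 0 := by
    intro hy0
    rw [hy0, add_zero] at h1 h2
    exact hce (S.disj c e x hx h1 h2)
  obtain ⟨γ, hγ, hγy⟩ := S.tr c d y x hcd hy hy0 hx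
  obtain ⟨e', he'⟩ := S.perm c γ hγ d
  have h3 : x + y ∈ S.T e' := by have := he' y hy; rwa [hγy, add_comm] at this
  have : e' = e := S.disj e' e _ h3 h1 h2
  subst this
  let f : S.T d → S.T e' := fun u => ⟨u + γ u, he' u u.2⟩
  have hf : Function.Injective f := by
    intro u v huv
    have e1 : (u : M) + γ u = v + γ v := congrArg Subtype.val huv
    have e2 : (u : M) - v = γ (v - u) := by
      rw [map_sub, sub_eq_sub_iff_add_eq_add, e1, add_comm]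
    by_contra hne
    have hne' : (u : M) - v ≠ 0 := sub_ne_zero.2 fun h => hne (Subtype.ext h)
    exact hcd (S.disj c d _ (by rw [e2]; exact S.im c γ hγ _) (sub_mem u.2 v.2) hne')
  have hb : Function.Bijective f :=
    (Nat.bijective_iff_injective_and_card f).2 ⟨hf, S.card_eq _ _⟩
  intro z hz
  obtain ⟨u, hu⟩ := hb.2 ⟨z, hz⟩
  have hu' : (u : M) + γ u = z := congrArg Subtype.val hu
  exact ⟨γ u, S.im c γ hγ _, u, u.2, by rw [← hu', add_comm]⟩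

theorem ncol_trans {c d f e : ι} (hcd : c ≠ d) (hcf : c ≠ f) (hdf : d ≠ f)
    (h : Col S.T c d f) (he : ¬ Col S.T c d e) : ¬ Col S.T c f e := by
  rintro ⟨x, hx, y, hy, h1, h2⟩
  obtain ⟨x', hx', y', hy', rfl⟩ := S.col_full hcd hcf hdf h y hy
  apply he
  refine ⟨x + x', add_mem hx hx', y', hy', ?_, ?_⟩
  · rwa [← add_assoc] at h1
  · rwa [← add_assoc] at h2

/-- local scalars at `c` -/
def KK (c : ι) : Subring (AddMonoid.End (S.T c)) where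
  carrier := {θ | ∀ e, e ≠ c → ∀ γ ∈ S.Γ c, ∃ γ' ∈ S.Γ c, ∀ a ∈ S.T e, ∀ x : S.T c,
    (x : M) = γ a → ((θ x : S.T c) : M) = γ' a}
  mul_mem' := by
    intro φ ψ hφ hψ e he γ hγ
    obtain ⟨γ', hγ', h'⟩ := hψ e he γ hγ
    obtain ⟨γ'', hγ'', h''⟩ := hφ e he γ' hγ'
    exact ⟨γ'', hγ'', fun a ha x hx => h'' a ha (ψ x) (h' a ha x hx)⟩
  one_mem' := fun e he γ hγ => ⟨γ, hγ, fun a ha x hx => hx⟩
  add_mem' := by
    intro φ ψ hφ hψ e he γ hγ
    obtain ⟨γ', hγ', h'⟩ := hψ e he γ hγ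
    obtain ⟨γ'', hγ'', h''⟩ := hφ e he γ hγ
    refine ⟨γ'' + γ', add_mem hγ'' hγ', fun a ha x hx => ?_⟩
    change ((φ x + ψ x : S.T c) : M) = γ'' a + γ' a
    rw [AddSubgroup.coe_add, h' a ha x hx, h'' a ha x hx]
  zero_mem' := fun e he γ hγ => ⟨0, zero_mem _, fun a ha x hx => rfl⟩
  neg_mem' := by
    intro φ hφ e he γ hγ
    obtain ⟨γ', hγ', h'⟩ := hφ e he γ hγ
    refine ⟨-γ', neg_mem hγ', fun a ha x hx => ?_⟩
    change ((-(φ x) : S.T c) : M) = -(γ' a)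
    rw [AddSubgroup.coe_neg, h' a ha x hx]

theorem KK_zero {c : ι} {θ : AddMonoid.End (S.T c)} (hθ : θ ∈ S.KK c) (x : S.T c) (hx : x ≠ 0)
    (h : θ x = 0) : θ = 0 := by
  obtain ⟨e, he⟩ := S.two c
  obtain ⟨a, ha, ha0⟩ := S.nt e
  obtain ⟨γ, hγ, hγa⟩ := S.tr c e a x (Ne.symm he) ha ha0 x.2
  obtain ⟨γ', hγ', h'⟩ := hθ e he γ hγ
  have h1 : γ' a = 0 := by
    rw [← h' a ha x hγa.symm, h]; rfl
  have h2 := S.semi c γ' hγ' e a ha ha0 h1
  have h3 : γ a ≠ 0 := by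
    rw [hγa]; exact fun h => hx (Subtype.ext h)
  ext y
  obtain ⟨b, hb, hby⟩ := S.surj hγ ha h3 y.2
  rw [h' b hb y hby.symm, h2 b hb]
  rfl

theorem KK_comm {c : ι} {θ θ' : AddMonoid.End (S.T c)} (hθ : θ ∈ S.KK c) (hθ' : θ' ∈ S.KK c)
    (x : S.T c) : θ (θ' x) = θ' (θ x) := by
  have : Nontrivial (S.T c) := by
    obtain ⟨a, ha, ha0⟩ := S.nt c
    exact ⟨⟨⟨a, ha⟩, 0, fun h => ha0 (congrArg Subtype.val h)⟩⟩
  exact comm_of (S.KK c) (fun θ hθ x hx h => S.KK_zero hθ x hx h) θ θ' hθ hθ' x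

/-- the composite `α β` as an endomorphism of `T c` -/
def ab {c : ι} {α : M →+ M} (hα : α ∈ S.Γ c) (β : M →+ M) : AddMonoid.End (S.T c) :=
  AddMonoidHom.mk' (fun x => (⟨α (β x), S.im c α hα _⟩ : S.T c)) (fun x y => by
    apply Subtype.ext; simp)

theorem ab_coe {c : ι} {α : M →+ M} (hα : α ∈ S.Γ c) (β : M →+ M) (x : S.T c) :
    ((S.ab hα β x : S.T c) : M) = α (β x) := rfl

/-- composition in general position -/
theorem comp_nc {c d e : ι} (hcd : c ≠ d) (hce : c ≠ e) (hde : d ≠ e) (hn : ¬ Col S.T c d e)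
    {α γ : M →+ M} (hα : α ∈ S.Γ c) (hγ : γ ∈ S.Γ d) :
    ∃ γ' ∈ S.Γ c, ∀ a ∈ S.T e, γ' a = α (γ a) := by
  obtain ⟨γ1, hγ1, h1, h1'⟩ := S.ind c d e hcd hce hde hn γ hγ
  exact ⟨α.comp γ1, S.comp c d hcd α hα γ1 hγ1 h1', fun a ha => by
    rw [AddMonoidHom.comp_apply, h1 a ha]⟩

variable (hnc : ∀ c d, c ≠ d → ∃ e, e ≠ c ∧ e ≠ d ∧ ¬ Col S.T c d e)

include hnc in
theorem ab_mem {c d : ι} (hcd : c ≠ d) {α β : M →+ M} (hα : α ∈ S.Γ c) (hβ : β ∈ S.Γ d) :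
    S.ab hα β ∈ S.KK c := by
  -- general position
  have step1 : ∀ e, e ≠ c → d ≠ e → ¬ Col S.T c d e → ∀ γ ∈ S.Γ c, ∃ γ' ∈ S.Γ c,
      ∀ a ∈ S.T e, γ' a = α (β (γ a)) := by
    intro e hec hde hn γ hγ
    obtain ⟨γ1, hγ1, h1⟩ := S.comp_nc (Ne.symm hcd) hde (Ne.symm hec)
      (fun h => hn (S.col_swap h)) hβ hγ
    obtain ⟨γ2, hγ2, h2⟩ := S.comp_nc hcd (Ne.symm hec) hde hn hα hγ1
    exact ⟨γ2, hγ2, fun a ha => by rw [h2 a ha, h1 a ha]⟩
  intro e hec γ hγ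
  have key : ∃ γ' ∈ S.Γ c, ∀ a ∈ S.T e, γ' a = α (β (γ a)) := by
    by_cases hcase : d ≠ e ∧ ¬ Col S.T c d e
    · exact step1 e hec hcase.1 hcase.2 γ hγ
    obtain ⟨f, hfc, hfd, hf⟩ := hnc c d hcd
    have hfe : f ≠ e := by
      rintro rfl
      exact hcase ⟨Ne.symm hfd, hf⟩
    have hcef : ¬ Col S.T c e f := by
      by_cases hde : d = e
      · rw [← hde]; exact hf
      · have hcol : Col S.T c d e := by
          by_contra hcol; exact hcase ⟨hde, hcol⟩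
        exact S.ncol_trans hcd (Ne.symm hec) hde hcol hf
    obtain ⟨a0, ha0, ha00⟩ := S.nt e
    obtain ⟨ε, hε, hεa⟩ := S.exists_nz hfe ha0 ha00
    obtain ⟨ε', hε', h1, h2⟩ := S.exists_inv hfe hε ha0 hεa
    obtain ⟨γ2, hγ2, h3⟩ := S.comp_nc (Ne.symm hec) (Ne.symm hfc) (Ne.symm hfe) hcef hγ hε'
    obtain ⟨γ3, hγ3, h4⟩ := step1 f hfc (Ne.symm hfd) hf γ2 hγ2
    have hcfe : ¬ Col S.T c f e := fun h => hcef (S.col_rot (Ne.symm hec) h)
    obtain ⟨γ4, hγ4, h5⟩ := S.comp_nc (Ne.symm hfc) (Ne.symm hec) hfe hcfe hγ3 hε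
    refine ⟨γ4, hγ4, fun a ha => ?_⟩
    rw [h5 a ha, h4 _ (S.im f ε hε a), h3 _ (S.im f ε hε a), h1 a ha]
  obtain ⟨γ', hγ', h'⟩ := key
  exact ⟨γ', hγ', fun a ha x hx => by rw [S.ab_coe, hx, h' a ha]⟩

include hnc in
/-- local scalars extend -/
theorem KK_ext {c0 : ι} {θ : AddMonoid.End (S.T c0)} (hθ : θ ∈ S.KK c0) :
    ∃ φ ∈ S.Scal, ∀ x : S.T c0, φ (x : M) = θ x := by
  classical
  let Θ0 : M → M := fun a => if h : a ∈ S.T c0 then ((θ ⟨a, h⟩ : S.T c0) : M) else 0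
  have hΘ0 : ∀ x : S.T c0, Θ0 (x : M) = θ x := by
    intro x
    simp only [Θ0, x.2, dif_pos]
  have hΘmem : ∀ a ∈ S.T c0, Θ0 a ∈ S.T c0 := by
    intro a ha
    have := hΘ0 ⟨a, ha⟩
    rw [this]; exact (θ ⟨a, ha⟩).2
  have hΘadd : ∀ a ∈ S.T c0, ∀ a' ∈ S.T c0, Θ0 (a + a') = Θ0 a + Θ0 a' := by
    intro a ha a' ha'
    have h1 := hΘ0 ⟨a, ha⟩
    have h2 := hΘ0 ⟨a', ha'⟩
    have h3 := hΘ0 (⟨a, ha⟩ + ⟨a', ha'⟩)
    rw [map_add, AddSubgroup.coe_add, AddSubgroup.coe_add, ← h1, ← h2] at h3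
    exact h3
  -- commutation
  have hcomm : ∀ b, c0 ≠ b → ∀ κ ∈ S.Γ b, ∀ δ ∈ S.Γ c0, ∀ a ∈ S.T c0,
      Θ0 (δ (κ a)) = δ (κ (Θ0 a)) := by
    intro b hb κ hκ δ hδ a ha
    have h1 := S.KK_comm hθ (S.ab_mem hnc hb hδ hκ) ⟨a, ha⟩
    have h2 := congrArg Subtype.val h1
    rw [S.ab_coe] at h2
    have h3 := hΘ0 (S.ab hδ κ ⟨a, ha⟩)
    rw [S.ab_coe] at h3
    have h4 := hΘ0 ⟨a, ha⟩
    rw [h2, ← h4] at h3
    exact h3
  -- choices
  have hch : ∀ b, b ≠ c0 → ∃ γ ∈ S.Γ b, ∃ δ ∈ S.Γ c0, (∀ a ∈ S.T c0, δ (γ a) = a) ∧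
      ∀ a' ∈ S.T b, γ (δ a') = a' := by
    intro b hb
    obtain ⟨a0, ha0, ha00⟩ := S.nt c0
    obtain ⟨γ, hγ, hγa⟩ := S.exists_nz hb ha0 ha00
    obtain ⟨δ, hδ, h1, h2⟩ := S.exists_inv hb hγ ha0 hγa
    exact ⟨γ, hγ, δ, hδ, h1, h2⟩
  choose! g hg d' hd' hdg hgd using hch
  let Θ : ι → M → M := fun b a => if b = c0 then Θ0 a else g b (Θ0 (d' b a))
  have hΘ1 : ∀ a, Θ c0 a = Θ0 a := fun a => by simp [Θ]
  have hΘ2 : ∀ b, b ≠ c0 → ∀ a, Θ b a = g b (Θ0 (d' b a)) := fun b hb a => by simp [Θ, hb]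
  have hd'mem : ∀ b, b ≠ c0 → ∀ a, d' b a ∈ S.T c0 := fun b hb a => S.im c0 _ (hd' b hb) a
  -- compatibility with c0
  have c1 : ∀ b, b ≠ c0 → ∀ γ ∈ S.Γ b, ∀ a ∈ S.T c0, Θ b (γ a) = γ (Θ0 a) := by
    intro b hb γ hγ a ha
    rw [hΘ2 b hb, hcomm b (Ne.symm hb) γ hγ (d' b) (hd' b hb) a ha,
      hgd b hb _ (S.im b γ hγ _)]
  have c2 : ∀ b, b ≠ c0 → ∀ γ ∈ S.Γ c0, ∀ a ∈ S.T b, Θ0 (γ a) = γ (Θ b a) := by
    intro b hb γ hγ a ha
    rw [hΘ2 b hb, ← hcomm b (Ne.symm hb) (g b) (hg b hb) γ hγ _ (hd'mem b hb a),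
      hgd b hb a ha]
  -- general position
  have c3 : ∀ b c, b ≠ c → b ≠ c0 → c ≠ c0 → ¬ Col S.T b c c0 → ∀ γ ∈ S.Γ b, ∀ a ∈ S.T c,
      Θ b (γ a) = γ (Θ c a) := by
    intro b c hbc hb hc hn γ hγ a ha
    obtain ⟨γ1, hγ1, h1⟩ := S.comp_nc hbc hb hc hn hγ (hg c hc)
    have hu := hd'mem c hc a
    have h2 : γ a = γ1 (d' c a) := by rw [h1 _ hu, hgd c hc a ha]
    rw [h2, c1 b hb γ1 hγ1 _ hu, h1 _ (hΘmem _ hu), hΘ2 c hc]
  have e1 : ∀ b, ∀ a ∈ S.T b, Θ b a ∈ S.T b := by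
    intro b a ha
    by_cases hb : b = c0
    · subst hb; rw [hΘ1]; exact hΘmem a ha
    · rw [hΘ2 b hb]; exact S.im b _ (hg b hb) _
  have e2 : ∀ b, ∀ a ∈ S.T b, ∀ a' ∈ S.T b, Θ b (a + a') = Θ b a + Θ b a' := by
    intro b a ha a' ha'
    by_cases hb : b = c0
    · subst hb; rw [hΘ1, hΘ1, hΘ1]; exact hΘadd a ha a' ha'
    · rw [hΘ2 b hb, hΘ2 b hb, hΘ2 b hb, map_add, hΘadd _ (hd'mem b hb a) _ (hd'mem b hb a'),
        map_add]
  have e3 : ∀ b c, b ≠ c → ∀ γ ∈ S.Γ b, ∀ a ∈ S.T c, Θ b (γ a) = γ (Θ c a) := by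
    intro b c hbc γ hγ a ha
    by_cases hb : b = c0
    · subst hb; rw [hΘ1]; exact c2 c (Ne.symm hbc) γ hγ a ha
    by_cases hc : c = c0
    · subst hc; rw [hΘ1]; exact c1 b hb γ hγ a ha
    by_cases hn : Col S.T b c c0
    · obtain ⟨e, heb, hec, he⟩ := hnc b c hbc
      have hec0 : e ≠ c0 := by rintro rfl; exact he hn
      have n1 : ¬ Col S.T b c0 e := S.ncol_trans hbc hb hc hn he
      have n2 : ¬ Col S.T c c0 e := S.ncol_trans (Ne.symm hbc) hc hb (S.col_swap hn)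
        (fun h => he (S.col_swap h))
      -- ε : T c → T e
      obtain ⟨a0, ha0, ha00⟩ := S.nt c
      obtain ⟨ε, hε, hεa⟩ := S.exists_nz hec ha0 ha00
      obtain ⟨ε', hε', h1, h2⟩ := S.exists_inv hec hε ha0 hεa
      obtain ⟨γ1, hγ1, h3⟩ := S.comp_nc hbc (Ne.symm heb) (Ne.symm hec) he hγ hε'
      have h4 : ∀ x ∈ S.T c, γ x = γ1 (ε x) := fun x hx => by
        rw [h3 _ (S.im e ε hε x), h1 x hx]
      have hmem : Θ c a ∈ S.T c := by rw [hΘ2 c hc]; exact S.im c _ (hg c hc) _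
      have m1 : ¬ Col S.T b e c0 := fun h => n1 (S.col_rot hb h)
      have m2 : ¬ Col S.T e c c0 := fun h => n2 (S.col_rot hc (S.col_swap h))
      rw [h4 a ha, c3 b e (Ne.symm heb) hb hec0 m1 γ1 hγ1 _ (S.im e ε hε a),
        c3 e c hec hec0 hc m2 ε hε a ha, h4 _ hmem]
    · exact c3 b c hbc hb hc hn γ hγ a ha
  obtain ⟨φ, hφ, h⟩ := S.exists_ext Θ e1 e2 e3
  refine ⟨φ, hφ, fun x => ?_⟩
  rw [h c0 x x.2, hΘ1, hΘ0]

include hnc in
theorem scal_of_nc (c : ι) : ∀ a ∈ S.T c, a ≠ 0 → ∀ a' ∈ S.T c, ∃ φ ∈ S.Scal, φ a = a' := by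
  intro a ha ha0 a' ha'
  obtain ⟨d, hd⟩ := S.two c
  obtain ⟨β, hβ, hβa⟩ := S.exists_nz hd ha ha0
  obtain ⟨α, hα, hαa⟩ := S.tr c d (β a) a' (Ne.symm hd) (S.im d β hβ a) hβa ha'
  obtain ⟨φ, hφ, h⟩ := S.KK_ext hnc (S.ab_mem hnc (Ne.symm hd) hα hβ)
  refine ⟨φ, hφ, ?_⟩
  have := h ⟨a, ha⟩
  rw [S.ab_coe] at this
  rw [← hαa]; exact this

end Spread

end H89.ON
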