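import Cfsg.Agent.Lib.H89.ON3
import Cfsg.Agent.Lib.H89.ON5

set_option autoImplicit false
set_option linter.unusedSectionVars false
set_option linter.unusedVariables false

/-! O'Nan, part 6: the group of all elations with axis `H` and its spread. -/

namespace H89.ON

variable {G X : Type*} [Group G] [MulAction G X] [Finite G] [Finite X]

namespace Dat

variable (D : Dat G X)

/-- all elations with axis `H` -/
def A (H : Set X) : Subgroup G := Subgroup.closure {g | ∃ b ∈ H, g ∈ D.T b H}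

theorem T_le_A {H : Set X} {b : X} (hb : b ∈ H) : D.T b H ≤ D.A H :=
  fun g hg => Subgroup.subset_closure ⟨b, hb, hg⟩

theorem A_fix {H : Set X} {a : G} (ha : a ∈ D.A H) : ∀ y ∈ H, a • y = y := by
  induction ha using Subgroup.closure_induction with
  | mem a ha => obtain ⟨b, hb, ha⟩ := ha; exact (D.mem_T.1 ha).2
  | one => intro y _; rw [one_smul]
  | mul a b _ _ ha hb => intro y hy; rw [mul_smul, hb y hy, ha y hy]
  | inv a _ ha => intro y hy; rw [inv_smul_eq_iff, ha y hy]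

theorem T_comm {H : Set X} {b c : X} (hb : b ∈ H) (hc : c ∈ H) {g h : G} (hg : g ∈ D.T b H)
    (hh : h ∈ D.T c H) : g * h = h * g := by
  have hg' := D.mem_T.1 hg
  have hh' := D.mem_T.1 hh
  by_cases hbc : b = c
  · subst hbc
    exact D.comm b g h hg'.1 hh'.1
  · exact D.W_comm hbc (D.mem_W.2 ⟨hg'.1, hg'.2 c hc⟩) (D.mem_W.2 ⟨hh'.1, hh'.2 b hb⟩)

theorem A_comm {H : Set X} {a a' : G} (ha : a ∈ D.A H) (ha' : a' ∈ D.A H) :
    a * a' = a' * a := by
  have h1 : D.A H ≤ Subgroup.centralizer (D.A H : Set G) := by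
    rw [A, Subgroup.closure_le]
    rintro g ⟨b, hb, hg⟩
    rw [SetLike.mem_coe, Subgroup.mem_centralizer_iff]
    intro h hh
    have h2 : Subgroup.closure {g | ∃ b ∈ H, g ∈ D.T b H} ≤ Subgroup.centralizer {g} := by
      rw [Subgroup.closure_le]
      rintro k ⟨c, hc, hk⟩
      rw [SetLike.mem_coe, Subgroup.mem_centralizer_singleton_iff]
      exact D.T_comm hc hb hk hg
    have h3 := h2 hh
    rw [Subgroup.mem_centralizer_singleton_iff] at h3
    exact h3
  have h2 := h1 ha'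
  rw [Subgroup.mem_centralizer_iff] at h2
  exact h2 a ha

/-- transitivity off `H` -/
theorem A_trans {H : Set X} (hH : D.IsHyp H) {z z' : X} (hz : z ∉ H) (hz' : z' ∉ H) :
    ∃ b ∈ H, ∃ a ∈ D.T b H, a • z = z' := by
  by_cases hzz : z = z'
  · subst hzz
    obtain ⟨b, hb, -⟩ := D.two_points hH z
    exact ⟨b, hb, 1, one_mem _, one_smul _ _⟩
  obtain ⟨b, hb, hbL⟩ := D.hyp_meet hH hzz
  have hbz : z ≠ b := fun h => hz (h ▸ hb)
  have hbz' : z' ≠ b := fun h => hz' (h ▸ hb)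
  have h1 : D.L b z = D.L z z' := D.L_eq hzz hbL (D.left_mem z z') (Ne.symm hbz)
  obtain ⟨a, ha, haz⟩ := D.T_trans hH hb hz (by rw [h1]; exact D.right_mem z z') hbz'
  exact ⟨b, hb, a, ha, haz⟩

theorem A_free {H : Set X} (hH : D.IsHyp H) {a : G} (ha : a ∈ D.A H) {z : X} (hz : z ∉ H)
    (h : a • z = z) : a = 1 := by
  refine D.faith a fun w => ?_
  by_cases hw : w ∈ H
  · exact D.A_fix ha w hw
  obtain ⟨b, hb, τ, hτ, hτz⟩ := D.A_trans hH hz hw
  have h1 := D.A_comm ha (D.T_le_A hb hτ)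
  rw [← hτz, smul_smul, h1, mul_smul, h]

theorem A_notMem {H : Set X} {a : G} (ha : a ∈ D.A H) {z : X} (hz : z ∉ H) : a • z ∉ H := by
  intro h
  have h1 := D.A_fix (inv_mem ha) _ h
  rw [inv_smul_smul] at h1
  rw [← h1] at h
  exact hz h

theorem A_cover {H : Set X} (hH : D.IsHyp H) {a : G} (ha : a ∈ D.A H) :
    ∃ b ∈ H, a ∈ D.T b H := by
  obtain ⟨o, ho⟩ := D.exists_notMem_hyp hH
  obtain ⟨b, hb, τ, hτ, hτo⟩ := D.A_trans hH ho (D.A_notMem ha ho)
  have h1 : a⁻¹ * τ = 1 := by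
    refine D.A_free hH (mul_mem (inv_mem ha) (D.T_le_A hb hτ)) ho ?_
    rw [mul_smul, hτo, inv_smul_smul]
  have h2 : a = τ := inv_mul_eq_one.1 h1
  exact ⟨b, hb, h2 ▸ hτ⟩

/-- `N c` preserves `H` for `c ∈ H` -/
theorem N_pres {H : Set X} (hH : D.IsHyp H) {c : X} (hc : c ∈ H) {n : G} (hn : n ∈ D.N c)
    {y : X} (hy : y ∈ H) : n • y ∈ H := by
  by_cases hcy : c = y
  · rw [← hcy, D.fix c n hn]; exact hc
  · exact D.hyp_closed hH hc hy hcy (D.N_line hn)

theorem T_conj {H : Set X} (hH : D.IsHyp H) {c : X} (hc : c ∈ H) {n : G} (hn : n ∈ D.N c)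
    {b : X} {a : G} (ha : a ∈ D.T b H) : n * a * n⁻¹ ∈ D.T (n • b) H := by
  rw [mem_T] at ha ⊢
  refine ⟨D.conj n b a ha.1, fun y hy => ?_⟩
  have h1 : n⁻¹ • y ∈ H := D.N_pres hH hc (inv_mem hn) hy
  rw [mul_smul, mul_smul, ha.2 _ h1, smul_inv_smul]

theorem N_norm {H : Set X} (hH : D.IsHyp H) {c : X} (hc : c ∈ H) {n : G} (hn : n ∈ D.N c)
    {a : G} (ha : a ∈ D.A H) : n * a * n⁻¹ ∈ D.A H := by
  obtain ⟨b, hb, hab⟩ := D.A_cover hH ha
  exact D.T_le_A (D.N_pres hH hc hn hb) (D.T_conj hH hc hn hab)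

theorem comm_mem {H : Set X} (hH : D.IsHyp H) {c : X} (hc : c ∈ H) {n : G} (hn : n ∈ D.N c)
    {a : G} (ha : a ∈ D.A H) : n * a * n⁻¹ * a⁻¹ ∈ D.T c H := by
  rw [mem_T]
  constructor
  · have h1 : a * n⁻¹ * a⁻¹ ∈ D.N c := by
      have := D.conj a c n⁻¹ (inv_mem hn)
      rwa [D.A_fix ha c hc] at this
    have h2 := mul_mem hn h1
    simpa [mul_assoc] using h2
  · exact D.A_fix (mul_mem (D.N_norm hH hc hn ha) (inv_mem ha))

theorem T_disj {H : Set X} {b c : X} {a : G} (hb : a ∈ D.T b H) (hc : a ∈ D.T c H)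
    (ha : a ≠ 1) : b = c := by
  by_contra hbc
  exact ha (D.ti hbc (D.mem_T.1 hb).1 (D.mem_T.1 hc).1)

theorem T_nt {H : Set X} (hH : D.IsHyp H) {b : X} (hb : b ∈ H) : ∃ a ∈ D.T b H, a ≠ 1 := by
  obtain ⟨c, hbc, g, hg, hg1, hgH⟩ := D.exists_gen hH b hb
  have h1 := D.card_T_ge hg hg1 hbc (by
    have : b ∈ (Fx g : Set X) := by rw [hgH]; exact hb
    exact this)
  have h2 := D.two_le_line hbc
  rw [hgH] at h1
  have : Nontrivial (D.T b H) := by
    rw [← Finite.one_lt_card_iff_nontrivial]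
    exact lt_of_lt_of_le h2 h1
  obtain ⟨⟨h, hh⟩, hne⟩ := _root_.exists_ne (1 : D.T b H)
  exact ⟨h, hh, fun h' => hne (Subtype.ext h')⟩

/-- two different points of a hyperplane and a point outside: the hyperplane contains no line
through the outer point -/
theorem notMem_of_two {H : Set X} (hH : D.IsHyp H) {c d o y z : X} (hc : c ∈ H) (hd : d ∈ H)
    (hcd : c ≠ d) (ho : o ∉ H) (hyz : y ≠ z) (hcL : c ∈ D.L y z) (hdL : d ∈ D.L y z)
    (hoL : o ∈ D.L y z) : False := by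
  have h1 := D.L_eq hyz hcL hdL hcd
  exact ho (D.hyp_closed hH hc hd hcd (by rw [h1]; exact hoL))

theorem col_of_mul {H : Set X} (hH : D.IsHyp H) {c d e : X} (hc : c ∈ H) (hd : d ∈ H)
    (he : e ∈ H) (hcd : c ≠ d) {x y : G} (hx : x ∈ D.T c H) (hy : y ∈ D.T d H) (hx1 : x ≠ 1)
    (hy1 : y ≠ 1) (hxy : x * y ∈ D.T e H) : e ∈ D.L c d := by
  obtain ⟨o, ho⟩ := D.exists_notMem_hyp hH
  have hx' := D.mem_T.1 hx
  have hy' := D.mem_T.1 hy
  have hoc : o ≠ c := fun h => ho (h ▸ hc)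
  have hod : o ≠ d := fun h => ho (h ▸ hd)
  have hoe : o ≠ e := fun h => ho (h ▸ he)
  have ho1 : y • o ≠ o := fun h => hy1 (D.A_free hH (D.T_le_A hd hy) ho h)
  have ho1H : y • o ∉ H := D.A_notMem (D.T_le_A hd hy) ho
  have hxy1 : x * y ≠ 1 := by
    intro h
    have h1 : x = y⁻¹ := eq_inv_of_mul_eq_one_left h
    have h2 : x ∈ D.T d H := by rw [h1]; exact inv_mem hy
    exact hcd (D.T_disj hx h2 hx1)
  have ho2 : x • y • o ≠ o := by
    intro h
    rw [← mul_smul] at h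
    exact hxy1 (D.A_free hH (D.T_le_A he hxy) ho h)
  -- lines
  have l1 : y • o ∈ D.L d o := D.N_line hy'.1
  have l1' : D.L o (y • o) = D.L d o := by
    rw [D.L_eq (Ne.symm hod) (D.right_mem d o) l1 (Ne.symm ho1)]
  have l2 : x • y • o ∈ D.L e o := by
    rw [← mul_smul]; exact D.N_line (D.mem_T.1 hxy).1
  have l2' : D.L o (x • y • o) = D.L e o :=
    D.L_eq (Ne.symm hoe) (D.right_mem e o) l2 (Ne.symm ho2)
  have l3 : x • y • o ∈ D.L c (y • o) := D.N_line hx'.1
  have l4 : y • o ∉ D.L o c := by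
    intro h
    have e1 : D.L o (y • o) = D.L o c := D.L_eq hoc (D.left_mem o c) h (Ne.symm ho1)
    refine D.notMem_of_two hH hc hd hcd ho hoc (D.right_mem o c) ?_ (D.left_mem o c)
    rw [← e1, l1']; exact D.left_mem d o
  obtain ⟨w, hw1, hw2⟩ := D.veblen (b := o) (x := c) (a := y • o) (a' := d) (c := x • y • o)
    hoc l4 (by rw [l1']; exact D.left_mem d o) (Ne.symm hod) l3
  have hwH : w ∈ H := D.hyp_closed hH hc hd hcd hw2
  have hwe : w = e := by
    by_contra hne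
    refine D.notMem_of_two hH hwH he hne ho (Ne.symm hoe) ?_ (D.left_mem e o) (D.right_mem e o)
    rw [← l2']; exact hw1
  rw [← hwe]; exact hw2

/-! ### additive version -/

/-- the additive group of elations with axis `H` -/
def MA {H : Set X} (hH : D.IsHyp H) : Type _ := Additive (D.A H)

variable {D} {H : Set X} {hH : D.IsHyp H}

noncomputable instance instACG : AddCommGroup (D.MA hH) :=
  { (inferInstance : AddGroup (Additive (D.A H))) with
    add_comm := fun a b => by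
      apply Additive.toMul.injective
      apply Subtype.ext
      exact D.A_comm (Additive.toMul a).2 (Additive.toMul b).2 }

instance : Finite (D.MA hH) := inferInstanceAs (Finite (Additive (D.A H)))

/-- underlying group element -/
noncomputable def val (a : D.MA hH) : G := ((Additive.toMul (show Additive (D.A H) from a) : D.A H) : G)

/-- constructor -/
noncomputable def toMA (hH : D.IsHyp H) (g : G) (hg : g ∈ D.A H) : D.MA hH :=
  Additive.ofMul (⟨g, hg⟩ : D.A H)

theorem val_toMA (g : G) (hg : g ∈ D.A H) : val (toMA hH g hg) = g := rfl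

theorem val_mem (a : D.MA hH) : val a ∈ D.A H :=
  (Additive.toMul (show Additive (D.A H) from a) : D.A H).2

theorem val_inj {a b : D.MA hH} (h : val a = val b) : a = b :=
  Additive.toMul.injective (Subtype.ext h)

theorem val_add (a b : D.MA hH) : val (a + b) = val a * val b := rfl

theorem val_zero : val (0 : D.MA hH) = 1 := rfl

theorem val_neg (a : D.MA hH) : val (-a) = (val a)⁻¹ := rfl

theorem val_eq_one {a : D.MA hH} : val a = 1 ↔ a = 0 :=
  ⟨fun h => val_inj (h.trans val_zero.symm), fun h => by rw [h]; rfl⟩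

/-- the members of the spread -/
noncomputable def TA (hH : D.IsHyp H) (b' : H) : AddSubgroup (D.MA hH) where
  carrier := {a | val a ∈ D.T b' H}
  add_mem' := fun {a b} ha hb => by
    change val (a + b) ∈ D.T b' H; rw [val_add]; exact mul_mem ha hb
  zero_mem' := by change val (0 : D.MA hH) ∈ D.T b' H; rw [val_zero]; exact one_mem _
  neg_mem' := fun {a} ha => by change val (-a) ∈ D.T b' H; rw [val_neg]; exact inv_mem ha

theorem mem_TA {b : H} {a : D.MA hH} : a ∈ TA hH b ↔ val a ∈ D.T b H := Iff.rfl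

/-- conjugation by an element of `N c`, `c ∈ H` -/
noncomputable def cj (hH : D.IsHyp H) (c : H) (n : G) (hn : n ∈ D.N c) : D.MA hH →+ D.MA hH :=
  AddMonoidHom.mk' (fun a => toMA hH (n * val a * n⁻¹) (D.N_norm hH c.2 hn (val_mem a)))
    (fun a b => by
      apply val_inj
      change n * (val a * val b) * n⁻¹ = (n * val a * n⁻¹) * (n * val b * n⁻¹)
      group)

theorem val_cj (c : H) (n : G) (hn : n ∈ D.N c) (a : D.MA hH) :
    val (cj hH c n hn a) = n * val a * n⁻¹ := rfl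

/-- `a ↦ n a n⁻¹ - a` -/
noncomputable def gm (hH : D.IsHyp H) (c : H) (n : G) (hn : n ∈ D.N c) : D.MA hH →+ D.MA hH :=
  cj hH c n hn - AddMonoidHom.id _

theorem gm_apply (c : H) (n : G) (hn : n ∈ D.N c) (a : D.MA hH) :
    gm hH c n hn a = cj hH c n hn a - a := rfl

theorem val_gm (c : H) (n : G) (hn : n ∈ D.N c) (a : D.MA hH) :
    val (gm hH c n hn a) = n * val a * n⁻¹ * (val a)⁻¹ := by
  rw [gm_apply, sub_eq_add_neg, val_add, val_neg, val_cj]

theorem add_gm (c : H) (n : G) (hn : n ∈ D.N c) (a : D.MA hH) :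
    a + gm hH c n hn a = cj hH c n hn a := by rw [gm_apply]; abel

theorem gm_mem (c : H) (n : G) (hn : n ∈ D.N c) (a : D.MA hH) : gm hH c n hn a ∈ TA hH c := by
  rw [mem_TA, val_gm]
  exact D.comm_mem hH c.2 hn (val_mem a)

theorem gm_eq_zero_iff (c : H) (n : G) (hn : n ∈ D.N c) (a : D.MA hH) :
    gm hH c n hn a = 0 ↔ n * val a = val a * n := by
  rw [← val_eq_one, val_gm, mul_inv_eq_one, mul_inv_eq_iff_eq_mul]

theorem gm_ker (c : H) (n : G) (hn : n ∈ D.N c) (a : D.MA hH) (ha : a ∈ TA hH c) :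
    gm hH c n hn a = 0 := by
  rw [gm_eq_zero_iff]
  exact D.comm c _ _ hn (D.mem_T.1 ha).1

theorem cj_mul (c : H) {n k : G} (hn : n ∈ D.N c) (hk : k ∈ D.N c) (a : D.MA hH) :
    cj hH c (n * k) (mul_mem hn hk) a = cj hH c n hn (cj hH c k hk a) := by
  apply val_inj
  rw [val_cj, val_cj, val_cj]; group

theorem gm_mul (c : H) {n k : G} (hn : n ∈ D.N c) (hk : k ∈ D.N c) :
    gm hH c (n * k) (mul_mem hn hk) = gm hH c n hn + gm hH c k hk := by
  ext a
  have h1 : cj hH c n hn (gm hH c k hk a) = gm hH c k hk a := by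
    rw [← add_gm c n hn, gm_ker c n hn _ (gm_mem c k hk a), add_zero]
  have h2 : cj hH c (n * k) (mul_mem hn hk) a = cj hH c n hn a + gm hH c k hk a := by
    rw [cj_mul c hn hk, ← add_gm c k hk, map_add, h1]
  rw [AddMonoidHom.add_apply, gm_apply, h2, gm_apply c n hn]
  abel

theorem gm_one (c : H) : gm hH c 1 (one_mem _) = 0 := by
  ext a
  rw [gm_apply]
  have : cj hH c 1 (one_mem _) a = a := by
    apply val_inj; rw [val_cj]; group
  rw [this, sub_self]; rfl

/-- the transvection groups -/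
noncomputable def GA (hH : D.IsHyp H) (c : H) : AddSubgroup (D.MA hH →+ D.MA hH) where
  carrier := {γ | ∃ n, ∃ hn : n ∈ D.N c, γ = gm hH c n hn}
  add_mem' := by
    rintro _ _ ⟨n, hn, rfl⟩ ⟨k, hk, rfl⟩
    exact ⟨n * k, mul_mem hn hk, (gm_mul c hn hk).symm⟩
  zero_mem' := ⟨1, one_mem _, (gm_one c).symm⟩
  neg_mem' := by
    rintro _ ⟨n, hn, rfl⟩
    refine ⟨n⁻¹, inv_mem hn, ?_⟩
    have h1 := gm_mul (hH := hH) c hn (inv_mem hn)
    have h2 : gm hH c (n * n⁻¹) (mul_mem hn (inv_mem hn)) = 0 := by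
      have h3 := gm_one (hH := hH) c
      have : ∀ (m : G) (hm : m ∈ D.N c), m = 1 → gm hH c m hm = 0 := by
        rintro m hm rfl; exact h3
      exact this _ _ (mul_inv_cancel n)
    rw [h2] at h1
    exact (eq_neg_of_add_eq_zero_right h1.symm).symm

end Dat

end H89.ON
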