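import Cfsg.Agent.Lib.H89.ON6

set_option autoImplicit false
set_option linter.unusedSectionVars false
set_option linter.unusedVariables false

/-! O'Nan, part 7: the spread structure. -/

namespace H89.ON

variable {G X : Type*} [Group G] [MulAction G X] [Finite G] [Finite X]

namespace Dat

variable {D : Dat G X} {H : Set X} {hH : D.IsHyp H}

theorem val_ne {a : D.MA hH} (h : a ≠ 0) : val a ≠ 1 := fun h' => h (val_eq_one.1 h')

/-- points on a line give dependent members -/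
theorem col_of_mem {c d e : H} (hcd : (c : X) ≠ d) (hce : (e : X) ≠ d)
    (he : (e : X) ∈ D.L c d) : Col (TA hH) c d e := by
  -- n ∈ N d maps c to e
  have he' : (e : X) ∈ D.L d c := by rw [D.L_symm (Ne.symm hcd)]; exact he
  obtain ⟨n, hn, hne⟩ := D.trans_line (Ne.symm hcd) he' hce
  obtain ⟨x, hx, hx1⟩ := D.T_nt hH c.2
  let a : D.MA hH := toMA hH x (D.T_le_A c.2 hx)
  refine ⟨a, hx, gm hH d n hn a, gm_mem d n hn a, ?_, ?_⟩
  · rw [add_gm, mem_TA, val_cj, ← hne]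
    exact D.T_conj hH d.2 hn hx
  · rw [add_gm]
    intro h
    have h1 : n * x * n⁻¹ = 1 := by
      have := congrArg val h
      rwa [val_cj] at this
    exact hx1 (conj_eq_one_iff.1 h1)

theorem mem_of_col {c d e : H} (hcd : (c : X) ≠ d) (hce : c ≠ e) (hde : d ≠ e)
    (h : Col (TA hH) c d e) : (e : X) ∈ D.L c d := by
  obtain ⟨x, hx, y, hy, h1, h2⟩ := h
  have hx0 : x ≠ 0 := by
    intro h0
    rw [h0, zero_add] at h1 h2
    exact hde (Subtype.ext (D.T_disj (mem_TA.1 hy) (mem_TA.1 h1) (val_ne h2)))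
  have hy0 : y ≠ 0 := by
    intro h0
    rw [h0, add_zero] at h1 h2
    exact hce (Subtype.ext (D.T_disj (mem_TA.1 hx) (mem_TA.1 h1) (val_ne h2)))
  exact D.col_of_mul hH c.2 d.2 e.2 hcd (mem_TA.1 hx) (mem_TA.1 hy) (val_ne hx0) (val_ne hy0)
    (by rw [mem_TA, val_add] at h1; exact h1)

/-- transitivity -/
theorem GA_tr {c d : H} (hcd : c ≠ d) {a a' : D.MA hH} (ha : a ∈ TA hH d) (ha0 : a ≠ 0)
    (ha' : a' ∈ TA hH c) : ∃ γ ∈ GA hH c, γ a = a' := by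
  by_cases ha'0 : a' = 0
  · exact ⟨0, zero_mem _, by rw [ha'0]; rfl⟩
  have hcd' : (c : X) ≠ d := fun h => hcd (Subtype.ext h)
  obtain ⟨e, he, hae⟩ := D.A_cover hH (val_mem (a' + a))
  have h1 : e ∈ D.L c d := D.col_of_mul hH c.2 d.2 he hcd' (mem_TA.1 ha') (mem_TA.1 ha)
    (val_ne ha'0) (val_ne ha0) (by rw [val_add] at hae; exact hae)
  have hec : e ≠ c := by
    intro h
    subst h
    have h2 : val a ∈ D.T c H := by
      have h3 := mul_mem (inv_mem (mem_TA.1 ha')) hae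
      rw [val_add, inv_mul_cancel_left] at h3
      exact h3
    exact hcd' (D.T_disj h2 (mem_TA.1 ha) (val_ne ha0))
  obtain ⟨n, hn, hne⟩ := D.trans_line hcd' h1 hec
  refine ⟨gm hH c n hn, ⟨n, hn, rfl⟩, ?_⟩
  by_contra hne'
  have h2 : val (gm hH c n hn a - a') ∈ D.T c H := mem_TA.1 (sub_mem (gm_mem c n hn a) ha')
  have h3 : val (gm hH c n hn a - a') ∈ D.T e H := by
    have e1 : gm hH c n hn a - a' = cj hH c n hn a - (a' + a) := by rw [gm_apply]; abel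
    rw [e1, sub_eq_add_neg, val_add, val_neg]
    refine mul_mem ?_ (inv_mem hae)
    rw [val_cj, ← hne]
    exact D.T_conj hH c.2 hn (mem_TA.1 ha)
  exact hec (D.T_disj h3 h2 (val_ne (sub_ne_zero.2 hne')))

theorem GA_semi {c d : H} {γ : D.MA hH →+ D.MA hH} (hγ : γ ∈ GA hH c) {a : D.MA hH}
    (ha : a ∈ TA hH d) (ha0 : a ≠ 0) (h : γ a = 0) (a' : D.MA hH) (ha' : a' ∈ TA hH d) :
    γ a' = 0 := by
  obtain ⟨n, hn, rfl⟩ := hγ
  rw [gm_eq_zero_iff] at h ⊢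
  by_cases hcd : (c : X) = d
  · rw [mem_TA, ← hcd] at ha'
    exact D.comm c _ _ hn (D.mem_T.1 ha').1
  · have h1 : n • (d : X) = d := D.cent (D.mem_T.1 (mem_TA.1 ha)).1 (val_ne ha0) h
    have h2 := D.mem_T.1 (mem_TA.1 ha')
    exact D.W_comm hcd (D.mem_W.2 ⟨hn, h1⟩) (D.mem_W.2 ⟨h2.1, h2.2 c c.2⟩)

theorem GA_ind {c' c d : H} (h1 : c' ≠ c) (h2 : c' ≠ d) (h3 : c ≠ d)
    (hn : ¬ Col (TA hH) c' c d) {γ : D.MA hH →+ D.MA hH} (hγ : γ ∈ GA hH c) :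
    ∃ γ' ∈ GA hH c, (∀ a ∈ TA hH d, γ' a = γ a) ∧ ∀ a ∈ TA hH c', γ' a = 0 := by
  obtain ⟨n, hn', rfl⟩ := hγ
  have h1' : (c' : X) ≠ c := fun h => h1 (Subtype.ext h)
  have h3' : (c : X) ≠ d := fun h => h3 (Subtype.ext h)
  have hd : (d : X) ∉ D.L c c' := by
    intro h
    rw [D.L_symm (Ne.symm h1')] at h
    exact hn (col_of_mem h1' (Ne.symm h3') h)
  obtain ⟨u, hu, hud⟩ := D.W_trans (Ne.symm h1') hd (D.N_line (y := (d : X)) hn')
    (D.N_ne_point hn' h3')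
  have hu' := D.mem_W.1 hu
  refine ⟨gm hH c u hu'.1, ⟨u, hu'.1, rfl⟩, fun a ha => ?_, fun a ha => ?_⟩
  · -- u⁻¹ n fixes d
    have e1 : u⁻¹ * n ∈ D.W c d := by
      refine D.mem_W.2 ⟨mul_mem (inv_mem hu'.1) hn', ?_⟩
      rw [mul_smul, ← hud, inv_smul_smul]
    have ha' := D.mem_T.1 (mem_TA.1 ha)
    have e2 := D.W_comm h3' e1 (D.mem_W.2 ⟨ha'.1, ha'.2 c c.2⟩)
    apply val_inj
    rw [val_gm, val_gm]
    congr 1
    have e3 : n = u * (u⁻¹ * n) := by group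
    calc u * val a * u⁻¹ = u * (val a * (u⁻¹ * n)) * (u⁻¹ * n)⁻¹ * u⁻¹ := by group
      _ = u * (u⁻¹ * n * val a) * (u⁻¹ * n)⁻¹ * u⁻¹ := by rw [e2]
      _ = n * val a * n⁻¹ := by group
  · rw [gm_eq_zero_iff]
    have ha' := D.mem_T.1 (mem_TA.1 ha)
    exact D.W_comm (Ne.symm h1') hu (D.mem_W.2 ⟨ha'.1, ha'.2 c c.2⟩)

theorem GA_comp {c' c : H} (hcc : c' ≠ c) {κ γ : D.MA hH →+ D.MA hH} (hκ : κ ∈ GA hH c')
    (hγ : γ ∈ GA hH c) (h0 : ∀ a ∈ TA hH c', γ a = 0) : κ.comp γ ∈ GA hH c' := by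
  obtain ⟨k, hk, rfl⟩ := hκ
  obtain ⟨n, hn, rfl⟩ := hγ
  -- n fixes c'
  obtain ⟨x, hx, hx1⟩ := D.T_nt hH c'.2
  have h1 : n • (c' : X) = c' := by
    have := h0 (toMA hH x (D.T_le_A c'.2 hx)) hx
    rw [gm_eq_zero_iff, val_toMA] at this
    exact D.cent (D.mem_T.1 hx).1 hx1 this
  have h2 : n * k⁻¹ * n⁻¹ ∈ D.N c' := by
    have := D.conj n c' k⁻¹ (inv_mem hk)
    rwa [h1] at this
  have h3 : k * (n * k⁻¹ * n⁻¹) ∈ D.N c' := mul_mem hk h2
  refine ⟨k * (n * k⁻¹ * n⁻¹), h3, ?_⟩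
  ext b
  rw [AddMonoidHom.comp_apply]
  -- b = cj n (cj k a)
  obtain ⟨a, ha⟩ : ∃ a, b = cj hH c n hn (cj hH c' k hk a) := by
    refine ⟨cj hH c' k⁻¹ (inv_mem hk) (cj hH c n⁻¹ (inv_mem hn) b), ?_⟩
    apply val_inj
    rw [val_cj, val_cj, val_cj, val_cj]; group
  have e1 : cj hH c' (k * (n * k⁻¹ * n⁻¹)) h3 b = cj hH c' k hk (cj hH c n hn a) := by
    apply val_inj
    rw [ha, val_cj, val_cj, val_cj, val_cj, val_cj]; group
  have e2 : b = a + gm hH c' k hk a + gm hH c n hn a := by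
    rw [ha, ← add_gm c n hn, ← add_gm c' k hk, map_add, h0 _ (gm_mem c' k hk a), add_zero]
  have e3 : cj hH c' k hk (cj hH c n hn a) =
      a + gm hH c' k hk a + gm hH c n hn a + gm hH c' k hk (gm hH c n hn a) := by
    rw [← add_gm c n hn, map_add, ← add_gm c' k hk, ← add_gm c' k hk (gm hH c n hn a)]
    abel
  have e4 : gm hH c n hn b = gm hH c n hn a := by
    rw [e2, map_add, map_add, h0 _ (gm_mem c' k hk a), gm_ker c n hn _ (gm_mem c n hn a),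
      add_zero, add_zero]
  rw [e4, gm_apply c' _ h3, e1, e3, ← e2, add_sub_cancel_left]

/-- the spread -/
noncomputable def spr (hH : D.IsHyp H) : Spread (D.MA hH) H where
  T := TA hH
  cover := fun a => by
    obtain ⟨b, hb, h⟩ := D.A_cover hH (val_mem a)
    exact ⟨⟨b, hb⟩, h⟩
  disj := fun b c a hb hc ha => Subtype.ext (D.T_disj (mem_TA.1 hb) (mem_TA.1 hc) (val_ne ha))
  nt := fun b => by
    obtain ⟨x, hx, hx1⟩ := D.T_nt hH b.2
    refine ⟨toMA hH x (D.T_le_A b.2 hx), hx, fun h => hx1 ?_⟩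
    have := congrArg val h
    exact this
  two := fun b => by
    obtain ⟨c, hc, hbc⟩ := D.two_points hH b
    exact ⟨⟨c, hc⟩, fun h => hbc (congrArg Subtype.val h).symm⟩
  Γ := GA hH
  im := by
    rintro c _ ⟨n, hn, rfl⟩ a
    exact gm_mem c n hn a
  ker := by
    rintro c _ ⟨n, hn, rfl⟩ a ha
    exact gm_ker c n hn a ha
  tr := fun c d a a' hcd ha ha0 ha' => GA_tr hcd ha ha0 ha'
  perm := by
    rintro c _ ⟨n, hn, rfl⟩ d
    refine ⟨⟨n • (d : X), D.N_pres hH c.2 hn d.2⟩, fun a ha => ?_⟩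
    rw [add_gm, mem_TA, val_cj]
    exact D.T_conj hH c.2 hn (mem_TA.1 ha)
  semi := fun c γ hγ d a ha ha0 h a' ha' => GA_semi hγ ha ha0 h a' ha'
  ind := fun c' c d h1 h2 h3 hn γ hγ => GA_ind h1 h2 h3 hn hγ
  comp := fun c' c hcc κ hκ γ hγ h0 => GA_comp hcc hκ hγ h0

end Dat

end H89.ON
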