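import Cfsg.Agent.Lib.H89.ON7
import Cfsg.Agent.Lib.H48.Oz1

set_option autoImplicit false
set_option linter.unusedSectionVars false
set_option linter.unusedVariables false

/-! O'Nan, part 8: the plane case; the kernel is transitive on the members of the spread. -/

namespace H89.ON

variable {G X : Type*} [Group G] [MulAction G X] [Finite G] [Finite X]

namespace Dat

section line

variable (D : Dat G X)

/-- if one hyperplane is a line, every line is a hyperplane -/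
theorem line_isHyp {H : Set X} (hH : D.IsHyp H) {c d : X} (hc : c ∈ H) (hd : d ∈ H)
    (hcd : c ≠ d) (hHL : H ⊆ D.L c d) {y z : X} (hyz : y ≠ z) : D.IsHyp (D.L y z) := by
  obtain ⟨g, hg, hg'⟩ := D.tt c d y z hcd hyz
  have h1 := D.smul_hyp hH g
  have h2 : {w | g⁻¹ • w ∈ H} = D.L y z := by
    ext w
    constructor
    · intro hw
      have h3 := D.smul_L g (hHL hw)
      rwa [smul_inv_smul, hg, hg'] at h3
    · intro hw
      have h3 := D.smul_L g⁻¹ hw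
      rw [← hg, ← hg', inv_smul_smul, inv_smul_smul] at h3
      exact D.hyp_closed hH hc hd hcd h3
  rwa [h2] at h1

/-- then every hyperplane is a line -/
theorem hyp_eq_line {H : Set X} (hH : D.IsHyp H) {c d : X} (hc : c ∈ H) (hd : d ∈ H)
    (hcd : c ≠ d) (hHL : H ⊆ D.L c d) {K : Set X} (hK : D.IsHyp K) {y z : X} (hyz : y ≠ z)
    (hy : y ∈ K) (hz : z ∈ K) : K = D.L y z := by
  have h1 := D.line_isHyp hH hc hd hcd hHL hyz
  obtain ⟨⟨b, g, hg, hg1, hgK⟩, -⟩ := hK.1, hK.2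
  have h2 : D.L y z ⊆ Fx g := by
    rw [hgK]
    intro w hw
    exact D.hyp_closed hK hy hz hyz hw
  rw [← hgK]
  exact h1.2 b g hg hg1 h2

theorem T_line {H : Set X} (hH : D.IsHyp H) {c y : X} (hc : c ∈ H) (hy : y ∈ H)
    (hcy : c ≠ y) (hHL : H = D.L c y) : D.T c H = D.W c y := by
  ext g
  rw [mem_T, mem_W]
  constructor
  · rintro ⟨h1, h2⟩
    exact ⟨h1, h2 y hy⟩
  · rintro ⟨h1, h2⟩
    refine ⟨h1, fun w hw => ?_⟩
    rw [hHL] at hw
    exact hw g (D.mem_W.2 ⟨h1, h2⟩)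

end line

variable {D : Dat G X}

/-- the commutator pairing -/
noncomputable def BP {H K : Set X} (hH : D.IsHyp H) (hK : D.IsHyp K) {c : X} (hc : c ∈ H)
    (hc' : c ∈ K) (d : H) :
    TA hK ⟨c, hc'⟩ →+ TA hH d →+ TA hH ⟨c, hc⟩ :=
  AddMonoidHom.mk' (fun g => AddMonoidHom.mk' (fun u =>
      (⟨gm hH ⟨c, hc⟩ (val g.1) (D.mem_T.1 (mem_TA.1 g.2)).1 u.1, gm_mem _ _ _ _⟩ :
        TA hH ⟨c, hc⟩))
      (fun u v => by apply Subtype.ext; simp))
    (fun g k => by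
      ext u
      have h1 := gm_mul (hH := hH) ⟨c, hc⟩ (D.mem_T.1 (mem_TA.1 g.2)).1
        (D.mem_T.1 (mem_TA.1 k.2)).1
      have h2 := DFunLike.congr_fun h1 u.1
      exact h2)

theorem BP_coe {H K : Set X} (hH : D.IsHyp H) (hK : D.IsHyp K) {c : X} (hc : c ∈ H)
    (hc' : c ∈ K) (d : H) (g : TA hK ⟨c, hc'⟩) (u : TA hH d) :
    ((BP hH hK hc hc' d g u : TA hH ⟨c, hc⟩) : D.MA hH) =
      gm hH ⟨c, hc⟩ (val g.1) (D.mem_T.1 (mem_TA.1 g.2)).1 u.1 := rfl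

theorem BP_val {H K : Set X} (hH : D.IsHyp H) (hK : D.IsHyp K) {c : X} (hc : c ∈ H)
    (hc' : c ∈ K) (d : H) (g : TA hK ⟨c, hc'⟩) (u : TA hH d) :
    val ((BP hH hK hc hc' d g u : TA hH ⟨c, hc⟩) : D.MA hH) =
      val g.1 * val u.1 * (val g.1)⁻¹ * (val u.1)⁻¹ := by
  rw [BP_coe, val_gm]

theorem BP_nz {H K : Set X} (hH : D.IsHyp H) (hK : D.IsHyp K) {c : X} (hc : c ∈ H)
    (hc' : c ∈ K) (d : H) (hd : (d : X) ∉ K) (g : TA hK ⟨c, hc'⟩) (u : TA hH d)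
    (hg : g ≠ 0) (hu : u ≠ 0) : BP hH hK hc hc' d g u ≠ 0 := by
  intro h
  have h1 : gm hH ⟨c, hc⟩ (val g.1) (D.mem_T.1 (mem_TA.1 g.2)).1 u.1 = 0 := by
    rw [← BP_coe (hK := hK), h]; rfl
  rw [gm_eq_zero_iff] at h1
  have hg1 : val g.1 ≠ 1 := val_ne fun h => hg (Subtype.ext h)
  have hu1 : val u.1 ≠ 1 := val_ne fun h => hu (Subtype.ext h)
  have h2 : val g.1 • (d : X) = d := D.cent (D.mem_T.1 (mem_TA.1 u.2)).1 hu1 h1
  apply hd
  rw [← D.T_Fx hK (mem_TA.1 g.2) hg1]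
  exact h2

theorem T_int {H K : Set X} (hH : D.IsHyp H) (hK : D.IsHyp K) {c z : X} (hz : z ∈ K)
    (hzH : z ∉ H) {g : G} (h1 : g ∈ D.T c H) (h2 : g ∈ D.T c K) : g = 1 := by
  by_contra hne
  apply hzH
  rw [← D.T_Fx hH h1 hne]
  exact (D.mem_T.1 h2).2 z hz

/-- the inverse of `B (·, u)` -/
theorem BP_inv {H K : Set X} (hH : D.IsHyp H) (hK : D.IsHyp K) {c : X} (hc : c ∈ H)
    (hc' : c ∈ K) (d : H) (hd : (d : X) ∉ K) (e : K) (he : (e : X) ∉ H)
    (hHL : H = D.L c d) (hKL : K = D.L c e) (u : TA hH d) (hu : u ≠ 0) :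
    ∃ u' : TA hK e, ∀ p : TA hK ⟨c, hc'⟩,
      BP hK hH hc' hc e (BP hH hK hc hc' d p u) u' = p := by
  have hcd : c ≠ d := fun h => hd (h ▸ hc')
  have hce : c ≠ e := fun h => he (h ▸ hc)
  have hu1 : val u.1 ≠ 1 := val_ne fun h => hu (Subtype.ext h)
  have huT := mem_TA.1 u.2
  have huT' := D.mem_T.1 huT
  set x := val u.1 with hx
  -- x • e is outside H and K
  have e1 : x • (e : X) ∉ H := D.A_notMem (D.T_le_A d.2 huT) he
  have e1' : x • (e : X) ≠ e := by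
    intro h
    have : (e : X) ∈ (Fx x : Set X) := h
    rw [D.T_Fx hH huT hu1] at this
    exact he this
  have hde : (d : X) ≠ e := fun h => he (h ▸ d.2)
  have e2 : x • (e : X) ∉ K := by
    intro h
    have h1 : x • (e : X) ∈ D.L d e := D.N_line huT'.1
    have h2 := D.L_eq hde h1 (D.right_mem _ _) e1'
    apply hd
    refine D.hyp_closed hK h e.2 e1' ?_
    rw [h2]
    exact D.left_mem _ _
  -- the point y on H
  have e3 : (e : X) ≠ x • (e : X) := Ne.symm e1'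
  obtain ⟨y, hyH, hyL⟩ := D.hyp_meet hH e3
  have hey : (e : X) ≠ y := fun h => he (h ▸ hyH)
  have hyc : c ≠ y := by
    intro h
    apply e2
    refine D.hyp_closed hK hc' e.2 hce ?_
    have h3 : D.L (e : X) y = D.L (e : X) (x • (e : X)) := D.L_eq_left e3 hyL (Ne.symm hey)
    rw [D.L_symm hce, h, h3]
    exact D.right_mem _ _
  have hyK : y ∉ K := by
    intro h
    apply e2
    refine D.hyp_closed hK e.2 h hey ?_
    rw [D.L_eq_left e3 hyL (Ne.symm hey)]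
    exact D.right_mem _ _
  obtain ⟨x', hx', hx'y⟩ := D.T_trans hK e.2 hyK (z' := x • (e : X)) (by
    rw [D.L_eq_left e3 hyL (Ne.symm hey)]
    exact D.right_mem _ _) e1'
  have hx'T := D.mem_T.1 hx'
  refine ⟨⟨toMA hK x' (D.T_le_A e.2 hx'), hx'⟩, fun p => ?_⟩
  have hHy : H = D.L c y := by
    have h2 : y ∈ D.L c d := hHL ▸ hyH
    rw [D.L_eq_left hcd h2 (Ne.symm hyc), ← hHL]
  have hpT := mem_TA.1 p.2
  have hpT' := D.mem_T.1 hpT
  apply Subtype.ext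
  apply val_inj
  rw [BP_val, BP_val]
  change val p.1 * x * (val p.1)⁻¹ * x⁻¹ * x' * (val p.1 * x * (val p.1)⁻¹ * x⁻¹)⁻¹ * x'⁻¹ =
    val p.1
  set a := val p.1 with ha
  -- the element q
  set q := x'⁻¹ * (x * a * x⁻¹) * x' with hq
  have hxc : x • c = c := huT'.2 c hc
  have hx'c : x' • c = c := hx'T.2 c hc'
  have hqW : q ∈ D.W c y := by
    rw [mem_W]
    constructor
    · have h1 := D.conj x c a hpT'.1
      rw [hxc] at h1
      have h2 := D.conj x'⁻¹ c _ h1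
      rw [inv_smul_eq_iff.2 hx'c.symm, inv_inv] at h2
      exact h2
    · rw [hq, mul_smul, hx'y, mul_smul, mul_smul, mul_smul, inv_smul_smul, hpT'.2 e e.2, ← hx'y,
        inv_smul_smul]
  have hqT : q ∈ D.T c H := by rw [D.T_line hH hc hyH hyc hHy]; exact hqW
  have hB : a * x * a⁻¹ * x⁻¹ ∈ D.T c H := D.comm_mem hH hc hpT'.1 (D.T_le_A d.2 huT)
  have hB' : q * x' * q⁻¹ * x'⁻¹ ∈ D.T c K :=
    D.comm_mem hK hc' (D.mem_T.1 hqT).1 (D.T_le_A e.2 hx')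
  -- everything commutes in N c
  have hcomm := D.comm c
  have k1 : x * a * x⁻¹ = (a * x * a⁻¹ * x⁻¹)⁻¹ * a := by group
  have k2 : x * a * x⁻¹ = (q * x' * q⁻¹ * x'⁻¹)⁻¹ * q := by rw [hq]; group
  set b := a * x * a⁻¹ * x⁻¹ with hb
  set b' := q * x' * q⁻¹ * x'⁻¹ with hb'
  have hbN := (D.mem_T.1 hB).1
  have hb'N := (D.mem_T.1 hB').1
  have hqN := (D.mem_T.1 hqT).1
  have k3 : b' * a = b * q := by
    have h1 : b⁻¹ * a = b'⁻¹ * q := k1.symm.trans k2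
    have h2 : b' * b * (b⁻¹ * a) = b' * b * (b'⁻¹ * q) := by rw [h1]
    have h3 : b' * b = b * b' := hcomm b' b hb'N hbN
    calc b' * a = b' * b * (b⁻¹ * a) := by group
      _ = b' * b * (b'⁻¹ * q) := h2
      _ = b * b' * (b'⁻¹ * q) := by rw [h3]
      _ = b * q := by group
  have k4 : b' * a = 1 := by
    refine T_int hH hK e.2 he (c := c) ?_ (mul_mem hB' hpT)
    rw [k3]; exact mul_mem hB hqT
  have k5 : b * q = 1 := k3 ▸ k4
  have k6 : q = b⁻¹ := eq_inv_of_mul_eq_one_right k5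
  have k7 : b'⁻¹ = a := inv_eq_of_mul_eq_one_right k4
  -- goal : b * x' * b⁻¹ * x'⁻¹ = a
  have hx'bN : x' * b⁻¹ * x'⁻¹ ∈ D.N c := by
    have := D.conj x' c b⁻¹ (inv_mem hbN)
    rwa [hx'c] at this
  have k8 : b' = b⁻¹ * (x' * b * x'⁻¹) := by rw [hb', k6]; group
  calc b * x' * b⁻¹ * x'⁻¹ = b * (x' * b⁻¹ * x'⁻¹) := by group
    _ = (x' * b⁻¹ * x'⁻¹) * b := hcomm _ _ hbN hx'bN
    _ = b'⁻¹ := by rw [k8]; group
    _ = a := k7

end Dat

end H89.ON
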