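import Cfsg.Agent.Lib.H89.ON8

set_option autoImplicit false
set_option linter.unusedSectionVars false
set_option linter.unusedVariables false

/-! O'Nan, part 9: the plane case, conclusion. -/

namespace H89.ON

namespace Spread

variable {M ι : Type*} [AddCommGroup M] [Finite M] (S : Spread M ι)

/-- restrictions of `Γ c` to `T d` -/
def rs (c d : ι) : AddSubgroup (S.T d →+ S.T c) where
  carrier := {φ | ∃ γ ∈ S.Γ c, ∀ a : S.T d, ((φ a : S.T c) : M) = γ a}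
  add_mem' := by
    rintro φ ψ ⟨γ, hγ, h⟩ ⟨γ', hγ', h'⟩
    refine ⟨γ + γ', add_mem hγ hγ', fun a => ?_⟩
    rw [AddMonoidHom.add_apply, AddSubgroup.coe_add, h, h']; rfl
  zero_mem' := ⟨0, zero_mem _, fun a => rfl⟩
  neg_mem' := by
    rintro φ ⟨γ, hγ, h⟩
    refine ⟨-γ, neg_mem hγ, fun a => ?_⟩
    rw [AddMonoidHom.neg_apply, AddSubgroup.coe_neg, h]; rfl

/-- the restriction -/
def rst {c : ι} (d : ι) {γ : M →+ M} (hγ : γ ∈ S.Γ c) : S.T d →+ S.T c :=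
  AddMonoidHom.mk' (fun a => (⟨γ a, S.im c γ hγ a⟩ : S.T c))
    (fun a b => by apply Subtype.ext; simp)

theorem rst_mem {c : ι} (d : ι) {γ : M →+ M} (hγ : γ ∈ S.Γ c) : S.rst d hγ ∈ S.rs c d :=
  ⟨γ, hγ, fun a => rfl⟩

theorem rs_inv {c d : ι} (hcd : c ≠ d) (α : S.T d →+ S.T c) (hα : α ∈ S.rs c d) (h0 : α ≠ 0) :
    ∃ β ∈ S.rs d c, β.comp α = AddMonoidHom.id _ ∧ α.comp β = AddMonoidHom.id _ := by
  obtain ⟨γ, hγ, h⟩ := hα
  obtain ⟨a0, ha0⟩ : ∃ a0, α a0 ≠ 0 := by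
    by_contra hcon
    push Not at hcon
    exact h0 (by ext a; rw [hcon a]; rfl)
  have h1 : γ a0 ≠ 0 := by
    rw [← h]; exact fun h' => ha0 (Subtype.ext h')
  obtain ⟨δ, hδ, h2, h3⟩ := S.exists_inv hcd hγ a0.2 h1
  refine ⟨S.rst c hδ, S.rst_mem c hδ, ?_, ?_⟩
  · ext a
    change δ (α a : M) = a
    rw [h, h2 a a.2]
  · ext a
    change ((α (S.rst c hδ a) : S.T c) : M) = a
    rw [h]
    exact h3 a a.2

theorem jord {c d : ι} (hcd : c ≠ d) {α β : M →+ M} (hα : α ∈ S.Γ c) (hβ : β ∈ S.Γ d) :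
    ∃ γ ∈ S.Γ c, ∀ a ∈ S.T d, γ a = α (β (α a)) := by
  have h := H48.Oz.jordan (S.rs c d) (S.rs d c) (fun α hα h0 => S.rs_inv hcd α hα h0)
    (fun β hβ h0 => S.rs_inv (Ne.symm hcd) β hβ h0) (S.rst_mem d hα) (S.rst_mem c hβ)
  obtain ⟨γ, hγ, h'⟩ := h
  exact ⟨γ, hγ, fun a ha => (h' ⟨a, ha⟩).symm⟩

end Spread

variable {G X : Type*} [Group G] [MulAction G X] [Finite G] [Finite X]

namespace Dat

variable {D : Dat G X}

theorem card_TA {H : Set X} (hH : D.IsHyp H) (b : H) : Nat.card (TA hH b) = Nat.card (D.T b H) :=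
  Nat.card_congr
    { toFun := fun a => ⟨val a.1, mem_TA.1 a.2⟩
      invFun := fun g => ⟨toMA hH g.1 (D.T_le_A b.2 g.2), g.2⟩
      left_inv := fun a => rfl
      right_inv := fun g => rfl }

/-- `Γ c` restricted to `T d` is the set of pairings -/
theorem BP_full {H K : Set X} (hH : D.IsHyp H) (hK : D.IsHyp K) {c : X} (hc : c ∈ H)
    (hc' : c ∈ K) (d : H) (hd : (d : X) ∉ K) {γ : D.MA hH →+ D.MA hH}
    (hγ : γ ∈ GA hH ⟨c, hc⟩) :
    ∃ g : TA hK ⟨c, hc'⟩, ∀ u : TA hH d,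
      ((BP hH hK hc hc' d g u : TA hH ⟨c, hc⟩) : D.MA hH) = γ u := by
  obtain ⟨n, hn, rfl⟩ := hγ
  have hcd : c ≠ d := fun h => hd (h ▸ hc')
  obtain ⟨g, hg, hgd⟩ := D.T_trans hK hc' hd (D.N_line (y := (d : X)) hn)
    (D.N_ne_point hn hcd)
  have hg' := D.mem_T.1 hg
  refine ⟨⟨toMA hK g (D.T_le_A hc' hg), hg⟩, fun u => ?_⟩
  apply val_inj
  rw [BP_val, val_gm]
  change g * val u.1 * g⁻¹ * (val u.1)⁻¹ = _
  have e1 : g⁻¹ * n ∈ D.W c d := by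
    refine D.mem_W.2 ⟨mul_mem (inv_mem hg'.1) hn, ?_⟩
    rw [mul_smul, ← hgd, inv_smul_smul]
  have hu := D.mem_T.1 (mem_TA.1 u.2)
  have e2 := D.W_comm hcd e1 (D.mem_W.2 ⟨hu.1, hu.2 c hc⟩)
  congr 1
  calc g * val u.1 * g⁻¹ = g * (val u.1 * (g⁻¹ * n)) * (g⁻¹ * n)⁻¹ * g⁻¹ := by group
    _ = g * (g⁻¹ * n * val u.1) * (g⁻¹ * n)⁻¹ * g⁻¹ := by rw [e2]
    _ = n * val u.1 * n⁻¹ := by group

theorem flip_bij {H K : Set X} (hH : D.IsHyp H) (hK : D.IsHyp K) {c : X} (hc : c ∈ H)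
    (hc' : c ∈ K) (d : H) (hd : (d : X) ∉ K) (e : K) (he : (e : X) ∉ H)
    (hHL : H = D.L c d) (hKL : K = D.L c e) (u : TA hH d) (hu : u ≠ 0) :
    Function.Bijective (fun g => BP hH hK hc hc' d g u) := by
  have hcd : c ≠ d := fun h => hd (h ▸ hc')
  have hce : c ≠ e := fun h => he (h ▸ hc)
  rw [Nat.bijective_iff_injective_and_card]
  constructor
  · intro g g' h
    by_contra hne
    have h1 : BP hH hK hc hc' d (g - g') u = 0 := by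
      rw [map_sub, AddMonoidHom.sub_apply, sub_eq_zero]
      exact h
    exact BP_nz hH hK hc hc' d hd (g - g') u (sub_ne_zero.2 hne) hu h1
  · rw [card_TA, card_TA]
    change Nat.card (D.T c K) = Nat.card (D.T c H)
    rw [D.T_line hH hc d.2 hcd hHL, D.T_line hK hc' e.2 hce hKL]
    exact D.card_W hce hcd

theorem BP_inv2 {H K : Set X} (hH : D.IsHyp H) (hK : D.IsHyp K) {c : X} (hc : c ∈ H)
    (hc' : c ∈ K) (d : H) (hd : (d : X) ∉ K) (e : K) (he : (e : X) ∉ H)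
    (hHL : H = D.L c d) (hKL : K = D.L c e)
    (α : TA hK ⟨c, hc'⟩ →+ TA hH ⟨c, hc⟩)
    (hα : α ∈ (AddMonoidHom.flip (BP hH hK hc hc' d)).range) (h0 : α ≠ 0) :
    ∃ β ∈ (AddMonoidHom.flip (BP hK hH hc' hc e)).range,
      β.comp α = AddMonoidHom.id _ ∧ α.comp β = AddMonoidHom.id _ := by
  obtain ⟨u, rfl⟩ := hα
  have hu : u ≠ 0 := by
    rintro rfl
    exact h0 (map_zero _)
  obtain ⟨u', hu'⟩ := BP_inv hH hK hc hc' d hd e he hHL hKL u hu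
  have hbij := flip_bij hH hK hc hc' d hd e he hHL hKL u hu
  refine ⟨AddMonoidHom.flip (BP hK hH hc' hc e) u', ⟨u', rfl⟩, ?_, ?_⟩
  · ext p : 1
    exact hu' p
  · ext x : 1
    obtain ⟨p, rfl⟩ := hbij.2 x
    change BP hH hK hc hc' d (BP hK hH hc' hc e (BP hH hK hc hc' d p u) u') u =
      BP hH hK hc hc' d p u
    rw [hu' p]

theorem pairing_line {H K : Set X} (hH : D.IsHyp H) (hK : D.IsHyp K) {c : X} (hc : c ∈ H)
    (hc' : c ∈ K) (d : H) (hd : (d : X) ∉ K) (e : K) (he : (e : X) ∉ H)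
    (hHL : H = D.L c d) (hKL : K = D.L c e) (g0 : TA hK ⟨c, hc'⟩) (hg0 : g0 ≠ 0)
    (g g1 : TA hK ⟨c, hc'⟩) (u v w : TA hH d)
    (h1 : BP hH hK hc hc' d g0 v = BP hH hK hc hc' d g1 u)
    (h2 : BP hH hK hc hc' d g0 w = BP hH hK hc hc' d g u) :
    BP hH hK hc hc' d g v = BP hH hK hc hc' d g1 w := by
  have hcd : c ≠ d := fun h => hd (h ▸ hc')
  have hcd' : (⟨c, hc⟩ : H) ≠ d := fun h => hcd (congrArg Subtype.val h)
  have nt1 : Nontrivial (TA hK ⟨c, hc'⟩) := ⟨⟨g0, 0, hg0⟩⟩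
  have nt2 : Nontrivial (TA hH d) := by
    obtain ⟨a, ha, ha0⟩ := (spr hH).nt d
    exact ⟨⟨⟨a, ha⟩, 0, fun h => ha0 (congrArg Subtype.val h)⟩⟩
  have hb1 : ∀ g, g ≠ 0 → Function.Bijective (BP hH hK hc hc' d g) := by
    intro g hg
    rw [Nat.bijective_iff_injective_and_card]
    constructor
    · intro u v huv
      by_contra hne
      exact BP_nz hH hK hc hc' d hd g (u - v) hg (sub_ne_zero.2 hne)
        (by rw [map_sub, huv, sub_self])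
    · exact (spr hH).card_eq ⟨c, hc⟩ d
  have hb2 := flip_bij hH hK hc hc' d hd e he hHL hKL
  have JL : ∀ g0, g0 ≠ 0 → ∀ g, ∃ g', ∀ u v, BP hH hK hc hc' d g0 v = BP hH hK hc hc' d g u →
      BP hH hK hc hc' d g v = BP hH hK hc hc' d g' u := by
    intro g0 hg0 g
    obtain ⟨a0, ha0⟩ := _root_.exists_ne (0 : TA hH d)
    have m0 : gm hH ⟨c, hc⟩ (val g0.1) (D.mem_T.1 (mem_TA.1 g0.2)).1 ∈ (spr hH).Γ ⟨c, hc⟩ :=
      ⟨_, _, rfl⟩
    have m1 : gm hH ⟨c, hc⟩ (val g.1) (D.mem_T.1 (mem_TA.1 g.2)).1 ∈ (spr hH).Γ ⟨c, hc⟩ :=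
      ⟨_, _, rfl⟩
    have h0 : gm hH ⟨c, hc⟩ (val g0.1) (D.mem_T.1 (mem_TA.1 g0.2)).1 a0.1 ≠ 0 := by
      intro h
      exact BP_nz hH hK hc hc' d hd g0 a0 hg0 ha0 (Subtype.ext h)
    obtain ⟨δ, hδ, hδ1, hδ2⟩ := (spr hH).exists_inv hcd' m0 a0.2 h0
    obtain ⟨γ, hγ, hγ'⟩ := (spr hH).jord hcd' m1 hδ
    obtain ⟨g', hg'⟩ := BP_full hH hK hc hc' d hd hγ
    refine ⟨g', fun u v huv => ?_⟩
    apply Subtype.ext
    rw [hg' u, hγ' u u.2, ← BP_coe hH hK hc hc' d g u, ← huv, BP_coe, BP_coe, hδ1 v v.2]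
  have JR : ∀ u0, u0 ≠ 0 → ∀ u, ∃ u', ∀ g h, BP hH hK hc hc' d h u0 = BP hH hK hc hc' d g u →
      BP hH hK hc hc' d h u = BP hH hK hc hc' d g u' := by
    intro u0 hu0 u
    obtain ⟨w, hw⟩ := BP_inv hH hK hc hc' d hd e he hHL hKL u0 hu0
    obtain ⟨u', hu'⟩ := H48.Oz.jordan (AddMonoidHom.flip (BP hH hK hc hc' d)).range
      (AddMonoidHom.flip (BP hK hH hc' hc e)).range
      (BP_inv2 hH hK hc hc' d hd e he hHL hKL) (BP_inv2 hK hH hc' hc e he d hd hKL hHL)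
      (α := AddMonoidHom.flip (BP hH hK hc hc' d) u) (β := AddMonoidHom.flip (BP hK hH hc' hc e) w)
      ⟨u, rfl⟩ ⟨w, rfl⟩
    refine ⟨u', fun g h hgh => ?_⟩
    have h1 := DFunLike.congr_fun hu' g
    change BP hH hK hc hc' d g u' =
      BP hH hK hc hc' d (BP hK hH hc' hc e (BP hH hK hc hc' d g u) w) u at h1
    rw [← hgh, hw h] at h1
    exact h1.symm
  exact (H48.Oz.pairing (BP hH hK hc hc' d) hb1 hb2 JL JR g0 hg0).2 g g1 u v w h1 h2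

/-- the plane case: commutation -/
theorem comm_line {H K : Set X} (hH : D.IsHyp H) (hK : D.IsHyp K) {c : X} (hc : c ∈ H)
    (hc' : c ∈ K) (d : H) (hd : (d : X) ∉ K) (e : K) (he : (e : X) ∉ H)
    (hHL : H = D.L c d) (hKL : K = D.L c e) :
    ∀ β ∈ (spr hH).Γ d, ∀ γ ∈ (spr hH).Γ ⟨c, hc⟩, ∀ γ' ∈ (spr hH).Γ ⟨c, hc⟩,
      ∀ a ∈ (spr hH).T ⟨c, hc⟩, γ (β (γ' (β a))) = γ' (β (γ (β a))) := by
  intro β hβ γ hγ γ' hγ' a ha
  have hcd : c ≠ d := fun h => hd (h ▸ hc')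
  have hcd' : (⟨c, hc⟩ : H) ≠ d := fun h => hcd (congrArg Subtype.val h)
  by_cases hβ0 : ∀ x ∈ (spr hH).T ⟨c, hc⟩, β x = 0
  · rw [hβ0 a ha, hβ0 _ ((spr hH).im _ γ' hγ' _), hβ0 _ ((spr hH).im _ γ hγ _), map_zero,
      map_zero]
  push Not at hβ0
  obtain ⟨x0, hx0, hβx0⟩ := hβ0
  obtain ⟨δ, hδ, h1, h2⟩ := (spr hH).exists_inv (Ne.symm hcd') hβ hx0 hβx0
  obtain ⟨g0, hg0⟩ := BP_full hH hK hc hc' d hd hδ
  obtain ⟨g, hg⟩ := BP_full hH hK hc hc' d hd hγ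
  obtain ⟨g1, hg1⟩ := BP_full hH hK hc hc' d hd hγ'
  have hu : β a ∈ (spr hH).T d := (spr hH).im d β hβ a
  have hv : β (γ' (β a)) ∈ (spr hH).T d := (spr hH).im d β hβ _
  have hw : β (γ (β a)) ∈ (spr hH).T d := (spr hH).im d β hβ _
  have hg00 : g0 ≠ 0 := by
    rintro rfl
    have h3 := hg0 ⟨β x0, (spr hH).im d β hβ x0⟩
    rw [map_zero] at h3
    have h4 : δ (β x0) = 0 := h3.symm
    rw [h1 x0 hx0] at h4
    exact hβx0 (by rw [h4, map_zero])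
  have h3 := pairing_line hH hK hc hc' d hd e he hHL hKL g0 hg00 g g1 ⟨β a, hu⟩ ⟨_, hv⟩ ⟨_, hw⟩
    (by
      apply Subtype.ext
      rw [hg0, hg1]
      exact h1 _ ((spr hH).im _ γ' hγ' _))
    (by
      apply Subtype.ext
      rw [hg0, hg]
      exact h1 _ ((spr hH).im _ γ hγ _))
  have h4 := congrArg Subtype.val h3
  rw [hg, hg1] at h4
  exact h4

/-- the kernel is transitive on each member of the spread -/
theorem scal_tr {H : Set X} (hH : D.IsHyp H) (c : H) : ∀ a ∈ (spr hH).T c, a ≠ 0 →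
    ∀ a' ∈ (spr hH).T c, ∃ φ ∈ (spr hH).Scal, φ a = a' := by
  by_cases hnc : ∀ c d, c ≠ d → ∃ e, e ≠ c ∧ e ≠ d ∧ ¬ Col (spr hH).T c d e
  · exact (spr hH).scal_of_nc hnc c
  push Not at hnc
  obtain ⟨c1, d1, hcd1, hcol⟩ := hnc
  have hcd1' : (c1 : X) ≠ d1 := fun h => hcd1 (Subtype.ext h)
  -- H is a line
  have hHL1 : H ⊆ D.L c1 d1 := by
    intro e he
    by_cases h1 : (⟨e, he⟩ : H) = c1
    · have : e = c1 := congrArg Subtype.val h1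
      rw [this]; exact D.left_mem _ _
    by_cases h2 : (⟨e, he⟩ : H) = d1
    · have : e = d1 := congrArg Subtype.val h2
      rw [this]; exact D.right_mem _ _
    exact mem_of_col hcd1' (Ne.symm h1) (Ne.symm h2) (hcol ⟨e, he⟩ h1 h2)
  have hline : ∀ {K : Set X}, D.IsHyp K → ∀ {y z : X}, y ≠ z → y ∈ K → z ∈ K → K = D.L y z :=
    fun hK _ _ hyz hy hz => D.hyp_eq_line hH c1.2 d1.2 hcd1' hHL1 hK hyz hy hz
  obtain ⟨d, hdc⟩ := (spr hH).two c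
  have hcd : c ≠ d := Ne.symm hdc
  have hcd' : (c : X) ≠ d := fun h => hcd (Subtype.ext h)
  have hHL : H = D.L c d := hline hH hcd' c.2 d.2
  obtain ⟨z, hz⟩ := D.exists_notMem_hyp hH
  have hcz : (c : X) ≠ z := fun h => hz (h ▸ c.2)
  have hd : (d : X) ∉ D.L c z := by
    intro h
    apply hz
    rw [hHL, D.L_eq_left hcz h (Ne.symm hcd')]
    exact D.right_mem _ _
  obtain ⟨K, hK, hcK, hzK, hdK⟩ := D.exists_hyp_sep hcz hd
  have hKL : K = D.L c z := hline hK hcz hcK hzK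
  refine (spr hH).scal_of_comm hcd ?_ (comm_line hH hK c.2 hcK d hdK ⟨z, hzK⟩ hz hHL hKL)
  intro a
  obtain ⟨e, he⟩ := (spr hH).cover a
  by_cases h1 : e = c
  · exact ⟨a, h1 ▸ he, 0, zero_mem _, (add_zero a).symm⟩
  by_cases h2 : e = d
  · exact ⟨0, zero_mem _, a, h2 ▸ he, (zero_add a).symm⟩
  have h3 : (e : X) ∈ D.L c d := hHL ▸ e.2
  have h4 : Col (TA hH) c d e := col_of_mem hcd' (fun h => h2 (Subtype.ext h)) h3
  exact (spr hH).col_full hcd (Ne.symm h1) (Ne.symm h2) h4 a he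

end Dat

end H89.ON
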